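import Cfsg.Agent.H45.GdDefs

/-! Project CY, chapter IV GOOD, piece Q4. -/

set_option autoImplicit false

namespace Cfsg.Agent.H2CyQ4

open Subgroup MulAction Cfsg.Agent.H11.Cy Cfsg.Agent.H45.Iv Cfsg.Agent.H45.Gd
open scoped commutatorElement

theorem q4 : Q4Stmt := by
  intro G _ _ Ω _ _ H _ _ Θ _ _ p A P B π ρ st p2 ep sk ls sub pj pm bs big v w hvw
  obtain ⟨x, hx, rfl⟩ := pj.rsurj v
  obtain ⟨y, hy, rfl⟩ := pj.rsurj w
  have hxy : x ≠ y := fun e => hvw (e ▸ rfl)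
  obtain ⟨la, -, -, ld⟩ := ls x y hxy
  have rF : Rl A x y ≤ Fl A x y := la.sup ▸ le_sup_left
  have rM : Rl A x y ≤ Ms A P := rF.trans (sk.fle P x hx y hy).1
  have key : ∀ r : Ms A P, (r : G) ∈ Rl A x y → (π r ∈ Zl B (ρ x) (ρ y) ↔ (r : G) ∈ Zl A x y) := by
    refine fun r hr => ⟨fun h => ?_, fun h => (pm.zl x hx y hy hvw _).2 ⟨r, h, rfl⟩⟩
    obtain ⟨z, hz, e⟩ := (pm.zl x hx y hy hvw _).1 h
    have := pm.kz x hx y hy hvw (r * z⁻¹) (mul_mem (rF hr) (inv_mem (mem_inf.1 hz).1))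
      (by rw [map_mul, map_inv, e, mul_inv_cancel])
    simpa using mul_mem this hz
  refine ⟨⟨fun r hr hn z hz => ?_⟩, fun r hr hn => ?_⟩
  · obtain ⟨r, h1, rfl⟩ := (pm.rl x hx y hy _).1 hr
    obtain ⟨z, h2, rfl⟩ := (pm.zl x hx y hy hvw _).1 hz
    obtain ⟨s, hs, e⟩ := ld.full r h1 (fun h => hn ((key r h1).2 h)) z h2
    refine ⟨π ⟨s, rM hs⟩, (pm.rl x hx y hy _).2 ⟨_, hs, rfl⟩, ?_⟩
    rw [← map_commutatorElement]
    exact congrArg π (Subtype.ext e)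
  · obtain ⟨r, h1, rfl⟩ := (pm.rl x hx y hy _).1 hr
    obtain ⟨s, hs, e, n1, n2⟩ := big x y hxy r h1 fun h => hn ((key r h1).2 h)
    refine ⟨π ⟨s, rM hs⟩, (pm.rl x hx y hy _).2 ⟨_, hs, rfl⟩, ?_, fun h => n1 ((key ⟨s, rM hs⟩ hs).1 h),
      fun h => n2 ((key (r * ⟨s, rM hs⟩) (mul_mem h1 hs)).1 (by rwa [map_mul]))⟩
    rw [← map_mul, ← map_mul]
    exact congrArg π (Subtype.ext e)

end Cfsg.Agent.H2CyQ4
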