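import Cfsg.Agent.H6.E82Defs

/-! Project E82, piece CH. -/

set_option autoImplicit false

namespace Cfsg.Agent.H2E82Ch

open Cfsg.Agent.H6.E82 H82

theorem exists_aut {Γ S : Type} [Group Γ] [Group S] {H : Subgroup Γ} {ψ : S →* Γ}
    (inj : Function.Injective ψ) (hn : ∀ h ∈ H, ∀ s, ∃ s', h * ψ s * h⁻¹ = ψ s') {g : Γ}
    (hg : g ∈ H) : ∃ α : MulAut S, ∀ s, ψ (α s) = g * ψ s * g⁻¹ := by
  choose f hf using hn g hg
  choose f' hf' using hn g⁻¹ (inv_mem hg)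
  refine ⟨{ toFun := f, invFun := f', left_inv := fun s => inj ?_, right_inv := fun s => inj ?_,
            map_mul' := fun a b => inj ?_ }, fun s => (hf s).symm⟩
  · rw [← hf', ← hf]; group
  · rw [← hf, ← hf']; group
  · rw [map_mul, ← hf, ← hf, ← hf, map_mul]; group

theorem ch (auta : AutaStmt) (autb : AutbStmt) : ChStmt := by
  intro H ψ e x hx g hg hc
  obtain ⟨α, hα⟩ := exists_aut e.1 e.2.2.1 hg
  have αx : α x = x := e.1 (by rw [hα, hc.eq, mul_inv_cancel_right])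
  obtain ⟨g0, h0⟩ := autb.1 α
  obtain ⟨k, b, hb, rfl⟩ := auta x hx g0
  let β : MulAut SL := MulAut.conj (x ^ k)⁻¹ * α
  have hβ : ∀ s, β s = (x ^ k)⁻¹ * α s * x ^ k := fun s => by
    simp only [β, MulAut.mul_apply, MulAut.conj_apply, inv_inv]
  have βx : β x = x := by rw [hβ, αx]; group
  have βu : ∀ t, ∃ t', β (uu t) = uu t' := fun t => by
    obtain ⟨t', h⟩ := h0 t
    refine ⟨b 0 0 ^ 2 * t', ?_⟩
    rw [hβ, h, ← conj_uu_of_mem_BB hb]; group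
  have h1 : β = 1 := autb.2 β fun c t => by
    obtain ⟨j, b', hb', rfl⟩ := auta x hx c
    obtain ⟨t', h⟩ := βu (b' 0 0 ^ 2 * t)
    have n := ne_zero_of_mem_BB hb'
    refine ⟨(b' 0 0 ^ 2)⁻¹ * t', ?_⟩
    have e1 : ∀ s, x ^ j * b' * uu s * (x ^ j * b')⁻¹ = x ^ j * uu (b' 0 0 ^ 2 * s) * (x ^ j)⁻¹ :=
      fun s => by rw [← conj_uu_of_mem_BB hb']; group
    rw [e1, e1, map_mul, map_mul, map_inv, map_pow, βx, h, mul_inv_cancel_left₀ (pow_ne_zero 2 n)]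
  have hz : (ψ x ^ k)⁻¹ * g = 1 := e.2.2.2 _ (mul_mem (inv_mem (pow_mem (e.2.1 x) k)) hg) fun s => by
    have := hβ s
    rw [h1, MulAut.one_apply] at this
    have := congrArg ψ this
    rw [map_mul, map_mul, map_inv, map_pow, hα] at this
    change _ * _ = _ * _
    conv_rhs => rw [this]
    have c : g⁻¹ * ψ x ^ k * (ψ x ^ k)⁻¹ * g = 1 := by group
    calc (ψ x ^ k)⁻¹ * g * ψ s = (ψ x ^ k)⁻¹ * g * ψ s * (g⁻¹ * ψ x ^ k * (ψ x ^ k)⁻¹ * g) := by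
          rw [c, mul_one]
      _ = _ := by simp only [mul_assoc]
  rw [inv_mul_eq_one] at hz
  exact hz ▸ Subgroup.npow_mem_zpowers _ k

end Cfsg.Agent.H2E82Ch
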