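import Mathlib
import Cfsg.Agent.H1.FrobCount
import Cfsg.Agent.H9.InvCount
import Cfsg.Agent.H58.Simple
import Cfsg.Agent.H13.OrdCrit

/-!
Frobenius' conjecture for groups whose composition factors are N-groups: definitions and tools.
`f G n` is the number of solutions of `x ^ n = 1`.
-/

set_option autoImplicit false

namespace Cfsg.Agent.H2.FC

open Subgroup

/-- The number of solutions of `x ^ n = 1`. -/
noncomputable def f (G : Type*) [Group G] (n : ℕ) : ℕ := Nat.card {x : G // x ^ n = 1}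

/-- Only `n = 1` and `n = |G|` have exactly `n` solutions. -/
def Fr (G : Type*) [Group G] : Prop := ∀ n, n ∣ Nat.card G → f G n = n → n = 1 ∨ n = Nat.card G

variable {G : Type*} [Group G]

theorem f_eq (n : ℕ) : f G n = {x : G | x ^ n = 1}.ncard := rfl

theorem f_congr {H : Type*} [Group H] (e : G ≃* H) (n : ℕ) : f G n = f H n :=
  Nat.card_congr (e.toEquiv.subtypeEquiv fun x => by
    rw [MulEquiv.toEquiv_eq_coe, MulEquiv.coe_toEquiv, ← map_pow, map_eq_one_iff e e.injective])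

theorem Fr.congr {H : Type*} [Group H] (e : G ≃* H) (h : Fr H) : Fr G := fun n hn hf => by
  rw [Nat.card_congr e.toEquiv] at hn ⊢
  exact h n hn (f_congr e n ▸ hf)

variable [Finite G]

theorem f_pos (n : ℕ) : 0 < f G n := Nat.card_pos_iff.2 ⟨⟨⟨1, one_pow n⟩⟩, inferInstance⟩

theorem le_f {S : Set G} {n : ℕ} (h : ∀ x ∈ S, x ^ n = 1) : S.ncard ≤ f G n :=
  Set.ncard_le_ncard h (Set.toFinite _)

theorem f_mono {m n : ℕ} (h : m ∣ n) : f G m ≤ f G n :=
  le_f (S := {x : G | x ^ m = 1}) fun x hx => by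
    obtain ⟨k, rfl⟩ := h
    rw [pow_mul, show x ^ m = 1 from hx, one_pow]

theorem le_f_of_dvd {n : ℕ} (h : n ∣ Nat.card G) : n ≤ f G n :=
  Nat.le_of_dvd (f_pos n) (H1.dvd_card_pow_eq_one h)

/-- an injection into the solutions -/
theorem le_f_of_inj {X : Type*} {n : ℕ} (φ : X → G) (h : Function.Injective φ)
    (hn : ∀ x, φ x ^ n = 1) : Nat.card X ≤ f G n :=
  Nat.card_le_card_of_injective (fun x => (⟨φ x, hn x⟩ : {x : G // x ^ n = 1}))
    fun _ _ e => h (congrArg Subtype.val e)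

/-- If `n` divides `|H|` and `f n ≤ n`, all solutions lie in `H`. -/
theorem mem_of_dvd {H : Subgroup G} {n : ℕ} (hn : n ∣ Nat.card H) (hf : f G n ≤ n) {x : G}
    (hx : x ^ n = 1) : x ∈ H := by
  let φ : {y : H // y ^ n = 1} → {y : G // y ^ n = 1} :=
    fun y => ⟨y.1, congrArg Subtype.val y.2⟩
  have hi : Function.Injective φ := fun a b e =>
    Subtype.ext (Subtype.ext (congrArg (fun t : {y : G // y ^ n = 1} => t.1) e))
  obtain ⟨y, hy⟩ := (hi.bijective_of_nat_card_le (hf.trans (le_f_of_dvd hn))).2 ⟨x, hx⟩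
  have : (y.1 : G) = x := congrArg Subtype.val hy
  exact this ▸ y.1.2

/-- Tool (H). -/
theorem hsub [IsSimpleGroup G] {H : Subgroup G} (hH : H ≠ ⊤) {n : ℕ} (hn : n ∣ Nat.card H)
    (hf : f G n = n) : n = 1 := by
  by_contra h1
  obtain ⟨p, hp, hpn⟩ := Nat.exists_prime_and_dvd h1
  have := Fact.mk hp
  obtain ⟨x, hx⟩ := exists_prime_orderOf_dvd_card' (G := G) p
    (hpn.trans (hn.trans H.card_subgroup_dvd_card))
  have hxn : x ^ n = 1 := orderOf_dvd_iff_pow_eq_one.1 (hx ▸ hpn)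
  have hc : x ∈ H.normalCore := fun g => mem_of_dvd hn hf.le (by rw [conj_pow, hxn]; simp)
  rcases H.normalCore_normal.eq_bot_or_eq_top with h | h
  · rw [h, mem_bot] at hc
    rw [hc, orderOf_one] at hx
    exact hp.one_lt.ne hx
  · exact hH (top_le_iff.1 (h ▸ H.normalCore_le))

theorem hsub' [IsSimpleGroup G] (H : Subgroup G) {c n : ℕ} (hH : Nat.card H = c)
    (hc : c ≠ Nat.card G) (hn : n ∣ c) (hf : f G n = n) : n = 1 :=
  hsub (H := H) (fun e => hc (by rw [← hH, e, card_top])) (hH ▸ hn) hf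

/-- (H) for a prime power -/
theorem hpow [IsSimpleGroup G] {p k n : ℕ} (hp : p.Prime) (hk : p ^ k ∣ Nat.card G)
    (hne : p ^ k ≠ Nat.card G) (hn : n ∣ p ^ k) (hf : f G n = n) : n = 1 := by
  have := Fact.mk hp
  obtain ⟨H, hH⟩ := Sylow.exists_subgroup_card_pow_prime p hk
  exact hsub' H hH hne hn hf

/-- Tool (T): the index of `n` is not a prime. -/
theorem hprime [IsSimpleGroup G] (hG : ¬ IsMulCommutative G) {p n : ℕ} (hp : p.Prime)
    (hn : n * p = Nat.card G) : f G n ≠ n := by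
  intro hf
  have := Fact.mk hp
  obtain ⟨P⟩ : Nonempty (Sylow p G) := inferInstance
  set N := normalizer ((P : Subgroup G) : Set G)
  set C := centralizer ((P : Subgroup G) : Set G)
  have hCN : C ≤ N := centralizer_le_normalizer _
  have h2 : 2 * Nat.card C ≤ Nat.card N := by
    obtain ⟨k, hk⟩ := card_dvd_of_le hCN
    have h0 : k ≠ 0 := by rintro rfl; exact Nat.card_pos.ne' hk
    have h1 : k ≠ 1 := by
      rintro rfl
      exact H58.not_normalizer_le_centralizer hG P (Dvd.intro_left n hn)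
        (eq_of_le_of_card_ge hCN (by omega)).ge
    rw [hk, mul_comm]; exact Nat.mul_le_mul_left _ (by omega)
  let φ : (G ⧸ N) × C → G := fun a => a.1.out * a.2 * a.1.out⁻¹
  have hφ : ∀ x c : G, c ∈ C → x * c * x⁻¹ ∈ Set.range φ := by
    intro x c hc
    obtain ⟨m, hm⟩ := QuotientGroup.mk_out_eq_mul N x
    refine ⟨⟨x, (m : G)⁻¹ * c * m, fun y hy => ?_⟩, ?_⟩
    · have := hc _ ((mem_normalizer_iff.1 m.2 y).1 hy)
      calc y * ((m : G)⁻¹ * c * m) = (m : G)⁻¹ * ((m * y * (m : G)⁻¹) * c) * m := by group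
        _ = _ := by rw [this]; group
    · change (x : G ⧸ N).out * ((m : G)⁻¹ * c * m) * (x : G ⧸ N).out⁻¹ = _
      rw [hm]; group
  have hB : insert 1 {x : G | x ^ n = 1}ᶜ ⊆ Set.range φ := by
    rintro g (rfl | hg)
    · simpa using hφ 1 1 C.one_mem
    have h0 : n ≠ 0 := by rintro rfl; exact hg (pow_zero g)
    obtain ⟨e, m, hm, rfl⟩ := Nat.exists_eq_pow_mul_and_not_dvd h0 p hp.ne_one
    have ho : orderOf (g ^ m) = p ^ (e + 1) := orderOf_eq_prime_pow
      (by rwa [← pow_mul, mul_comm]) (by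
        rw [← pow_mul, show m * p ^ (e + 1) = p ^ e * m * p by ring, hn, pow_card_eq_one'])
    let Q : Sylow p G := Sylow.ofCard (zpowers (g ^ m)) (by
      rw [Nat.card_zpowers, ho, ← hn, show p ^ e * m * p = p ^ (e + 1) * m by ring,
        Nat.factorization_mul (pow_ne_zero _ hp.ne_zero) (right_ne_zero_of_mul h0),
        Finsupp.add_apply, Nat.factorization_eq_zero_of_not_dvd hm, hp.factorization_pow]
      simp)
    obtain ⟨x, hx⟩ := MulAction.exists_smul_eq G P Q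
    have : x⁻¹ * g * x ∈ C := fun y hy => by
      have h1 : x * y * x⁻¹ ∈ (Q : Subgroup G) := by
        rw [← hx]; exact ⟨y, hy, rfl⟩
      obtain ⟨k, hk⟩ := mem_zpowers_iff.1 h1
      have h2 : Commute (x * y * x⁻¹) g := hk ▸ ((Commute.refl g).pow_left m).zpow_left k
      calc y * (x⁻¹ * g * x) = x⁻¹ * (x * y * x⁻¹ * g) * x := by group
        _ = _ := by rw [h2.eq]; group
    simpa [mul_assoc] using hφ x _ this
  have h3 := Set.ncard_le_ncard hB (Set.toFinite _)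
  rw [Set.ncard_insert_of_notMem (by simp)] at h3
  have h4 : (Set.range φ).ncard ≤ N.index * Nat.card C := by
    rw [← Set.image_univ]
    refine (Set.ncard_image_le (Set.toFinite _)).trans ?_
    rw [Set.ncard_univ, Nat.card_prod]; rfl
  have h5 := Set.ncard_add_ncard_compl {x : G | x ^ n = 1}
  have h6 := N.index_mul_card
  have h7 : n * 2 ≤ n * p := Nat.mul_le_mul_left _ hp.two_le
  have h8 := Nat.mul_le_mul_left N.index h2
  rw [← f_eq, hf] at h5
  nlinarith

/-- the usual end of a case: `f n > |G| / 4` -/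
theorem of_big [IsSimpleGroup G] (hG : ¬ IsMulCommutative G) {n : ℕ} (hn : n ∣ Nat.card G)
    (hf : f G n = n) (h : Nat.card G < 4 * n) : n = Nat.card G := by
  obtain ⟨k, hk⟩ := hn
  have h0 : k ≠ 0 := by rintro rfl; exact Nat.card_pos.ne' hk
  have h4 : k < 4 := by
    rw [hk, mul_comm 4] at h; exact Nat.lt_of_mul_lt_mul_left h
  obtain rfl | rfl | rfl : k = 1 ∨ k = 2 ∨ k = 3 := by omega
  · omega
  · exact (hprime hG Nat.prime_two hk.symm hf).elim
  · exact (hprime hG Nat.prime_three hk.symm hf).elim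

/-- solutions other than `1` -/
theorem ncard_ne_one (n : ℕ) : {x : G | x ≠ 1 ∧ x ^ n = 1}.ncard + 1 = f G n := by
  rw [f_eq, ← Set.ncard_insert_of_notMem (a := 1) (by simp)]
  congr 1
  ext x
  by_cases h : x = 1 <;> simp [h]

omit [Finite G] in
theorem eq_one_of_coprime {u v : ℕ} (h : u.Coprime v) {x : G} (hu : x ^ u = 1) (hv : x ^ v = 1) :
    x = 1 := by
  rw [← pow_one x, ← h.gcd_eq_one]; exact pow_gcd_eq_one.2 ⟨hu, hv⟩

omit [Finite G] in
theorem pow_of_dvd {u n : ℕ} {x : G} (h : x ^ u = 1) (hu : u ∣ n) : x ^ n = 1 := by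
  obtain ⟨k, rfl⟩ := hu
  rw [pow_mul, h, one_pow]

theorem f2 {u v n : ℕ} (h : u.Coprime v) (hu : u ∣ n) (hv : v ∣ n) :
    f G u + f G v ≤ f G n + 1 := by
  have := Set.ncard_union_add_ncard_inter {x : G | x ^ u = 1} {x : G | x ^ v = 1}
  have h1 : {x : G | x ^ u = 1} ∩ {x : G | x ^ v = 1} = {1} := by
    ext x
    exact ⟨fun hx => eq_one_of_coprime h hx.1 hx.2, by rintro rfl; simp⟩
  have h2 : ({x : G | x ^ u = 1} ∪ {x : G | x ^ v = 1}).ncard ≤ f G n := le_f (by
    rintro x (hx | hx)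
    exacts [pow_of_dvd hx hu, pow_of_dvd hx hv])
  rw [h1, Set.ncard_singleton, ← f_eq, ← f_eq] at this
  omega

theorem f3 {u v w n : ℕ} (h1 : u.Coprime v) (h2 : u.Coprime w) (h3 : v.Coprime w) (hu : u ∣ n)
    (hv : v ∣ n) (hw : w ∣ n) : f G u + f G v + f G w ≤ f G n + 2 := by
  have a := f2 (G := G) h1 (dvd_mul_right u v) (dvd_mul_left v u)
  have b := f2 (G := G) (Nat.Coprime.mul_left h2 h3) (h1.mul_dvd_of_dvd_of_dvd hu hv) hw
  omega

theorem f4 {u v w t n : ℕ} (h1 : u.Coprime v) (h2 : u.Coprime w) (h3 : v.Coprime w)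
    (h4 : u.Coprime t) (h5 : v.Coprime t) (h6 : w.Coprime t) (hu : u ∣ n)
    (hv : v ∣ n) (hw : w ∣ n) (ht : t ∣ n) : f G u + f G v + f G w + f G t ≤ f G n + 3 := by
  have a := f2 (G := G) h1 (dvd_mul_right u v) (dvd_mul_left v u)
  have b := f3 (G := G) (Nat.Coprime.mul_left h2 h3) (Nat.Coprime.mul_left h4 h5) h6
    (h1.mul_dvd_of_dvd_of_dvd hu hv) hw ht
  omega

/-- Tool (C): a lower bound for the number of conjugates of the elements of `S`. -/
theorem ti_count (S T : Set G) (c : ℕ) (h : ∀ y ∈ S, {g : G | g * y * g⁻¹ ∈ S}.ncard ≤ c)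
    (hT : ∀ y ∈ S, ∀ g, g * y * g⁻¹ ∈ T) : S.ncard * Nat.card G ≤ c * T.ncard := by
  classical
  have := Fintype.ofFinite G
  let φ : S × G → T := fun a => ⟨a.2⁻¹ * a.1 * a.2⁻¹⁻¹, hT _ a.1.2 _⟩
  have h1 : Nat.card (S × G) = ∑ t : T, Nat.card {a // φ a = t} := by
    rw [← Nat.card_congr (Equiv.sigmaFiberEquiv φ), Nat.card_sigma]
  rw [← Nat.card_coe_set_eq, ← Nat.card_prod, h1, ← Nat.card_coe_set_eq, mul_comm,
    Nat.card_eq_fintype_card, ← Finset.card_univ, ← smul_eq_mul]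
  refine Finset.sum_le_card_nsmul _ _ _ fun t _ => ?_
  rcases isEmpty_or_nonempty {a // φ a = t} with h0 | ⟨⟨⟨y, k⟩, hk⟩⟩
  · simp
  refine le_trans ?_ (h y y.2)
  have hk' : k⁻¹ * y * k⁻¹⁻¹ = t := congrArg Subtype.val hk
  have key : ∀ a : {a // φ a = t}, a.1.2 * k⁻¹ * y * (a.1.2 * k⁻¹)⁻¹ = a.1.1 := fun a => by
    have ha : a.1.2⁻¹ * a.1.1 * a.1.2⁻¹⁻¹ = t := congrArg Subtype.val a.2
    calc _ = a.1.2 * (k⁻¹ * y * k⁻¹⁻¹) * a.1.2⁻¹ := by group
      _ = _ := by rw [hk', ← ha]; group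
  refine Nat.card_le_card_of_injective
    (fun a => (⟨a.1.2 * k⁻¹, by rw [Set.mem_ofPred_eq, key a]; exact a.1.1.2⟩ :
      {g : G | g * y * g⁻¹ ∈ S})) fun a b e => ?_
  have e' : a.1.2 * k⁻¹ = b.1.2 * k⁻¹ := congrArg Subtype.val e
  exact Subtype.ext (Prod.ext (Subtype.ext (by rw [← key a, ← key b, e'])) (mul_right_cancel e'))

/-- (C) for a subgroup: the solutions of `x ^ α = 1` inside `A` and their conjugates. -/
theorem sub_count (A : Subgroup G) (c α : ℕ)
    (h : ∀ y ∈ A, y ≠ 1 → {g : G | g * y * g⁻¹ ∈ A}.ncard ≤ c) :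
    (f A α - 1) * Nat.card G ≤ c * (f G α - 1) := by
  have h1 := ti_count {y : G | y ∈ A ∧ y ≠ 1 ∧ y ^ α = 1} {y : G | y ≠ 1 ∧ y ^ α = 1} c
    (fun y hy => (Set.ncard_le_ncard (fun g hg => hg.1) (Set.toFinite _)).trans (h y hy.1 hy.2.1))
    fun y hy g => ⟨by simpa using hy.2.1, by rw [conj_pow, hy.2.2]; simp⟩
  have h2 : {y : G | y ∈ A ∧ y ≠ 1 ∧ y ^ α = 1} = A.subtype '' {y : A | y ≠ 1 ∧ y ^ α = 1} := by
    ext y
    constructor
    · rintro ⟨a, b, c⟩
      exact ⟨⟨y, a⟩, ⟨fun e => b (congrArg Subtype.val e), Subtype.ext c⟩, rfl⟩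
    · rintro ⟨y, ⟨b, c⟩, rfl⟩
      exact ⟨y.2, fun e => b (Subtype.ext e), congrArg Subtype.val c⟩
  rw [h2, Set.ncard_image_of_injective _ A.subtype_injective] at h1
  rw [← ncard_ne_one, ← ncard_ne_one]
  simpa using h1

/-- (C) for any subgroup and a divisor of its order (Frobenius' theorem inside `A`). -/
theorem dvd_count (A : Subgroup G) (c α : ℕ) (hα : α ∣ Nat.card A)
    (h : ∀ y ∈ A, y ≠ 1 → {g : G | g * y * g⁻¹ ∈ A}.ncard ≤ c) :
    (α - 1) * Nat.card G ≤ c * (f G α - 1) :=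
  (Nat.mul_le_mul_right _ (Nat.sub_le_sub_right (le_f_of_dvd hα) 1)).trans (sub_count A c α h)

/-- the number of `g` with `g ^ k` conjugate to `z` -/
theorem conj_count (z : G) (k : ℕ) : Nat.card {x : G // IsConj z (x ^ k)} *
    Nat.card (centralizer ({z} : Set G)) = Nat.card G * Nat.card {x : G // x ^ k = z} := by
  have h1 : Nat.card {x : G // IsConj z (x ^ k)} =
      Nat.card {y : G // IsConj z y} * Nat.card {x : G // x ^ k = z} := by
    classical
    have := Fintype.ofFinite {y : G // IsConj z y}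
    let φ : {x : G // IsConj z (x ^ k)} → {y : G // IsConj z y} := fun x => ⟨x.1 ^ k, x.2⟩
    rw [← Nat.card_congr (Equiv.sigmaFiberEquiv φ), Nat.card_sigma, Nat.card_eq_fintype_card,
      ← smul_eq_mul, ← Finset.card_univ, ← Finset.sum_const]
    refine Finset.sum_congr rfl ?_
    rintro ⟨y, hy⟩ -
    obtain ⟨g, rfl⟩ := isConj_iff.1 hy
    refine Nat.card_congr ⟨fun x => ⟨g⁻¹ * x.1.1 * g⁻¹⁻¹, ?_⟩,
      fun x => ⟨⟨g * x.1 * g⁻¹, by rwa [conj_pow, x.2]⟩, Subtype.ext ?_⟩, fun x => ?_, fun x => ?_⟩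
    · have : x.1.1 ^ k = g * z * g⁻¹ := congrArg Subtype.val x.2
      rw [conj_pow, this]; group
    · change (g * x.1 * g⁻¹) ^ k = _
      rw [conj_pow, x.2]
    · ext; simp [mul_assoc]
    · ext; simp [mul_assoc]
  rw [h1, ← H9.card_isConj_mul_card_centralizer z]; ring

/-- a Sylow subgroup of prime order -/
theorem prime_count {p : ℕ} [hp : Fact p.Prime] (P : Sylow p G) (hP : Nat.card P = p) :
    f G p = Nat.card (Sylow p G) * (p - 1) + 1 := by
  rw [← H13.Crit.card_orderOf_prime P hP, ← ncard_ne_one]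
  congr 1
  refine congrArg Set.ncard (Set.ext fun x => ?_)
  exact ⟨fun h => orderOf_eq_prime h.2 h.1, fun h : orderOf x = p => ⟨by
    rintro rfl; exact hp.out.one_lt.ne (by simpa using h), h ▸ pow_orderOf_eq_one x⟩⟩

theorem prime_count' {p c : ℕ} [hp : Fact p.Prime] (P : Sylow p G) (hP : Nat.card P = p)
    (hN : Nat.card (normalizer ((P : Subgroup G) : Set G)) = c) :
    c * (f G p - 1) = Nat.card G * (p - 1) := by
  rw [prime_count P hP, Nat.add_sub_cancel, P.card_eq_index_normalizer, ← hN,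
    ← (normalizer ((P : Subgroup G) : Set G)).index_mul_card, ← mul_assoc, mul_comm (Nat.card _)]
  rfl

end Cfsg.Agent.H2.FC
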