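import Cfsg.Agent.H2.FCDefs
import Cfsg.Agent.H2.Hall

/-! Zemlin's reduction of Frobenius' conjecture to simple groups. -/

set_option autoImplicit false

namespace Cfsg.Agent.H2.FC

open Subgroup MulAction H1

universe u

section
variable {G : Type*} [Group G] [Finite G]

/-- P. Hall's form of Frobenius' theorem, for a set of solutions -/
theorem card_dvd_of_inv {p n : ℕ} (hp : p.Prime) {H : Subgroup G}
    (hH : IsPGroup p H) (hn : Nat.card H ∣ n) (R : G → Prop)
    (hT : ∀ h ∈ H, ∀ t, R t → R (h * t * h⁻¹))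
    (hR : ∀ u ∈ H, ∀ x, R x → (x * u) ^ n = x ^ n → R (x * u)) :
    Nat.card H ∣ Nat.card {x : G // R x} := by
  have : Fact p.Prime := ⟨hp⟩
  obtain ⟨k, hk⟩ := IsPGroup.iff_card.1 hH
  let : MulAction H G := MulAction.compHom G (MulAut.conj.comp H.subtype)
  let : MulAction H (G × (ℕ → G ⧸ H)) := Prod.mulAction
  let τ : {x : G // R x} → G × (ℕ → G ⧸ H) :=
    fun x => (x.1 ^ n, fun i => ((x.1 ^ i : G) : G ⧸ H))
  refine card_dvd_of_fiber_eq_stabilizer τ (fun h s => ?_) (fun s => ?_)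
  · refine ⟨⟨h * s.1 * (h : G)⁻¹, hT h h.2 _ s.2⟩, Prod.ext ?_ ?_⟩
    · exact conj_pow (a := (h : G)) (b := s.1)
    · funext i
      change (((h * s.1 * (h : G)⁻¹) ^ i : G) : G ⧸ H) = (((h : G) * s.1 ^ i : G) : G ⧸ H)
      rw [conj_pow, QuotientGroup.eq]
      simp [mul_assoc]
  · obtain ⟨x, hx⟩ := s
    have hst : ∀ h : H, h ∈ stabilizer H (τ ⟨x, hx⟩) ↔
        Commute (h : G) (x ^ n) ∧ ∀ i : ℕ, (x ^ i)⁻¹ * h * x ^ i ∈ H := by
      intro h
      rw [mem_stabilizer_iff, Prod.ext_iff]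
      refine and_congr ?_ ?_
      · exact mul_inv_eq_iff_eq_mul (a := (h : G) * x ^ n)
      · rw [funext_iff]
        refine forall_congr' fun i => ?_
        change (((h : G) * x ^ i : G) : G ⧸ H) = ((x ^ i : G) : G ⧸ H) ↔ _
        rw [eq_comm, QuotientGroup.eq, mul_assoc]
    let U : Subgroup G := (stabilizer H (τ ⟨x, hx⟩)).map H.subtype
    have hU : ∀ u, u ∈ U ↔ Commute u (x ^ n) ∧ ∀ i : ℕ, (x ^ i)⁻¹ * u * x ^ i ∈ H := by
      intro u
      constructor
      · rintro ⟨h, hh, rfl⟩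
        exact (hst h).1 hh
      · intro hu
        exact ⟨⟨u, by simpa using hu.2 0⟩, (hst _).2 hu, rfl⟩
    have hxU : x ∈ normalizer (U : Set G) := by
      refine (inv_mem_iff).1 (mem_normalizer_fintype fun u hu => (hU _).2 ⟨?_, fun i => ?_⟩)
      · have hx' : Commute x (x ^ n) := Commute.self_pow x n
        exact (hx'.inv_left.mul_left ((hU u).1 hu).1).mul_left hx'.inv_left.inv_left
      · have := ((hU u).1 hu).2 (i + 1)
        convert this using 1
        rw [pow_succ']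
        group
    have hfib : ∀ y : {x : G // R x}, τ y = τ ⟨x, hx⟩ → x⁻¹ * y.1 ∈ U := by
      intro y hy
      rw [Prod.ext_iff] at hy
      have h1 : y.1 ^ n = x ^ n := hy.1
      have h2 : ∀ i : ℕ, (y.1 ^ i)⁻¹ * x ^ i ∈ H := fun i => QuotientGroup.eq.1 (congrFun hy.2 i)
      refine (hU _).2 ⟨(Commute.self_pow x n).inv_left.mul_left (h1 ▸ Commute.self_pow y.1 n),
        fun i => ?_⟩
      have := H.mul_mem (H.inv_mem (h2 (i + 1))) (h2 i)
      convert this using 1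
      rw [pow_succ', pow_succ']
      group
    have hpow : ∀ u ∈ U, (x * u) ^ n = x ^ n := fun u hu =>
      pow_eq_pow_of_mem_coset (k := k) hp (hH.to_le (map_subtype_le _))
        (hk ▸ card_le_of_le (map_subtype_le _)) (hk ▸ hn) hxU (by rwa [inv_mul_cancel_left])
        ((Commute.self_pow x n).symm.mul_right ((hU u).1 hu).1.symm)
    have hτ : ∀ u (hu : u ∈ U), τ ⟨x * u, hR u (map_subtype_le _ hu) x hx (hpow u hu)⟩ = τ ⟨x, hx⟩ := by
      intro u hu
      refine Prod.ext (hpow u hu) (funext fun i => (QuotientGroup.eq.2 ?_).symm)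
      exact map_subtype_le _ (inv_pow_mul_pow_mem hxU (by rwa [inv_mul_cancel_left]) i)
    rw [← card_map_of_injective H.subtype_injective]
    exact Nat.card_congr ⟨fun y => ⟨_, hfib y.1 y.2⟩, fun u => ⟨_, hτ u.1 u.2⟩,
      fun y => by simp, fun u => by simp⟩

/-- solutions in a coset of a normal subgroup -/
theorem dvd_coset (N : Subgroup G) [N.Normal] {d n : ℕ} (hn : d ∣ n) (hd : d ∣ Nat.card N)
    (y : G ⧸ N) : d ∣ Nat.card {x : G // (x : G ⧸ N) = y ∧ x ^ n = 1} := by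
  refine (Nat.dvd_iff_prime_pow_dvd_dvd _ d).2 fun p k hp hk => ?_
  have : Fact p.Prime := ⟨hp⟩
  obtain ⟨H, hH⟩ := Sylow.exists_subgroup_card_pow_prime p (hk.trans hd)
  rw [← card_map_of_injective N.subtype_injective] at hH
  rw [← hH]
  have h1 : ∀ h ∈ H.map N.subtype, (h : G ⧸ N) = 1 := fun h hh =>
    (QuotientGroup.eq_one_iff h).2 (map_subtype_le _ hh)
  refine card_dvd_of_inv hp (IsPGroup.of_card hH) (hH ▸ hk.trans hn) _
    (fun h hh t ht => ⟨?_, by rw [conj_pow, ht.2]; simp⟩) fun h hh t ht e => ⟨?_, e ▸ ht.2⟩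
  · simp [h1 h hh, ht.1]
  · simp [h1 h hh, ht.1]

theorem le_coset (N : Subgroup G) [N.Normal] {d m r : ℕ} (hd : Nat.card N = r * d)
    (hc : m.Coprime r) {y : G ⧸ N} (hy : y ^ m = 1) :
    d ≤ Nat.card {x : G // (x : G ⧸ N) = y ∧ x ^ (m * d) = 1} := by
  refine Nat.le_of_dvd (Nat.card_pos_iff.2 ⟨?_, inferInstance⟩)
    (dvd_coset N (dvd_mul_left d m) (Dvd.intro_left r hd.symm) y)
  obtain ⟨x, rfl⟩ := QuotientGroup.mk_surjective y
  obtain ⟨e, h1, h2⟩ := Nat.chineseRemainder hc 1 0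
  obtain ⟨t, rfl⟩ := Nat.modEq_zero_iff_dvd.1 h2
  refine ⟨x ^ (r * t), ?_, ?_⟩
  · rw [QuotientGroup.mk_pow, pow_eq_pow_of_modEq h1 hy, pow_one]
  · have hx : x ^ m ∈ N := by rwa [← QuotientGroup.eq_one_iff, QuotientGroup.mk_pow]
    have : (x ^ m) ^ (r * d) = 1 := by
      rw [← hd]; exact congrArg Subtype.val (pow_card_eq_one' (x := (⟨_, hx⟩ : N)))
    rw [← pow_mul, show r * t * (m * d) = m * (r * d) * t by ring, pow_mul, pow_mul, this, one_pow]

theorem sum_coset (N : Subgroup G) [N.Normal] {d m r : ℕ} (hd : Nat.card N = r * d)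
    (hc : m.Coprime r) : f N d + d * f (G ⧸ N) m ≤ f G (m * d) + d := by
  classical
  have := Fintype.ofFinite {y : G ⧸ N // y ^ m = 1}
  let c : {y : G ⧸ N // y ^ m = 1} → ℕ :=
    fun y => Nat.card {x : G // (x : G ⧸ N) = y.1 ∧ x ^ (m * d) = 1}
  have h1 : ∑ y, c y ≤ f G (m * d) := by
    rw [← Nat.card_sigma]
    refine le_f_of_inj (fun a => a.2.1) ?_ fun a => a.2.2.2
    rintro ⟨⟨y, hy⟩, x, a, hx⟩ ⟨⟨y', hy'⟩, x', a', hx'⟩ e
    obtain rfl : x = x' := e
    obtain rfl : y = y' := Eq.trans (Eq.symm a) a'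
    rfl
  have h2 : f N d ≤ c ⟨1, one_pow m⟩ :=
    Nat.card_le_card_of_injective (fun x => ⟨x.1, (QuotientGroup.eq_one_iff _).2 x.1.2,
      pow_of_dvd (congrArg Subtype.val x.2) (dvd_mul_left d m)⟩) fun a b e =>
      Subtype.ext (Subtype.ext (by simpa using e))
  have h3 := Finset.card_nsmul_le_sum (Finset.univ.erase ⟨1, one_pow m⟩) c d
    fun y _ => le_coset N hd hc y.2
  rw [← Finset.add_sum_erase _ c (Finset.mem_univ ⟨1, one_pow m⟩)] at h1
  have h4 := Finset.card_erase_add_one (Finset.mem_univ (⟨1, one_pow m⟩ : {y : G ⧸ N // y ^ m = 1}))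
  rw [Finset.card_univ, ← Nat.card_eq_fintype_card] at h4
  rw [f.eq_1 (G ⧸ N), ← h4, mul_add, mul_one]
  rw [smul_eq_mul, mul_comm _ d] at h3
  linarith

theorem split (N : Subgroup G) [N.Normal] {d m r : ℕ} (hd : Nat.card N = r * d)
    (hc : m.Coprime r) (hn : m * d ∣ Nat.card G) (hf : f G (m * d) ≤ m * d) :
    m ∣ Nat.card (G ⧸ N) ∧ f (G ⧸ N) m ≤ m ∧ f N d ≤ d := by
  have h0 : 0 < d := Nat.pos_of_mul_pos_left (hd ▸ Nat.card_pos)
  have h1 : m ∣ Nat.card (G ⧸ N) := by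
    rw [N.card_eq_card_quotient_mul_card_subgroup, hd, ← mul_assoc] at hn
    exact hc.dvd_of_dvd_mul_right (Nat.dvd_of_mul_dvd_mul_right h0 hn)
  have h2 := sum_coset N hd hc
  have h3 := le_f_of_dvd h1
  have h4 : d ≤ f N d := le_f_of_dvd (Dvd.intro_left r hd.symm)
  have h5 := Nat.mul_le_mul_left d h3
  refine ⟨h1, Nat.le_of_mul_le_mul_left ?_ h0, ?_⟩ <;> nlinarith

end

/-- All composition factors satisfy `Fr`. -/
def CF (G : Type u) [Group G] : Prop :=
  ∀ H : Subgroup G, H.IsSubnormal → ∀ (S : Type u) [Group S] (φ : H →* S),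
    Function.Surjective φ → IsSimpleGroup S → Fr S

theorem CF.normal {G : Type u} [Group G] (h : CF G) (N : Subgroup G) [hN : N.Normal] : CF N :=
  fun H hH S _ φ hφ hS => h _ (hH.trans' hN.isSubnormal) S
    (φ.comp (H.equivMapOfInjective _ N.subtype_injective).symm.toMonoidHom)
    (hφ.comp (MulEquiv.surjective _)) hS

theorem CF.quot {G : Type u} [Group G] (h : CF G) (N : Subgroup G) [N.Normal] : CF (G ⧸ N) :=
  fun H hH S _ φ hφ hS => h _ (hH.comap (QuotientGroup.mk' N)) S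
    (φ.comp ((QuotientGroup.mk' N).subgroupComap H))
    (hφ.comp (MonoidHom.subgroupComap_surjective_of_surjective _ _
      (QuotientGroup.mk'_surjective N))) hS

theorem red (G : Type u) [Group G] [Finite G] :
    CF G → ∀ n, n ∣ Nat.card G → f G n ≤ n → ∃ H : Subgroup G, Nat.card H = n := by
  refine card_induction (P := fun G _ _ => CF G → ∀ n, n ∣ Nat.card G → f G n ≤ n →
    ∃ H : Subgroup G, Nat.card H = n) (fun G _ _ ih => ?_) G
  intro hG n hn hf
  by_cases hs : ∀ N : Subgroup G, N.Normal → N = ⊥ ∨ N = ⊤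
  · rcases subsingleton_or_nontrivial G with h | h
    · exact ⟨⊥, by rw [card_bot, eq_comm, ← Nat.dvd_one, ← Nat.card_unique (α := G)]; exact hn⟩
    · rcases hG ⊤ .top G (Subgroup.subtype ⊤) (fun x => ⟨⟨x, mem_top x⟩, rfl⟩) ⟨hs⟩ n hn
        (le_antisymm hf (le_f_of_dvd hn)) with rfl | rfl
      exacts [⟨⊥, card_bot⟩, ⟨⊤, card_top⟩]
  push Not at hs
  obtain ⟨N, hN, h0, h1⟩ := hs
  have hpos : 0 < n.gcd (Nat.card N) := Nat.gcd_pos_of_pos_right _ Nat.card_pos
  have hc := Nat.coprime_div_gcd_div_gcd hpos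
  have e1 := Nat.div_mul_cancel (Nat.gcd_dvd_left n (Nat.card N))
  have e2 := Nat.div_mul_cancel (Nat.gcd_dvd_right n (Nat.card N))
  generalize n.gcd (Nat.card N) = d at *
  generalize n / d = m at *
  generalize Nat.card N / d = r at *
  subst e1
  obtain ⟨a1, a2, a3⟩ := split N e2.symm hc hn hf
  by_cases hd : d = 1
  · subst hd
    rw [mul_one] at *
    obtain ⟨H, hH⟩ := ih _ (card_quotient_lt h0) (hG.quot N) m a1 a2
    let K := H.comap (QuotientGroup.mk' N)
    have hNK : N ≤ K := fun x hx => by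
      rw [mem_comap, QuotientGroup.mk'_apply, (QuotientGroup.eq_one_iff x).2 hx]; exact H.one_mem
    have hc1 : Nat.card (N.subgroupOf K) = r := by
      rw [card_subgroupOf, inf_of_le_left hNK, e2]
    have hc2 : (N.subgroupOf K).index = m := by
      have := (N.subgroupOf K).index_mul_card
      rw [hc1, card_comap_mk', hH, ← e2, mul_comm r] at this
      exact Nat.eq_of_mul_eq_mul_right (e2 ▸ Nat.card_pos) this
    obtain ⟨L, hL⟩ := exists_right_complement'_of_coprime (N := N.subgroupOf K)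
      (by rw [hc1, hc2]; exact hc.symm)
    exact ⟨L.map K.subtype, by
      rw [card_map_of_injective (subtype_injective _), ← hc2, hL.symm.index_eq_card]⟩
  · obtain ⟨D, hD⟩ := ih _ (card_subgroup_lt h1) (hG.normal N) d (Dvd.intro_left r e2) a3
    have hE : Nat.card (D.map N.subtype) = 1 * d := by
      rw [card_map_of_injective N.subtype_injective, hD, one_mul]
    have : (D.map N.subtype).Normal := ⟨by
      rintro _ ⟨x, hx, rfl⟩ g
      refine ⟨⟨_, hN.conj_mem x x.2 g⟩, mem_of_dvd hD.symm.dvd a3 (Subtype.ext ?_), rfl⟩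
      have : x ^ d = 1 := hD ▸ congrArg Subtype.val (pow_card_eq_one' (x := (⟨x, hx⟩ : D)))
      change (g * (x : G) * g⁻¹) ^ d = 1
      rw [conj_pow, ← coe_pow, this]; simp⟩
    obtain ⟨b1, b2, -⟩ := split (D.map N.subtype) hE (Nat.coprime_one_right m) hn hf
    obtain ⟨H, hH⟩ := ih _ (card_quotient_lt fun e => hd (by
      rw [e, card_bot] at hE; omega)) (hG.quot (D.map N.subtype)) m b1 b2
    exact ⟨H.comap (QuotientGroup.mk' _), by rw [card_comap_mk', hE, hH]; ring⟩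

theorem final {G : Type u} [Group G] [Finite G] (h : CF G) {n : ℕ} (hn : n ∣ Nat.card G)
    (hf : f G n = n) : ∃ H : Subgroup G, (H : Set G) = {x : G | x ^ n = 1} := by
  obtain ⟨H, hH⟩ := red G h n hn hf.le
  exact ⟨H, Set.ext fun x => ⟨fun hx =>
    hH ▸ congrArg Subtype.val (pow_card_eq_one' (x := (⟨x, hx⟩ : H))),
    mem_of_dvd hH.symm.dvd hf.le⟩⟩

end Cfsg.Agent.H2.FC
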