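import Cfsg.Agent.H2.FCDefs
import Cfsg.Agent.H39.SzTori
import Cfsg.Agent.H39.SzOvoid

/-! Frobenius' conjecture for the Suzuki groups. -/

set_option autoImplicit false

namespace Cfsg.Agent.H2.FC

open Subgroup

theorem ti_dvd {G : Type*} [Group G] [Finite G] {A : Subgroup G} (h : H39.IsTI A) {e k α : ℕ}
    (hN : Nat.card (normalizer (A : Set G)) = e * Nat.card A) (hk : Nat.card G = Nat.card A * k)
    (hα : α ≤ f A α) : α * k + e ≤ e * f G α + k := by
  have h1 := sub_count A (e * Nat.card A) α fun y hy h1 => by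
    rw [← hN]
    refine Set.ncard_le_ncard (s := {g : G | g * y * g⁻¹ ∈ A})
      (t := (normalizer (A : Set G) : Set G)) (fun g hg => ?_) (Set.toFinite _)
    exact (inv_mem_iff (x := g)).1 (h g⁻¹ y h1 hy (by simpa using hg))
  obtain ⟨u, hu⟩ := Nat.exists_eq_add_of_le' (f_pos (G := A) α)
  obtain ⟨v, hv⟩ := Nat.exists_eq_add_of_le' (f_pos (G := G) α)
  rw [hu, hv, hk] at h1
  simp only [Nat.add_sub_cancel] at h1
  have h2 : u * k ≤ e * v := Nat.le_of_mul_le_mul_left (by nlinarith) (Nat.card_pos (α := A))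
  have h3 : α * k ≤ (u + 1) * k := Nat.mul_le_mul_right _ (by omega)
  rw [hv]; nlinarith

theorem sz_arith {Q a b c α β γ : ℕ} (ha : α ≤ a) (hb : β ≤ b) (hc : γ ≤ c) (h1 : 0 < α)
    (h2 : 0 < β) (h3 : 0 < γ) (hQ : 0 < Q) {n : ℕ} (hn : n ≤ Q * (α * β * γ))
    (h : Q * (2 * (α * (b * c)) + β * (a * c) + γ * (a * b)) ≤ 4 * n) : Q * (a * b * c) ≤ n := by
  have e1 : α * (β * γ) ≤ α * (b * c) := by gcongr
  have e2 : β * (α * γ) ≤ β * (a * c) := by gcongr
  have e3 : γ * (α * β) ≤ γ * (a * b) := by gcongr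
  have e4 : 2 * (α * (b * c)) + β * (a * c) + γ * (a * b) ≤ 4 * (α * β * γ) :=
    Nat.le_of_mul_le_mul_left (by nlinarith) hQ
  have f1 : b * c ≤ β * γ := Nat.le_of_mul_le_mul_left (by nlinarith) h1
  have f2 : a * c ≤ α * γ := Nat.le_of_mul_le_mul_left (by nlinarith) h2
  have g1 : β * c ≤ b * c := by gcongr
  have g2 : b * γ ≤ b * c := by gcongr
  obtain rfl : γ = c := le_antisymm hc (Nat.le_of_mul_le_mul_left (g1.trans f1) h2)
  obtain rfl : β = b := le_antisymm hb (Nat.le_of_mul_le_mul_right f1 h3)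
  obtain rfl : α = a := le_antisymm ha (Nat.le_of_mul_le_mul_right f2 h3)
  nlinarith

theorem sq_le {Q v : ℕ} (h0 : 0 < Q) (h1 : 0 < v) (h : (Q + 1) * (Q - 1) ≤ v - 1) : Q * Q ≤ v := by
  obtain ⟨u, rfl⟩ : ∃ u, Q = u + 1 := Nat.exists_eq_add_of_le' h0
  have : (u + 1) * (u + 1) = (u + 1 + 1) * u + 1 := by ring
  rw [Nat.add_sub_cancel] at h
  omega

theorem sz_arith2 {Q n α β γ b c e v : ℕ} (h64 : 64 ≤ Q) (h1 : β ≤ b) (h2 : γ ≤ c)
    (h3 : n ≤ 2 * (α * β * γ)) (h5 : e ≤ 4) (h6 : v ≤ n)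
    (h7 : α * (Q * (b * c)) + e ≤ e * v + Q * (b * c)) (h8 : 0 < α) (h9 : 0 < b * c) : α = 1 := by
  by_contra h
  obtain ⟨u, rfl⟩ := Nat.exists_eq_add_of_le' (by omega : 2 ≤ α)
  have a1 : β * γ ≤ b * c := by gcongr
  have a2 : e * v ≤ 4 * n := by gcongr
  have a3 : 64 * (b * c) ≤ Q * (b * c) := by gcongr
  have a4 : (u + 2) * (β * γ) ≤ (u + 2) * (b * c) := by gcongr
  have a5 : u * (64 * (b * c)) ≤ u * (Q * (b * c)) := by gcongr
  nlinarith

theorem fr_model {G : Type*} [Group G] {F : Type*} [Field F] [H39.SzField F]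
    (S : H39.Model G F) : Fr G := by
  intro n hn hf
  have := H39.SzField.finite F
  have := S.finite
  have := S.isSimpleGroup
  obtain ⟨m, hm, hF⟩ := H39.SzField.exists_card (F := F)
  obtain ⟨x₁, x₂, h1, h2, -, e1, e2⟩ := S.exists_tori hF
  have hbc := H39.Model.tori_mul m
  have hco := H39.Model.coprime_tori m
  have hle := H39.Model.two_pow_le (m := m)
  have hG := S.card_eq
  have h8 := H39.SzField.eight_le F
  have c1 := H39.SzField.coprime_sq_add_one_sub_one F
  have o1 := H39.SzField.odd_sub_one F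
  have o2 := H39.SzField.odd_sq_add_one F
  have hU := S.card_U
  have hH := S.card_H
  have n1 := h1.card_normalizer
  have n2 := h2.card_normalizer
  have n3 := S.card_normalizer_H
  have n4 : Nat.card (normalizer (S.U : Set G)) = (Nat.card F - 1) * Nat.card S.U := by
    rw [S.normalizer_U, S.card_B, hU, mul_comm]
  have hs : Nat.card (centralizer {x₁}) + Nat.card (centralizer {x₂}) = 2 * Nat.card F + 2 := by
    rw [e1, e2, hF]; omega
  rw [← e1, ← e2, ← hF] at hbc
  rw [← e1, ← e2] at hco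
  rw [← hH] at n3 n4 hG c1 o1
  have hq : Nat.card F = Nat.card S.H + 1 := by omega
  rw [← hbc] at hG c1 o2
  have hQ : Nat.card S.U = 2 ^ (2 * (2 * m + 1)) := by rw [hU, hF, ← pow_mul, mul_comm]
  rw [← hU] at hG
  have t1 := ti_dvd S.isTI_H n3 (k := Nat.card S.U * (Nat.card (centralizer {x₁}) *
    Nat.card (centralizer {x₂}))) (by rw [hG]; ring) (le_f_of_dvd (Nat.gcd_dvd_right n _))
  have t2 := ti_dvd h1.isTI n1 (k := Nat.card S.U * (Nat.card S.H *
    Nat.card (centralizer {x₂}))) (by rw [hG]; ring) (le_f_of_dvd (Nat.gcd_dvd_right n _))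
  have t3 := ti_dvd h2.isTI n2 (k := Nat.card S.U * (Nat.card S.H *
    Nat.card (centralizer {x₁}))) (by rw [hG]; ring) (le_f_of_dvd (Nat.gcd_dvd_right n _))
  have hd : n ∣ n.gcd (Nat.card S.U) * (n.gcd (Nat.card S.H) *
      n.gcd (Nat.card (centralizer {x₁})) * n.gcd (Nat.card (centralizer {x₂}))) := by
    rw [mul_assoc, ← mul_assoc]
    rw [hG] at hn
    exact (Nat.dvd_gcd dvd_rfl hn).trans ((Nat.gcd_mul_right_dvd_mul_gcd _ _ _).trans
      (mul_dvd_mul (Nat.gcd_mul_right_dvd_mul_gcd _ _ _) (Nat.gcd_mul_right_dvd_mul_gcd _ _ _)))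
  have pa : 0 < Nat.card S.H := Nat.card_pos
  have pb : 0 < Nat.card (centralizer {x₁}) := Nat.card_pos
  have pc : 0 < Nat.card (centralizer {x₂}) := Nat.card_pos
  have pQ : 0 < Nat.card S.U := Nat.card_pos
  have t4 : 4 ∣ n → Nat.card S.U * Nat.card S.U ≤ f G 4 := fun _ => by
    have h := sub_count S.U _ 4 fun y hy h1 => (Set.ncard_le_ncard (s := {g : G | g * y * g⁻¹ ∈ S.U})
      (t := (S.B : Set G)) (fun g hg => S.mem_B_of_conj_mem_B' hy h1 (S.U_le_B hg))
      (Set.toFinite _))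
    have h4 : f S.U 4 = Nat.card S.U := Nat.card_congr (Equiv.subtypeUnivEquiv fun x =>
      Subtype.ext (S.pow_four_of_mem_U x.2))
    rw [h4, hG, ← Nat.card_coe_set_eq, SetLike.coe_sort_coe, S.card_B, ← hU, ← hH, hbc, ← hU,
      mul_comm] at h
    rw [mul_assoc (Nat.card S.U * Nat.card S.H)] at h
    have h' := Nat.le_of_mul_le_mul_left h (Nat.mul_pos pQ pa)
    have := f_pos (G := G) 4
    exact sq_le pQ this h'
  have hUne : Nat.card S.U ≠ Nat.card G := by
    rw [hG, hbc, mul_assoc]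
    exact (lt_mul_of_one_lt_right pQ (by nlinarith)).ne
  generalize Nat.card S.H = a at *
  generalize Nat.card (centralizer {x₁}) = b at *
  generalize Nat.card (centralizer {x₂}) = c at *
  have ab : a.Coprime b := (Nat.Coprime.coprime_mul_right c1).symm
  have ac : a.Coprime c := (Nat.Coprime.coprime_mul_left c1).symm
  have g : ∀ {u v : ℕ}, u.Coprime v → (n.gcd u).Coprime (n.gcd v) := fun h =>
    Nat.Coprime.coprime_dvd_left (Nat.gcd_dvd_right _ _)
      (Nat.Coprime.coprime_dvd_right (Nat.gcd_dvd_right _ _) h)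
  have g4 : ∀ {u : ℕ}, Odd u → (n.gcd u).Coprime 4 := fun h =>
    Nat.Coprime.coprime_dvd_left (Nat.gcd_dvd_right _ _)
      (Nat.Coprime.pow_right 2 (Nat.coprime_two_right.2 h))
  have la := Nat.gcd_le_right n pa
  have lb := Nat.gcd_le_right n pb
  have lc := Nat.gcd_le_right n pc
  have qa := Nat.gcd_pos_of_pos_right n pa
  have qb := Nat.gcd_pos_of_pos_right n pb
  have qc := Nat.gcd_pos_of_pos_right n pc
  have hd' := Nat.le_of_dvd (Nat.mul_pos (Nat.gcd_pos_of_pos_right n pQ)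
    (Nat.mul_pos (Nat.mul_pos qa qb) qc)) hd
  by_cases h4 : 4 ∣ n
  · right
    have s := f4 (G := G) (g ab) (g ac) (g hco) (g4 o1) (g4 (Nat.Odd.of_mul_left o2))
      (g4 (Nat.Odd.of_mul_right o2)) (Nat.gcd_dvd_left _ _) (Nat.gcd_dvd_left _ _)
      (Nat.gcd_dvd_left _ _) h4
    have t5 := t4 h4
    refine le_antisymm (Nat.le_of_dvd Nat.card_pos hn) ?_
    rw [hG, mul_assoc, ← mul_assoc a]
    refine sz_arith la lb lc qa qb qc pQ (hd'.trans (Nat.mul_le_mul_right _
      (Nat.gcd_le_right n pQ))) ?_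
    have k : 4 * Nat.card S.U = 2 * (b * c) + a * c + a * b := by
      rw [hU, hbc, add_assoc, ← mul_add, add_comm c, hs, hq]; ring
    have k' : 4 * (Nat.card S.U * Nat.card S.U) = 2 * (Nat.card S.U * (b * c)) +
        Nat.card S.U * (a * c) + Nat.card S.U * (a * b) := by
      rw [← mul_assoc, k]; ring
    rw [hf] at s
    linarith
  · left
    have s := f3 (G := G) (g ab) (g ac) (g hco) (Nat.gcd_dvd_left _ _) (Nat.gcd_dvd_left _ _)
      (Nat.gcd_dvd_left _ _)
    have h2 : n.gcd (Nat.card S.U) ≤ 2 := by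
      obtain ⟨j, -, hj⟩ := (Nat.dvd_prime_pow Nat.prime_two).1 (Nat.gcd_dvd_right n (2 ^ (2 * (2 * m + 1))))
      rw [hQ, hj]
      by_contra h
      have : 2 ≤ j := by
        by_contra h'
        exact h (Nat.pow_le_pow_right two_pos (by omega : j ≤ 1))
      exact h4 ((pow_dvd_pow 2 this).trans (hj ▸ Nat.gcd_dvd_left _ _))
    have h64 : 64 ≤ Nat.card S.U := hU ▸ Nat.pow_le_pow_left h8 2
    have hn2 : n ≤ 2 * (n.gcd a * n.gcd b * n.gcd c) := hd'.trans (Nat.mul_le_mul_right _ h2)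
    have fa := f_pos (G := G) (n.gcd a)
    have fb := f_pos (G := G) (n.gcd b)
    have fc := f_pos (G := G) (n.gcd c)
    rw [hf] at s
    have r1 := sz_arith2 h64 lb lc hn2 (by omega) (by omega) t1 qa (Nat.mul_pos pb pc)
    have r2 := sz_arith2 h64 la lc (hn2.trans_eq (by ring)) (by omega) (by omega) t2 qb
      (Nat.mul_pos pa pc)
    have r3 := sz_arith2 h64 la lb (hn2.trans_eq (by ring)) (by omega) (by omega) t3 qc
      (Nat.mul_pos pa pb)
    rw [r1, r2, r3, mul_one, mul_one, mul_one] at hd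
    exact hsub' S.U rfl hUne (hd.trans (Nat.gcd_dvd_right _ _)) hf

theorem fr_sz {G : Type*} [Group G] (h : Lie.IsoSuzuki G) : Fr G := by
  obtain ⟨F, _, _, m, hm, hF, ⟨e⟩⟩ := h
  have := H39.szField_of_card hm hF
  exact (fr_model (H39.lieModel hF)).congr e

end Cfsg.Agent.H2.FC
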