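import Cfsg.Agent.H2.FXDefs
import Cfsg.Agent.H16.Brauer
import Cfsg.Agent.H17.Count
import Cfsg.Agent.H19.GaloisNum

/-! Project FX, piece BRI: the Brauer character of the adjoint module. -/

set_option autoImplicit false

namespace Cfsg.Agent.H2FX

open Module Cfsg.Agent.H50.E83 Cfsg.Agent.H16 Cfsg.Agent.H17 Cfsg.Agent.H19 MonoidAlgebra
open scoped MonoidAlgebra

theorem bri_gen {G n F : Type} [Group G] [Finite G] [Fintype n] [DecidableEq n] [Field F] {p : ℕ}
    {M : Ideal AlgInt} (hM : IsPModular p M) (f : F →+* kk M) (R : G →* Matrix n n F) :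
    ∃ L : ℤ[G] →+ ℂ, (∀ a b, L (a * b) = L (b * a)) ∧
      (∀ g : G, p ∣ orderOf g → L (MonoidAlgebra.of ℤ G g) = 0) ∧
      ∀ (N : ℕ) (a : ℤ[G]), ¬ p ∣ N → a * a = (N : ℤ[G]) * a →
        L a = N * ((MonoidAlgebra.lift ℤ (Matrix n n F) G R a).rank : ℕ) := by
  haveI := charP_kk hM
  let T : Matrix n n F →+* Module.End (kk M) (n → kk M) :=
    ((Matrix.toLinAlgEquiv' : Matrix n n (kk M) ≃ₐ[kk M] _) : _ →+* _).comp f.mapMatrix
  let X : (kk M)[G] →ₐ[kk M] Module.End (kk M) (n → kk M) :=
    MonoidAlgebra.lift (kk M) _ G ((T : _ →* _).comp R)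
  let jV : ℤ[G] →+* (Vr M)[G] := mapRingHom G (Int.castRingHom _)
  let θ := brChar p X
  have hθ : IsClassFunction G θ := isClassFunction_brChar X
  refine ⟨(charLift θ).toAddMonoidHom.comp ((iotaG M G).comp jV).toAddMonoidHom,
    fun a b => ?_, fun g hg => ?_, fun N a hN ha => ?_⟩
  · change charLift θ (((iotaG M G).comp jV) (a * b)) = charLift θ (((iotaG M G).comp jV) (b * a))
    rw [RingHom.map_mul, RingHom.map_mul, charLift_mul_comm hθ]
  · change charLift θ (iotaG M G (jV (single g 1))) = 0
    rw [mapRingHom_single, iotaG_single, charLift_single, show θ g = 0 from brChar_of_dvd X hg,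
      mul_zero]
  · have hN' : (N : kk M) ≠ 0 := fun h => hN ((CharP.cast_eq_zero_iff (kk M) p N).1 h)
    have hu : IsUnit (N : Vr M) := by
      rw [← IsLocalRing.notMem_maximalIdeal, ← IsLocalRing.residue_eq_zero_iff, map_natCast]
      exact hN'
    obtain ⟨c, hc⟩ := hu.exists_left_inv
    have hj : jV a * jV a = (N : Vr M) • jV a := by
      rw [← map_mul, ha, map_mul, map_natCast, Nat.cast_smul_eq_nsmul, nsmul_eq_mul]
    have hε : IsIdempotentElem (c • jV a) := by
      rw [IsIdempotentElem, smul_mul_smul_comm, hj, smul_smul, mul_assoc, hc, mul_one]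
    have h := charLift_brChar_idem hM X hε
    have hX : X (piG M G (jV a)) = T (MonoidAlgebra.lift ℤ (Matrix n n F) G R a) := by
      clear h hε hj ha
      induction a using MonoidAlgebra.induction_linear with
      | zero => simp
      | add x y hx hy => simp only [map_add, hx, hy]
      | single g r =>
        rw [mapRingHom_single, piG_single, MonoidAlgebra.lift_single, MonoidAlgebra.lift_single,
          map_zsmul, eq_intCast, map_intCast, Int.cast_smul_eq_zsmul]
        rfl
    have hc' : resR M c ≠ 0 := fun h0 => by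
      have := congrArg (resR M) hc
      rw [map_mul, h0, zero_mul, map_one] at this
      exact zero_ne_one this
    rw [iotaG_smul, map_smul, piG_smul, map_smul, hX, rk, LinearMap.range_smul _ _ hc'] at h
    have hr : finrank (kk M) (LinearMap.range (T (MonoidAlgebra.lift ℤ (Matrix n n F) G R a))) =
        (MonoidAlgebra.lift ℤ (Matrix n n F) G R a).rank := by
      rw [← matrix_rank_map f]
      rfl
    have hc2 : (N : ℂ) * (c : ℂ) = 1 := by
      have := congrArg (fun x : Vr M => (x : ℂ)) hc
      simpa [mul_comm] using this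
    change charLift θ (iotaG M G (jV a)) = _
    rw [← hr, ← h, smul_eq_mul, ← mul_assoc, hc2, one_mul]

theorem bri : BriStmt := by
  obtain ⟨M, hM⟩ := H19.exists_isPModular Nat.prime_three
  haveI := charP_kk hM
  letI : Algebra (ZMod 3) (kk M) := ZMod.algebra _ 3
  let f : K →ₐ[ZMod 3] kk M := IsAlgClosed.lift
  let R : G0 →* Matrix Cfsg.Lie.chevE8.Idx Cfsg.Lie.chevE8.Idx K :=
    ((Units.coeHom _).comp (Subgroup.subtype _)).comp ι
  obtain ⟨L, h1, h2, h3⟩ := bri_gen hM (f : K →+* kk M) R
  refine ⟨L, h1, h2, fun N a hN ha => ?_⟩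
  have : rep a = Matrix.toLin' (MonoidAlgebra.lift ℤ _ G0 R a) := by
    clear ha
    induction a using MonoidAlgebra.induction_linear with
    | zero => simp
    | add x y hx hy => simp only [map_add, hx, hy]
    | single g r =>
      rw [rep, MonoidAlgebra.lift_single, MonoidAlgebra.lift_single, map_zsmul]
      rfl
  rw [h3 N a hN ha, this]
  rfl

end Cfsg.Agent.H2FX
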