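import Mathlib
import Cfsg.Agent.H89.L27Defs
import Cfsg.Prelude.Def_Sz

/-! Definitions and statements of the pieces: subgroups `Sz(8)` and `L₂(13)` of `E₈(3)` fix a
non-zero vector of the adjoint module. -/

set_option autoImplicit false

namespace Cfsg.Agent.H2FX

open Module Cfsg.Agent.H50.E83
open scoped Matrix MatrixGroups

universe u

/-- Every copy of `X` in `E₈(3)` fixes a non-zero vector. -/
def FixAll (X : Type u) [Group X] : Prop := ∀ φ : X →* G0, Function.Injective φ →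
  ∃ v : V, v ≠ 0 ∧ ∀ g, act (ι (φ g)) v = v

/-! ### The Brauer character -/

abbrev ZG : Type := MonoidAlgebra ℤ G0
noncomputable def og : G0 →* ZG := MonoidAlgebra.of ℤ G0
noncomputable def rep : ZG →ₐ[ℤ] Module.End K V := MonoidAlgebra.lift ℤ (Module.End K V) G0 (act.comp ι)

theorem rep_og (g : G0) : rep (og g) = act (ι g) := MonoidAlgebra.lift_of _ _

/-- The additive extension of the Brauer character of the adjoint module. -/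
structure IsBr (L : ZG →+ ℂ) : Prop where
  comm : ∀ a b, L (a * b) = L (b * a)
  sing : ∀ g : G0, 3 ∣ orderOf g → L (og g) = 0
  rk : ∀ (N : ℕ) (a : ZG), ¬ 3 ∣ N → a * a = (N : ZG) * a →
    L a = N * (finrank K (LinearMap.range (rep a)) : ℕ)

def BriStmt : Prop := ∃ L, IsBr L

def SubStmt : Prop := ∀ L, IsBr L → L 1 = 248 ∧
  (∀ (g : G0) (n : ℕ), g ^ n = 1 → ¬ 3 ∣ n →
    L (∑ i ∈ Finset.range n, og g ^ i) = n * (mu (ι g) 1 : ℕ)) ∧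
  ∀ (Γ : Type u) [Group Γ] [Fintype Γ] (ψ : Γ →* G0), ¬ 3 ∣ Fintype.card Γ →
    ∑ g, L (og (ψ g)) = (Fintype.card Γ : ℕ) * 
      (finrank K (H50.E83.Fix (Set.range fun g => ι (ψ g))) : ℕ)

def DimStmt : Prop := ∀ g : G0, (g ^ 2 = 1 → 120 ≤ mu (ι g) 1) ∧ (g ^ 5 = 1 → 48 ≤ mu (ι g) 1) ∧
  (g ^ 7 = 1 → 38 ≤ mu (ι g) 1) ∧ (g ^ 13 = 1 → 20 ≤ mu (ι g) 1)

/-! ### `Sz(8)` -/

def SzCfg (Γ : Type u) [Group Γ] : Prop := Nat.card Γ = 29120 ∧ Nat.card (Sylow 2 Γ) = 65 ∧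
  ∀ g : Γ, g ≠ 1 → ∃! U : Subgroup Γ, Nat.card U ∈ ({64, 5, 7, 13} : Set ℕ) ∧ g ∈ U

def SzCfgStmt : Prop := ∀ (F : Type u) [Field F] [Fintype F], Fintype.card F = 8 →
  SzCfg (Cfsg.Lie.Sz F 4)

/-- The number of subgroups of order `n`. -/
noncomputable def nsub (Γ : Type u) [Group Γ] (n : ℕ) : ℕ := Nat.card {U : Subgroup Γ // Nat.card U = n}

def PartStmt : Prop := ∀ (Γ : Type u) [Group Γ] [Fintype Γ], SzCfg Γ → ∀ f : Γ → ℂ,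
  ∑ g, f g = f 1 + ∑ n ∈ ({64, 5, 7, 13} : Finset ℕ),
    ∑ᶠ U : {U : Subgroup Γ // Nat.card U = n}, ((∑ᶠ g : U.1, f g) - f 1)

def SzNumStmt : Prop := ∀ (Γ : Type u) [Group Γ], SzCfg Γ → nsub Γ 64 = 65 ∧ nsub Γ 5 ≤ 1456 ∧
  nsub Γ 13 ≤ 560 ∧ 63 * nsub Γ 64 + 4 * nsub Γ 5 + 6 * nsub Γ 7 + 12 * nsub Γ 13 = 29119

def SzSumStmt : Prop := ∀ (Γ : Type u) [Group Γ] [Fintype Γ], SzCfg Γ → ∀ (β : Γ → ℂ)
  (d : Subgroup Γ → ℕ) (m : ℕ → ℕ), β 1 = 248 →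
  (∀ U : Subgroup Γ, ∑ᶠ g : U, β g = (Nat.card U : ℕ) * (d U : ℕ)) →
  (∀ U : Subgroup Γ, m (Nat.card U) ≤ d U) →
  248 + nsub Γ 64 * (64 * m 64 - 248 : ℤ) + nsub Γ 5 * (5 * m 5 - 248 : ℤ) +
    nsub Γ 7 * (7 * m 7 - 248 : ℤ) + nsub Γ 13 * (13 * m 13 - 248 : ℤ) ≤ 29120 * (d ⊤ : ℤ)

def SzFixStmt : Prop := ∀ (Γ : Type u) [Group Γ], SzCfg Γ → FixAll Γ

/-! ### `L₂(13)` -/

abbrev S13 : Type := SL(2, ZMod 13)
def gu : S13 := ⟨!![1, 1; 0, 1], by decide⟩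
def gt : S13 := ⟨!![5, 0; 0, 8], by decide⟩
def gc : S13 := ⟨!![3, 0; 0, 9], by decide⟩
def gs : S13 := ⟨!![0, 1; 12, 0], by decide⟩
def gx : S13 := ⟨!![0, 1; 12, 7], by decide⟩

section Hecke
variable {A : Type} [Ring A] (φ : S13 →* A)

def hQ : A := ∑ i ∈ Finset.range 13, φ gu ^ i
def hX : A := ∑ i ∈ Finset.range 7, φ gx ^ i
def hE : A := (1 + φ gt) * hQ φ
def hA : A := (130 - 52 * φ gc - 52 * φ gc ^ 2) * hE φ +
  (9 + 16 * φ gc - 12 * φ gc ^ 2) * (hE φ * φ gs * hE φ)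
def hM : A := φ gc - φ gc ^ 2

/-- The easy relations. -/
structure Rel : Prop where
  uE : φ gu * hE φ = hE φ
  Eu : hE φ * φ gu = hE φ
  tE : φ gt * hE φ = hE φ
  Et : hE φ * φ gt = hE φ
  tQ : φ gt * hQ φ = hQ φ * φ gt
  cE : φ gc * hE φ = hE φ * φ gc
  EE : hE φ * hE φ = 26 * hE φ
  c3 : φ gc ^ 3 = 1
  sc : φ gs * φ gc = φ gc ^ 2 * φ gs
  cs : φ gc * φ gs = φ gs * φ gc ^ 2
  ts : φ gt * φ gs = φ gs * φ gt
  ss : φ gs * φ gs = 1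
  tt : φ gt * φ gt = 1

end Hecke

def RelStmt : Prop := ∀ (A : Type) [Ring A] (φ : S13 →* A), φ (-1) = 1 → Rel φ

def KeyStmt : Prop := ∀ (A : Type) [Ring A] (φ : S13 →* A), φ (-1) = 1 → Rel φ →
  hE φ * φ gs * hE φ * φ gs * hE φ =
    52 * hE φ + 8 * ((1 + φ gc + φ gc ^ 2) * (hE φ * φ gs * hE φ))

def HeckeStmt : Prop := ∀ (A : Type) [Ring A] (φ : S13 →* A), Rel φ →
  hE φ * φ gs * hE φ * φ gs * hE φ =
    52 * hE φ + 8 * ((1 + φ gc + φ gc ^ 2) * (hE φ * φ gs * hE φ)) →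
  hA φ * hA φ = 9464 * hA φ ∧ hA φ * hM φ + hM φ * hA φ = 364 * (hM φ * hE φ) ∧
  hE φ * hA φ = 26 * hA φ ∧ hA φ * hE φ = 26 * hA φ ∧ hE φ * hM φ = hM φ * hE φ

def ClsStmt : Prop := ∀ (A : Type) [Ring A] (φ : S13 →* A) (L : A →+ ℂ), φ (-1) = 1 → Rel φ →
  (∀ a b, L (a * b) = L (b * a)) → (∀ g, g ^ 12 = 1 → g ^ 4 ≠ 1 → L (φ g) = 0) →
  L (hE φ) = L (hQ φ) + 13 * L (φ gt) ∧ L (φ gc * hE φ) = 0 ∧ L (φ gc ^ 2 * hE φ) = 0 ∧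
  3 * L (φ gs * hE φ) = 6 * L (φ gt) + L (hQ φ) + 6 * L (hX φ) - 7 * L 1

def ValStmt : Prop := ∀ (A : Type) [Ring A] (φ : S13 →* A) (L : A →+ ℂ), Rel φ →
  (∀ a b, L (a * b) = L (b * a)) → L (φ gc * hE φ) = 0 → L (φ gc ^ 2 * hE φ) = 0 →
  L (hA φ) = 130 * L (hE φ) + 338 * L (φ gs * hE φ)

def LinStmt : Prop := ∀ (F W : Type) [Field F] [AddCommGroup W] [Module F W] [FiniteDimensional F W]
  (B : LinearMap.BilinForm F W) (e p M : Module.End F W), (∀ v, (∀ w, B v w = 0) → v = 0) →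
  (∀ v w, B (p v) w = B v (p w)) → (∀ v w, B (M v) w = -B v (M w)) →
  e * p = p → p * e = p → e * e = e → p * p = p → e * M = M * e → p * M + M * p = M * e →
  M ^ 3 = 0 → (∀ v, p v = v → M v = 0 → v = 0) →
  3 * finrank F (LinearMap.range p) ≤ finrank F (LinearMap.range e)

def AdjStmt : Prop := ∀ (F W : Type) [Field F] [AddCommGroup W] [Module F W]
  (B : LinearMap.BilinForm F W) (ρ : S13 →* Module.End F W), ρ (-1) = 1 → Rel ρ →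
  (∀ g v w, B (ρ g v) (ρ g w) = B v w) →
  (∀ v w, B (hA ρ v) w = B v (hA ρ w)) ∧ ∀ v w, B (hM ρ v) w = -B v (hM ρ w)

def NoFixStmt : Prop := ∀ (F W : Type) [Field F] [CharP F 3] [AddCommGroup W] [Module F W]
  (ρ : S13 →* Module.End F W), ρ (-1) = 1 → Rel ρ → hE ρ * hA ρ = 26 * hA ρ →
  ∀ v, hA ρ v = -v → hM ρ v = 0 → ρ gu v = v ∧ ρ gs v = v

def GenStmt : Prop := Subgroup.closure {gu, gs} = ⊤

def Fix13 : Prop := ∀ φ : S13 →* G0, (∀ g, φ g = 1 ↔ g = 1 ∨ g = -1) →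
  ∃ v : V, v ≠ 0 ∧ ∀ g, act (ι (φ g)) v = v

def EmbStmt : Prop := Fix13 → ∀ (F : Type u) [Field F] [Fintype F], Fintype.card F = 13 →
  FixAll PSL(2, F)

end Cfsg.Agent.H2FX
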