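import Cfsg.Agent.H2.FXDefs

/-! Project FX: assembly of the case `L₂(13)`. -/

set_option autoImplicit false
set_option maxRecDepth 100000

namespace Cfsg.Agent.H2FX

open Module Cfsg.Agent.H50.E83
open scoped Matrix MatrixGroups

theorem map_hQ {A B : Type} [Ring A] [Ring B] (f : A →+* B) (φ : S13 →* A) :
    f (hQ φ) = hQ ((f : A →* B).comp φ) := by
  simp [hQ, map_sum]

theorem map_hE {A B : Type} [Ring A] [Ring B] (f : A →+* B) (φ : S13 →* A) :
    f (hE φ) = hE ((f : A →* B).comp φ) := by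
  simp [hE, map_hQ]

theorem map_hA {A B : Type} [Ring A] [Ring B] (f : A →+* B) (φ : S13 →* A) :
    f (hA φ) = hA ((f : A →* B).comp φ) := by
  simp [hA, map_hE, map_ofNat]

theorem char3 {A : Type} [Ring A] (t3 : (3 : A) = 0) {E a M c : A} (c3 : c ^ 3 = 1)
    (hM : M = c - c ^ 2) (EE : E * E = 26 * E) (b1 : a * a = 9464 * a)
    (b2 : a * M + M * a = 364 * (M * E)) (b3 : E * a = 26 * a) (b4 : a * E = 26 * a)
    (b5 : E * M = M * E) : -E * -a = -a ∧ -a * -E = -a ∧ -E * -E = -E ∧ -a * -a = -a ∧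
      -E * M = M * -E ∧ -a * M + M * -a = M * -E ∧ M ^ 3 = 0 := by
  have n26 : (26 : A) = -1 := by
    rw [show (26 : A) = 9 * 3 - 1 by norm_num, t3, mul_zero, zero_sub]
  have n9464 : (9464 : A) = -1 := by
    rw [show (9464 : A) = 3155 * 3 - 1 by norm_num, t3, mul_zero, zero_sub]
  have n364 : (364 : A) = 1 := by
    rw [show (364 : A) = 121 * 3 + 1 by norm_num, t3, mul_zero, zero_add]
  rw [n26] at b3 b4 EE
  rw [n9464] at b1
  rw [n364] at b2
  refine ⟨by rw [neg_mul_neg, b3, neg_one_mul], by rw [neg_mul_neg, b4, neg_one_mul],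
    by rw [neg_mul_neg, EE, neg_one_mul], by rw [neg_mul_neg, b1, neg_one_mul],
    by rw [neg_mul, b5, mul_neg], by rw [neg_mul, mul_neg, ← neg_add, b2, one_mul, mul_neg], ?_⟩
  have e : M ^ 3 = c ^ 3 * (1 - c ^ 3) + 3 * (c ^ 5 - c ^ 4) := by
    rw [hM]; noncomm_ring
  rw [e, c3, t3, sub_self, mul_zero, zero_mul, add_zero]

theorem three_le (rel : RelStmt) (key : KeyStmt) (hecke : HeckeStmt) (lin : LinStmt) (adj : AdjStmt)
    (nofix : NoFixStmt) (gen : GenStmt) {F W : Type} [Field F] [CharP F 3] [AddCommGroup W]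
    [Module F W] [FiniteDimensional F W] (B : LinearMap.BilinForm F W) (ρ : S13 →* Module.End F W)
    (hρ1 : ρ (-1) = 1) (k3 : ∀ v, (∀ w, B v w = 0) → v = 0)
    (hB : ∀ g v w, B (ρ g v) (ρ g w) = B v w) (hno : ∀ v, (∀ g, ρ g v = v) → v = 0) :
    3 * finrank F (LinearMap.range (hA ρ)) ≤ finrank F (LinearMap.range (hE ρ)) := by
  have rρ := rel _ ρ hρ1
  obtain ⟨b1, b2, b3, b4, b5⟩ := hecke _ ρ rρ (key _ ρ hρ1 rρ)
  obtain ⟨d1, d2⟩ := adj F W B ρ hρ1 rρ hB
  have t3 : (3 : Module.End F W) = 0 := by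
    have : (3 : F) = 0 := by exact_mod_cast CharP.cast_eq_zero F 3
    rw [← map_ofNat (algebraMap F (Module.End F W)) 3, this, map_zero]
  obtain ⟨z1, z2, z3, z4, z5, z6, z7⟩ := char3 t3 rρ.c3 (M := hM ρ) rfl rρ.EE b1 b2 b3 b4 b5
  have key3 := lin F W B (-hE ρ) (-hA ρ) (hM ρ) k3 (fun v w => by simp [d1]) d2 z1 z2 z3 z4 z5 z6 z7
    fun v h1 h2 => hno v fun g => by
      have h := nofix F W ρ hρ1 rρ b3 v (neg_eq_iff_eq_neg.1 h1) h2
      have hg' : g ∈ Subgroup.closure {gu, gs} := gen ▸ Subgroup.mem_top g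
      induction hg' using Subgroup.closure_induction with
      | mem x hx => rcases hx with rfl | rfl; exacts [h.1, h.2]
      | one => rw [map_one]; rfl
      | mul x y _ _ hx hy => rw [map_mul, Module.End.mul_apply, hy, hx]
      | inv x _ hx =>
        conv_lhs => rw [← hx]
        rw [← Module.End.mul_apply, ← map_mul, inv_mul_cancel, map_one]; rfl
  rwa [LinearMap.range_neg, LinearMap.range_neg] at key3

theorem fix13 (kap : H89.L27.KapStmt) (bri : BriStmt) (sub : SubStmt.{0}) (dim : DimStmt)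
    (rel : RelStmt) (key : KeyStmt) (hecke : HeckeStmt) (cls : ClsStmt) (val : ValStmt)
    (lin : LinStmt) (adj : AdjStmt) (nofix : NoFixStmt) (gen : GenStmt) : Fix13 := by
  intro φ hφ
  by_contra hno
  push Not at hno
  obtain ⟨L, hL⟩ := bri
  obtain ⟨s1, s2, -⟩ := sub L hL
  have hm : φ (-1) = 1 := (hφ _).2 (Or.inr rfl)
  let ψ : S13 →* ZG := og.comp φ
  let ρ : S13 →* Module.End K V := ((rep : ZG →+* Module.End K V) : ZG →* _).comp ψ
  have hρ : ∀ g, ρ g = act (ι (φ g)) := fun g => rep_og _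
  have hψ1 : ψ (-1) = 1 := by change og (φ (-1)) = 1; rw [hm, map_one]
  have hρ1 : ρ (-1) = 1 := by rw [hρ, hm, map_one, map_one]
  have rψ := rel _ ψ hψ1
  have hsing : ∀ g : S13, g ^ 12 = 1 → g ^ 4 ≠ 1 → L (ψ g) = 0 := fun g h12 h4 => by
    refine hL.sing (φ g) ?_
    have h3 : orderOf (φ g ^ 4) = 3 := by
      haveI : Fact (Nat.Prime 3) := ⟨Nat.prime_three⟩
      refine orderOf_eq_prime (by rw [← pow_mul, ← map_pow, h12, map_one]) fun h => ?_
      rw [← map_pow] at h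
      rcases (hφ _).1 h with h | h
      · exact h4 h
      · have : g ^ 12 = (g ^ 4) ^ 3 := by rw [← pow_mul]
        rw [h12, h] at this
        exact absurd this (by decide)
    exact (dvd_of_eq h3.symm).trans (orderOf_pow_dvd 4)
  obtain ⟨c1, c2, c3, c4⟩ := cls _ ψ L hψ1 rψ hL.comm hsing
  have v1 := val _ ψ L rψ hL.comm c2 c3
  obtain ⟨a1, -⟩ := hecke _ ψ rψ (key _ ψ hψ1 rψ)
  have rA := hL.rk 9464 (hA ψ) (by decide) (by exact_mod_cast a1)
  have rE := hL.rk 26 (hE ψ) (by decide) (by exact_mod_cast rψ.EE)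
  have eA : rep (hA ψ) = hA ρ := map_hA (rep : ZG →+* Module.End K V) ψ
  have eE : rep (hE ψ) = hE ρ := map_hE (rep : ZG →+* Module.End K V) ψ
  rw [eA] at rA
  rw [eE] at rE
  have pu : φ gu ^ 13 = 1 := by rw [← map_pow, show gu ^ 13 = 1 by decide, map_one]
  have px : φ gx ^ 7 = 1 := by rw [← map_pow, show gx ^ 7 = 1 by decide, map_one]
  have pt : φ gt ^ 2 = 1 := by rw [← map_pow, show gt ^ 2 = -1 by decide, hm]
  have qu : L (hQ ψ) = _ := s2 _ 13 pu (by decide)
  have qx : L (hX ψ) = _ := s2 _ 7 px (by decide)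
  have qt := s2 _ 2 pt (by decide)
  rw [Finset.sum_range_succ, Finset.sum_range_one, pow_zero, pow_one, map_add, s1] at qt
  change _ + L (ψ gt) = _ at qt
  have du := (dim _).2.2.2 pu
  have dx := (dim _).2.2.1 px
  have dt := (dim _).1 pt
  -- linear algebra
  obtain ⟨k1, B, k2, -, k3⟩ := kap K
  have hB : ∀ g v w, B (ρ g v) (ρ g w) = B v w := fun g v w => by
    rw [hρ, act_apply, act_apply, k2, k2, k1]
  have key3 := three_le rel key hecke lin adj nofix gen B ρ hρ1 k3 hB fun v hv => by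
    by_contra h0
    obtain ⟨g, hg⟩ := hno v h0
    exact hg (hρ g ▸ hv g)
  generalize finrank K (LinearMap.range (hA ρ)) = a at rA key3
  generalize finrank K (LinearMap.range (hE ρ)) = w at rE key3
  generalize mu (ι (φ gu)) 1 = x13 at qu du
  generalize mu (ι (φ gx)) 1 = x7 at qx dx
  generalize mu (ι (φ gt)) 1 = x2 at qt dt
  have e1 : (2 * w + 248 : ℂ) = x13 + 2 * x2 := by
    push_cast at rE qu qt
    linear_combination (1 / 13 : ℂ) * (c1 - rE + qu) + qt
  have e2 : (84 * a + 3224 : ℂ) = 30 * w + 12 * x2 + 13 * x13 + 42 * x7 := by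
    push_cast at rE rA qu qt qx
    linear_combination (1 / 338 : ℂ) * (3 * v1 - 3 * rA + 390 * rE) + c4 + 6 * qt + qu + 6 * qx - 7 * s1
  have e1' : 2 * w + 248 = x13 + 2 * x2 := by exact_mod_cast e1
  have e2' : 84 * a + 3224 = 30 * w + 12 * x2 + 13 * x13 + 42 * x7 := by exact_mod_cast e2
  omega

end Cfsg.Agent.H2FX
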