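import Cfsg.Agent.H2.FzB
import Cfsg.Agent.H56.SpDefs

/-! Project CY, chapter SP: the involution of a line group `SL₂(3)` fixes only the line. -/

set_option autoImplicit false

namespace Cfsg.Agent.H2Fz

open Subgroup MulAction Matrix Cfsg.Agent.H11.Cy Cfsg.Agent.H56.Sp
open Cfsg.Agent.H45.Iv (Fx)

abbrev M2 := Matrix (Fin 2) (Fin 2) (ZMod 3)

def chk (a b : M2) : Prop := (b = a ∨ b = a * a ∨ a * b * a = b * a * b ∨
  a * (b * b) * a = b * b * a * (b * b)) ∧ (a * b * a = b * a * b → b = a ∨ a * b * (a * b * (a * b)) ≠ 1)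

instance (a b : M2) : Decidable (chk a b) := by unfold chk; infer_instance

theorem chk_all : ∀ a1 a2 a3 a4 : ZMod 3, (!![a1, a2; a3, a4] : M2) * !![a1, a2; a3, a4] * !![a1, a2; a3, a4] = 1 →
    (!![a1, a2; a3, a4] : M2) ≠ 1 → ∀ b1 b2 b3 b4 : ZMod 3,
    (!![b1, b2; b3, b4] : M2) * !![b1, b2; b3, b4] * !![b1, b2; b3, b4] = 1 → (!![b1, b2; b3, b4] : M2) ≠ 1 →
    chk !![a1, a2; a3, a4] !![b1, b2; b3, b4] := by decide +kernel

theorem pair {M : Type} [Group M] (h : IsSL2 M 3) (a b : M) (ha : a * a * a = 1) (a1 : a ≠ 1)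
    (hb : b * b * b = 1) (b1 : b ≠ 1) :
    (b = a ∨ b = a⁻¹ ∨ Br a b ∨ Br a b⁻¹) ∧ (Br a b → b = a ∨ zz a b ≠ 1) := by
  obtain ⟨F, _, _, hF, ⟨e⟩⟩ := h
  haveI : Fact (Nat.Prime 3) := ⟨Nat.prime_three⟩
  let r := (ZMod.ringEquivOfPrime F Nat.prime_three hF).symm
  let φ : M →* M2 := (r.toRingHom.mapMatrix.toMonoidHom.comp
    (SpecialLinearGroup.coeMonoidHom : SpecialLinearGroup (Fin 2) F →* _)).comp e.toMonoidHom
  have inj : Function.Injective φ := fun x y hxy => e.injective (Subtype.ext (by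
    ext i j; exact r.injective (congrFun (congrFun hxy i) j)))
  have k : chk (φ a) (φ b) := by
    rw [eta_fin_two (φ a), eta_fin_two (φ b)]
    refine chk_all _ _ _ _ ?_ ?_ _ _ _ _ ?_ ?_ <;> rw [← eta_fin_two]
    · rw [← map_mul, ← map_mul, ha, map_one]
    · exact fun h => a1 (inj (h.trans φ.map_one.symm))
    · rw [← map_mul, ← map_mul, hb, map_one]
    · exact fun h => b1 (inj (h.trans φ.map_one.symm))
  unfold chk at k
  rw [← φ.map_one] at k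
  simp only [← map_mul, inj.eq_iff, Ne] at k
  rw [inv_eq_of_mul_eq_one_left ha, inv_eq_of_mul_eq_one_left hb, zz, pow_three]
  exact k

theorem fz3 : Fz3Stmt := by
  intro G _ _ Ω _ _ p A st mc _ ty lf _ p3 x y hxy z hz
  subst p3
  have ep := mc.ep
  have o3 : ∀ w, ∀ a ∈ A w, a * a * a = 1 := fun w a ha => by
    have := congrArg Subtype.val (pow_card_eq_one' (x := (⟨a, ha⟩ : A w)))
    rwa [st.card, coe_pow, pow_three, ← mul_assoc] at this
  have pr : ∀ v w, ∀ a ∈ A v, a ≠ 1 → ∀ b ∈ A w, b ≠ 1 →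
      (b = a ∨ b = a⁻¹ ∨ Br a b ∨ Br a b⁻¹) ∧ (Br a b → b = a ∨ zz a b ≠ 1) := fun v w a ha a1 b hb b1 => by
    haveI := st.nt
    obtain ⟨u, hu, hb'⟩ : ∃ u, v ≠ u ∧ b ∈ Fl A v u := by
      by_cases e : v = w
      · obtain ⟨u, hu⟩ := exists_ne v
        exact ⟨u, hu.symm, mem_sup_left (e ▸ hb)⟩
      · exact ⟨w, e, mem_sup_right hb⟩
    have := pair (ty v u hu).1 ⟨a, mem_sup_left ha⟩ ⟨b, hb'⟩ (Subtype.ext (o3 v a ha))
      (fun e => a1 (congrArg Subtype.val e)) (Subtype.ext (o3 w b hb)) fun e => b1 (congrArg Subtype.val e)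
    simpa only [Br, zz, Ne, Subtype.ext_iff, coe_mul, coe_inv, coe_pow, coe_one] using this
  have ds : DS {a : G | a ≠ 1 ∧ ∃ w, a ∈ A w} :=
    ⟨fun a ⟨_, w, h⟩ => o3 w a h, fun a h => h.1, fun a ⟨h, w, hw⟩ => ⟨inv_ne_one.2 h, w, inv_mem hw⟩,
      fun g a ⟨h, w, hw⟩ => ⟨fun e => h (conj_eq_one_iff.1 e), _, st.eqv g w a hw⟩,
      fun a ⟨h, v, hv⟩ b ⟨k, w, hw⟩ => (pr v w a hv h b hw k).1⟩
  have ex : ∀ w, ∃ a ∈ A w, a ≠ 1 := fun w => by
    refine (A w).bot_or_exists_ne_one.resolve_left fun e => ?_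
    have := st.card w
    rw [e, card_bot] at this
    omega
  obtain ⟨a, ha, a1⟩ := ex x
  have ne : ∀ b ∈ A y, b ≠ a := fun b hb e =>
    (st.semi x y a ha (e ▸ st.fix y b hb)).elim a1 fun e => hxy e.symm
  obtain ⟨b, hb, b1, br⟩ : ∃ b ∈ A y, b ≠ 1 ∧ Br a b := by
    obtain ⟨b, hb, b1⟩ := ex y
    rcases (pr x y a ha a1 b hb b1).1 with e | e | e | e
    exacts [absurd e (ne b hb), absurd (by rw [e, inv_inv]) (ne _ (inv_mem hb)), ⟨b, hb, b1, e⟩,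
      ⟨_, inv_mem hb, inv_ne_one.2 b1, e⟩]
  have ez : zz a b = z := (lf x y hxy).uq _ _
    ⟨pow_mem (mul_mem (mem_sup_left ha) (mem_sup_right hb)) 3,
      ((pr x y a ha a1 b hb b1).2 br).resolve_left (ne b hb), (sl (o3 x a ha) (o3 y b hb) br).1⟩ hz
  have zk := (lf x y hxy).cen z hz
  obtain ⟨c, hc, nc⟩ : ∃ c ∈ {a : G | a ≠ 1 ∧ ∃ w, a ∈ A w}, ¬ Commute z c := by
    by_contra h
    push Not at h
    refine hz.2.1 (st.faith z fun w => (ep.nA w z).1 (centralizer_le_normalizer _ fun c hc => ?_))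
    by_cases e : c = 1
    · rw [e, one_mul, mul_one]
    · exact (h c ⟨e, w, hc⟩).symm
  refine Set.ext fun w => ⟨fun hw => ?_, fun hw => (ep.kfix x y hxy z).1 zk w hw⟩
  by_cases e : x = w
  · exact e ▸ (lf x y hxy).mem.1
  have k := ep.eps x w e z ⟨(ep.kfix x y hxy z).1 zk x (lf x y hxy).mem.1, hw⟩
    fun g hg => zk g (mem_sup_left hg)
  intro d hd
  by_cases d1 : d = 1
  · exact d1 ▸ one_mem _
  refine (closure_le (Fl A x y)).2 ?_ (fz ds ⟨a1, x, ha⟩ ⟨b1, y, hb⟩ hc ⟨d1, w, hd⟩ br (ez ▸ nc)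
    (ez ▸ (k d (mem_sup_right hd)).symm))
  rintro _ (rfl | rfl)
  exacts [mem_sup_left ha, mem_sup_right hb]

end Cfsg.Agent.H2Fz
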