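import Cfsg.Agent.H2.FzS
import Cfsg.Agent.H2.FzU1
import Cfsg.Agent.H2.FzU2
import Cfsg.Agent.H2.FzU3

/-! Classes of elements of order three any two of which satisfy a braid relation. -/

set_option autoImplicit false

namespace Cfsg.Agent.H2Fz

open Subgroup Cfsg.Agent.H44 Cfsg.Agent.H2

variable {G : Type*} [Group G]

def Br (a b : G) : Prop := a * b * a = b * a * b
def zz (a b : G) : G := (a * b) ^ 3

structure DS (D : Set G) : Prop where
  o3 : ∀ a ∈ D, a * a * a = 1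
  ne : ∀ a ∈ D, a ≠ 1
  inv : ∀ a ∈ D, a⁻¹ ∈ D
  cj : ∀ g : G, ∀ a ∈ D, g * a * g⁻¹ ∈ D
  pr : ∀ a ∈ D, ∀ b ∈ D, b = a ∨ b = a⁻¹ ∨ Br a b ∨ Br a b⁻¹

theorem Br.rel {x y : G} (h : Br x y) : x * y * x * y⁻¹ * x⁻¹ * y⁻¹ = 1 := by rw [h]; group

theorem key {C : Cert} {R : List (List ℕ)} (h : Checked C R []) {g : ℕ → G} (hg : Sat g R) (w : List ℕ)
    (h1 : lettersIn C.nc w = true)
    (h2 : Nat.beq (trW C.row C.EB (2 ^ C.EB - 1) (2 ^ C.W - 1) w 0) 0 = true) : ev g w = 1 :=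
  mem_bot.1 (h.mem_of_trW hg (H := ⊥) (by simp) rfl rfl h1 h2)

def r3 (l : List ℕ) : List ℕ := l ++ l ++ l
theorem ev_r3 (g : ℕ → G) (l : List ℕ) : ev g (r3 l) = ev g l ^ 3 := by
  rw [r3, ev_append, ev_append, pow_three, mul_assoc]

def g3 (a b c : G) : ℕ → G := fun i =>
  match i with | 1 => a | 2 => a⁻¹ | 3 => b | 4 => b⁻¹ | 5 => c | _ => c⁻¹
def g4 (a b c d : G) : ℕ → G := fun i => match i with | 1 => a | 2 => b | 3 => c | _ => d

theorem sl {a b : G} (ha : a * a * a = 1) (hb : b * b * b = 1) (h : Br a b) :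
    zz a b * zz a b = 1 ∧ Commute (zz a b) a ∧ Commute (zz a b) b := by
  have hg : Sat (g3 a b 1) FzS.SL.R := by
    refine .cons ?_ (.cons ?_ (.cons ?_ (.cons ?_ (.cons ?_ fun _ h => nomatch h)))) <;>
      simp only [ev_cons, ev_nil, mul_one, g3, ← mul_assoc]
    exacts [mul_inv_cancel _, mul_inv_cancel _, ha, hb, h.rel]
  have h1 := key FzS.SL.checked hg (r3 [1, 3] ++ r3 [1, 3]) (by decide +kernel) (by decide +kernel)
  have h2 := key FzS.SL.checked hg (r3 [1, 3] ++ [1] ++ r3 [1, 3] ++ [2]) (by decide +kernel) (by decide +kernel)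
  have h3 := key FzS.SL.checked hg (r3 [1, 3] ++ [3] ++ r3 [1, 3] ++ [4]) (by decide +kernel) (by decide +kernel)
  simp only [ev_append, ev_r3, ev_cons, ev_nil, mul_one, g3] at h1 h2 h3
  have k : ∀ x : G, (a * b) ^ 3 * x * (a * b) ^ 3 * x⁻¹ = 1 → Commute (zz a b) x := fun x e => by
    rw [mul_inv_eq_one, ← mul_left_inj ((a * b) ^ 3), mul_assoc _ _ ((a * b) ^ 3), h1, mul_one] at e
    exact e
  exact ⟨h1, k a h2, k b h3⟩

theorem sat3 {a b c : G} (ha : a * a * a = 1) (hb : b * b * b = 1) (hc : c * c * c = 1) (h1 : Br a b)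
    (h2 : Br a c) : Sat (g3 a b c) [[1, 2], [3, 4], [5, 6], [1, 1, 1], [3, 3, 3], [5, 5, 5],
      [1, 3, 1, 4, 2, 4], [1, 5, 1, 6, 2, 6]] := by
  refine .cons ?_ (.cons ?_ (.cons ?_ (.cons ?_ (.cons ?_ (.cons ?_ (.cons ?_ (.cons ?_
    fun _ h => nomatch h))))))) <;> simp only [ev_cons, ev_nil, mul_one, g3, ← mul_assoc]
  exacts [mul_inv_cancel _, mul_inv_cancel _, mul_inv_cancel _, ha, hb, hc, h1.rel, h2.rel]

def Uni (D : Set G) (a b c : G) : Prop := (zz a b * zz a c) ^ 3 = 1 ∧ ∃ e ∈ D, Br a e ∧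
  (zz a b * zz a e) ^ 3 = 1 ∧ (zz a c * zz a e) ^ 3 = 1 ∧
  ((zz a b * zz a c * zz a e) * (zz a b * zz a c * zz a e) * a = 1 ∨
    (zz a b * zz a c * zz a e) * (zz a b * zz a c * zz a e) * a⁻¹ = 1)

def Gd (a b c : G) : Prop := Commute (zz a b) c ∧ Br a (b * c * b⁻¹) ∧ Br a (b⁻¹ * c * b⁻¹⁻¹) ∧
  Br a (b * a * c * (b * a)⁻¹) ∧
  zz a b * zz a c * zz a (b * c * b⁻¹) * zz a (b⁻¹ * c * b⁻¹⁻¹) * zz a (b * a * c * (b * a)⁻¹) = 1

theorem mem_cl {a b c g : G} (hg : g ∈ closure ({a, b} : Set G)) (h : g * c * g⁻¹ = a ∨ g * c * g⁻¹ = a⁻¹) :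
    c ∈ closure ({a, b} : Set G) := by
  have ha : a ∈ closure ({a, b} : Set G) := subset_closure (by simp)
  rw [show c = g⁻¹ * (g * c * g⁻¹) * g by group]
  rcases h with h | h <;> rw [h]
  exacts [mul_mem (mul_mem (inv_mem hg) ha) hg, mul_mem (mul_mem (inv_mem hg) (inv_mem ha)) hg]

theorem tri {D : Set G} (h : DS D) {a b c : G} (ha : a ∈ D) (hb : b ∈ D) (hc : c ∈ D) (h1 : Br a b)
    (h2 : Br a c) : c ∈ closure ({a, b} : Set G) ∨ Gd a b c ∨ Uni D a b c := by
  have s := sat3 (h.o3 a ha) (h.o3 b hb) (h.o3 c hc) h1 h2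
  have mb : b ∈ closure ({a, b} : Set G) := subset_closure (by simp)
  have u : ∀ {C : Cert} {R : List (List ℕ)}, Checked C R [] → Sat (g3 a b c) R → ∀ x y : ℕ, ∀ e ∈ D, Br a e →
      ev (g3 a b c) [3, x, 4] = e → (y = 1 ∨ y = 2) →
      (∀ w ∈ [r3 (r3 [1, 3] ++ r3 [1, 5]), r3 (r3 [1, 3] ++ r3 (1 :: [3, x, 4])),
        r3 (r3 [1, 5] ++ r3 (1 :: [3, x, 4])), (r3 [1, 3] ++ r3 [1, 5] ++ r3 (1 :: [3, x, 4])) ++
          (r3 [1, 3] ++ r3 [1, 5] ++ r3 (1 :: [3, x, 4])) ++ [y]], lettersIn C.nc w = true ∧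
        Nat.beq (trW C.row C.EB (2 ^ C.EB - 1) (2 ^ C.W - 1) w 0) 0 = true) → Uni D a b c := by
    intro C R hC hs x y e he hbe ee hy hw
    have k := fun w hw' => key hC hs w (hw w hw').1 (hw w hw').2
    simp only [List.forall_mem_cons, ev_append, ev_r3, ev_cons _ 1 [3, x, 4], ee] at k
    simp only [ev_cons, ev_nil, mul_one, g3] at k
    refine ⟨k.1, e, he, hbe, k.2.1, k.2.2.1, ?_⟩
    rcases hy with rfl | rfl
    exacts [Or.inl k.2.2.2.1, Or.inr k.2.2.2.1]
  rcases h.pr b hb c hc with rfl | rfl | h3 | h3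
  · exact Or.inl mb
  · exact Or.inl (inv_mem mb)
  · rcases h.pr a ha _ (h.cj b c hc) with e | e | h4 | h4
    · exact Or.inl (mem_cl mb (Or.inl e))
    · exact Or.inl (mem_cl mb (Or.inr e))
    · rcases h.pr a ha _ (h.cj b⁻¹ c hc) with e | e | h5 | h5
      · exact Or.inl (mem_cl (inv_mem mb) (Or.inl e))
      · exact Or.inl (mem_cl (inv_mem mb) (Or.inr e))
      · have hg : Sat (g3 a b c) FzS.GD.R := by
          refine s.append (.cons ?_ (.cons ?_ (.cons ?_ fun _ h => nomatch h))) <;>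
            simp only [ev_cons, ev_nil, mul_one, g3]
          · simpa only [mul_assoc] using h3.rel
          · simpa only [mul_assoc, mul_inv_rev, inv_inv] using h4.rel
          · simpa only [mul_assoc, mul_inv_rev, inv_inv] using h5.rel
        have k1 := key FzS.GD.checked hg (r3 [1, 3] ++ [5] ++ r3 [4, 2] ++ [6]) (by decide +kernel)
          (by decide +kernel)
        have k2 := key FzS.GD.checked hg [1, 3, 1, 5, 2, 4, 1, 3, 1, 6, 2, 4, 2, 3, 1, 6, 2, 4]
          (by decide +kernel) (by decide +kernel)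
        have k3 := key FzS.GD.checked hg (r3 [1, 3] ++ r3 [1, 5] ++ r3 [1, 3, 5, 4] ++ r3 [1, 4, 5, 3] ++
          r3 [1, 3, 1, 5, 2, 4]) (by decide +kernel) (by decide +kernel)
        simp only [ev_append, ev_r3, ev_cons, ev_nil, mul_one, g3] at k1 k2 k3
        refine Or.inr (Or.inl ⟨?_, h4, h5, ?_, ?_⟩)
        · rw [← mul_inv_rev, inv_pow, mul_inv_eq_one, mul_inv_eq_iff_eq_mul] at k1
          exact k1
        · rw [Br, ← mul_inv_eq_one]
          simpa only [mul_assoc, mul_inv_rev, inv_inv] using k2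
        · simpa only [zz, mul_assoc, mul_inv_rev, inv_inv] using k3
      · have hg : Sat (g3 a b c) FzS.CO.R := by
          refine s.append (.cons ?_ (.cons ?_ (.cons ?_ fun _ h => nomatch h))) <;>
            simp only [ev_cons, ev_nil, mul_one, g3]
          · simpa only [mul_assoc] using h3.rel
          · simpa only [mul_assoc, mul_inv_rev, inv_inv] using h4.rel
          · simpa only [mul_assoc, mul_inv_rev, inv_inv] using h5.rel
        have k1 := key FzS.CO.checked hg [1] (by decide +kernel) (by decide +kernel)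
        exact absurd (by simpa only [ev_cons, ev_nil, mul_one, g3] using k1) (h.ne a ha)
    · have hg : Sat (g3 a b c) FzU1.U.R := by
        refine s.append (.cons ?_ (.cons ?_ fun _ h => nomatch h)) <;>
          simp only [ev_cons, ev_nil, mul_one, g3]
        · simpa only [mul_assoc] using h3.rel
        · simpa only [mul_assoc, mul_inv_rev, inv_inv] using h4.rel
      exact Or.inr (Or.inr (u FzU1.U.checked hg 6 1 _ (h.inv _ (h.cj b c hc)) h4
        (by simp only [ev_cons, ev_nil, mul_one, g3]; group) (Or.inl rfl) (by decide +kernel)))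
  · rcases h.pr a ha _ (h.cj b c hc) with e | e | h4 | h4
    · exact Or.inl (mem_cl mb (Or.inl e))
    · exact Or.inl (mem_cl mb (Or.inr e))
    · have hg : Sat (g3 a b c) FzU2.U.R := by
        refine s.append (.cons ?_ (.cons ?_ fun _ h => nomatch h)) <;>
          simp only [ev_cons, ev_nil, mul_one, g3]
        · simpa only [mul_assoc, inv_inv] using h3.rel
        · simpa only [mul_assoc, mul_inv_rev, inv_inv] using h4.rel
      exact Or.inr (Or.inr (u FzU2.U.checked hg 5 2 _ (h.cj b c hc) h4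
        (by simp only [ev_cons, ev_nil, mul_one, g3]; group) (Or.inr rfl) (by decide +kernel)))
    · have hg : Sat (g3 a b c) FzU3.U.R := by
        refine s.append (.cons ?_ (.cons ?_ fun _ h => nomatch h)) <;>
          simp only [ev_cons, ev_nil, mul_one, g3]
        · simpa only [mul_assoc, inv_inv] using h3.rel
        · simpa only [mul_assoc, mul_inv_rev, inv_inv] using h4.rel
      exact Or.inr (Or.inr (u FzU3.U.checked hg 6 1 _ (h.inv _ (h.cj b c hc)) h4
        (by simp only [ev_cons, ev_nil, mul_one, g3]; group) (Or.inl rfl) (by decide +kernel)))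

end Cfsg.Agent.H2Fz
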