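import Cfsg.Agent.H2.FzA
import Cfsg.Agent.Eqn.Cfsg_Agent_H2Fz_g4

/-! The central involution of a pair centralises no other member of the class. -/

set_option autoImplicit false

namespace Cfsg.Agent.H2Fz

open Subgroup Cfsg.Agent.H44 Cfsg.Agent.H2

variable {G : Type*} [Group G]

theorem four {u v w t : G} (uu : u * u = 1) (vv : v * v = 1) (ww : w * w = 1) (tt : t * t = 1)
    (uv : (u * v) ^ 3 = 1) (uw : (u * w) ^ 3 = 1) (vw : (v * w) ^ 3 = 1)
    (zu : Commute (u * v * w * (u * v * w)) u) (zv : Commute (u * v * w * (u * v * w)) v)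
    (zw : Commute (u * v * w * (u * v * w)) w) (zt : Commute (u * v * w * (u * v * w)) t)
    (z3 : (u * v * w * (u * v * w)) ^ 3 = 1) (tu : Commute u t)
    (h1 : Commute v t ∨ (v * t) ^ 3 = 1) (h2 : Commute w t ∨ (w * t) ^ 3 = 1)
    (h12 : (v * t) ^ 3 = 1 ∨ (w * t) ^ 3 = 1)
    (h3 : Commute (v * w * v⁻¹) t ∨ (v * w * v⁻¹ * t) ^ 3 = 1)
    (h4 : Commute (v * u * w * (v * u)⁻¹) t ∨ (v * u * w * (v * u)⁻¹ * t) ^ 3 = 1) :
    u * v * w * (u * v * w) = 1 ∨ t = u := by
  have ui := inv_eq_of_mul_eq_one_right uu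
  have vi := inv_eq_of_mul_eq_one_right vv
  have wi := inv_eq_of_mul_eq_one_right ww
  have ti := inv_eq_of_mul_eq_one_right tt
  have c : ∀ x : G, x * x = 1 → ∀ y, x * (x * y) = y := fun x h y => by rw [← mul_assoc, h, one_mul]
  have cm : ∀ {x y : G}, Commute x y → x * y * x⁻¹ * y⁻¹ = 1 := fun h => by rw [h.eq]; group
  have sw : ∀ {x : G}, (x * t) ^ 3 = 1 → t * x * t * x * t * x = 1 := fun {x} h => by
    rw [show t * x * t * x * t * x = x⁻¹ * (x * t) ^ 3 * x by rw [pow_three]; group, h]; group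
  have s : Sat (g4 u v w t) [[1, 1], [2, 2], [3, 3], [4, 4], [1, 2, 1, 2, 1, 2], [1, 3, 1, 3, 1, 3],
      [2, 3, 2, 3, 2, 3], [1, 2, 3, 1, 2, 3, 1, 3, 2, 1, 3, 2], [1, 2, 3, 1, 2, 3, 2, 3, 2, 1, 3, 2, 1, 2],
      [1, 2, 3, 1, 2, 3, 2, 1, 3, 2, 1, 3], [1, 2, 3, 1, 2, 3, 1, 2, 3, 1, 2, 3, 1, 2, 3, 1, 2, 3],
      [4, 1, 4, 1], [4, 1, 2, 3, 1, 2, 3, 4, 3, 2, 1, 3, 2, 1]] := by
    refine .cons ?_ (.cons ?_ (.cons ?_ (.cons ?_ (.cons ?_ (.cons ?_ (.cons ?_ (.cons ?_ (.cons ?_ (.cons ?_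
      (.cons ?_ (.cons ?_ (.cons ?_ fun _ h => nomatch h)))))))))))) <;>
      simp only [ev_cons, ev_nil, mul_one, g4]
    · exact uu
    · exact vv
    · exact ww
    · exact tt
    · simpa only [pow_three, mul_assoc] using uv
    · simpa only [pow_three, mul_assoc] using uw
    · simpa only [pow_three, mul_assoc] using vw
    · simpa only [mul_assoc, mul_inv_rev, ui, vi, wi, uu, mul_one] using cm zu
    · simpa only [mul_assoc, mul_inv_rev, ui, vi, wi] using cm zv
    · simpa only [mul_assoc, mul_inv_rev, ui, vi, wi, c w ww] using cm zw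
    · simpa only [pow_three, mul_assoc] using z3
    · simpa only [mul_assoc, ui, ti] using cm tu.symm
    · simpa only [mul_assoc, mul_inv_rev, ui, vi, wi, ti] using cm zt.symm
  have a1 : (v * t) ^ 3 = 1 → ev (g4 u v w t) [4, 2, 4, 2, 4, 2] = 1 := fun h => by
    simpa only [ev_cons, ev_nil, mul_one, g4, mul_assoc] using sw h
  have a2 : (w * t) ^ 3 = 1 → ev (g4 u v w t) [4, 3, 4, 3, 4, 3] = 1 := fun h => by
    simpa only [ev_cons, ev_nil, mul_one, g4, mul_assoc] using sw h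
  have e : ev (g4 u v w t) [1, 2, 3, 1, 2, 3] = u * v * w * (u * v * w) := by
    simp only [ev_cons, ev_nil, mul_one, g4, mul_assoc]
  have n : Sat (g4 u v w t) [] := fun _ h => nomatch h
  rw [← e]
  have k1 : Commute v t → (w * t) ^ 3 = 1 → ev (g4 u v w t) [1, 2, 3, 1, 2, 3] = 1 := fun h h' =>
    key FzS.T1.checked (s.append (.cons (by
      simpa only [ev_cons, ev_nil, mul_one, g4, mul_assoc, vi, ti] using cm h.symm) (.cons (a2 h') n))) _
      (by decide +kernel) (by decide +kernel)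
  have k2 : Commute w t → (v * t) ^ 3 = 1 → ev (g4 u v w t) [1, 2, 3, 1, 2, 3] = 1 := fun h h' =>
    key FzS.T2.checked (s.append (.cons (a1 h') (.cons (by
      simpa only [ev_cons, ev_nil, mul_one, g4, mul_assoc, wi, ti] using cm h.symm) n))) _
      (by decide +kernel) (by decide +kernel)
  have k3 : (v * t) ^ 3 = 1 → (w * t) ^ 3 = 1 → ev (g4 u v w t) [1, 2, 3, 1, 2, 3] = 1 ∨ t = u := by
    intro b1 b2
    rcases h3 with h3 | h3
    · exact Or.inl (key FzS.T3.checked (s.append (.cons (a1 b1) (.cons (a2 b2) (.cons (by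
        simpa only [ev_cons, ev_nil, mul_one, g4, mul_assoc, mul_inv_rev, vi, wi, ti] using cm h3.symm) n)))) _
        (by decide +kernel) (by decide +kernel))
    have b3 : ev (g4 u v w t) [4, 2, 3, 2, 4, 2, 3, 2, 4, 2, 3, 2] = 1 := by
      simpa only [ev_cons, ev_nil, mul_one, g4, mul_assoc, vi] using sw h3
    rcases h4 with h4 | h4
    · exact Or.inl (key FzS.T4.checked (s.append (.cons (a1 b1) (.cons (a2 b2) (.cons b3 (.cons (by
        simpa only [ev_cons, ev_nil, mul_one, g4, mul_assoc, mul_inv_rev, ui, vi, wi, ti] using cm h4.symm)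
        n))))) _ (by decide +kernel) (by decide +kernel))
    · have := key FzS.T5.checked (s.append (.cons (a1 b1) (.cons (a2 b2) (.cons b3 (.cons (by
        simpa only [ev_cons, ev_nil, mul_one, g4, mul_assoc, mul_inv_rev, ui, vi] using sw h4)
        n))))) [4, 1] (by decide +kernel) (by decide +kernel)
      simp only [ev_cons, ev_nil, mul_one, g4] at this
      exact Or.inr (by rw [← ui]; exact eq_inv_of_mul_eq_one_left this)
  rcases h12 with b | b
  · exact h2.elim (fun h => Or.inl (k2 h b)) (k3 b)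
  · exact h1.elim (fun h => Or.inl (k1 h b)) fun h => k3 h b

theorem comm_cl {a b c z : G} (h1 : Commute z a) (h2 : Commute z b) (h : c ∈ closure ({a, b} : Set G)) :
    Commute z c := by
  have : closure ({a, b} : Set G) ≤ centralizer {z} := (closure_le _).2 (by
    rintro _ (rfl | rfl)
    exacts [mem_centralizer_singleton_iff.2 h1.symm, mem_centralizer_singleton_iff.2 h2.symm])
  exact (mem_centralizer_singleton_iff.1 (this h)).symm

theorem cjz {g a e : G} (h : Commute g a) (hb : Br a e) :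
    Br a (g * e * g⁻¹) ∧ zz a (g * e * g⁻¹) = g * zz a e * g⁻¹ := by
  have k : a = g * a * g⁻¹ := by rw [h.eq]; group
  constructor
  · unfold Br at *
    rw [k, show g * a * g⁻¹ * (g * e * g⁻¹) * (g * a * g⁻¹) = g * (a * e * a) * g⁻¹ by group, hb]; group
  · rw [zz, zz, ← conj_pow, show g * (a * e) * g⁻¹ = g * a * g⁻¹ * (g * e * g⁻¹) by group, ← k]

theorem Br.eq {a p : G} (h : Br a p) (hc : Commute a p) : p = a := by
  rw [Br, hc.eq] at h
  exact (mul_left_cancel h).symm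

variable {D : Set G}

theorem DS.sl (h : DS D) {a b : G} (ha : a ∈ D) (hb : b ∈ D) (h1 : Br a b) :
    zz a b * zz a b = 1 ∧ Commute (zz a b) a ∧ Commute (zz a b) b :=
  H2Fz.sl (h.o3 a ha) (h.o3 b hb) h1

theorem dich (h : DS D) {a q p : G} (ha : a ∈ D) (hq : q ∈ D) (hp : p ∈ D) (h1 : Br a q) (h2 : Br a p) :
    Commute (zz a q) p ∨ (zz a q * zz a p) ^ 3 = 1 := by
  rcases tri h ha hq hp h1 h2 with k | k | k
  exacts [Or.inl (comm_cl (h.sl ha hq h1).2.1 (h.sl ha hq h1).2.2 k), Or.inl k.1, Or.inr k.1]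

theorem same (h : DS D) {a b c p : G} (ha : a ∈ D) (hb : b ∈ D) (hc : c ∈ D) (hp : p ∈ D) (h1 : Br a b)
    (h2 : Br a c) (h3 : Br a p) (nc : ¬ Commute (zz a b) c) (cp : Commute (zz a b) p) :
    p = a ∨ zz a p = zz a b := by
  obtain ⟨uu, ua, ub⟩ := h.sl ha hb h1
  obtain ⟨uv, e, he, h4, uw, vw, hz⟩ : Uni D a b c := by
    rcases tri h ha hb hc h1 h2 with k | k | k
    exacts [absurd (comm_cl ua ub k) nc, absurd k.1 nc, k]
  obtain ⟨vv, va, -⟩ := h.sl ha hc h2
  obtain ⟨ww, wa, -⟩ := h.sl ha he h4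
  obtain ⟨tt, ta, -⟩ := h.sl ha hp h3
  have ct : ∀ {x : G}, Commute x a → Commute x p → Commute x (zz a p) := fun k1 k2 =>
    (k1.mul_right k2).pow_right 3
  have a3 : a ^ 3 = 1 := by rw [pow_three, ← mul_assoc, h.o3 a ha]
  generalize hζ : zz a b * zz a c * zz a e * (zz a b * zz a c * zz a e) = ζ at hz
  have hz' : ζ = a⁻¹ ∨ ζ = a := hz.imp eq_inv_of_mul_eq_one_left mul_inv_eq_one.1
  have cz : ∀ {x : G}, Commute x a → Commute ζ x := fun k => by
    rcases hz' with e | e <;> rw [e]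
    exacts [k.symm.inv_left, k.symm]
  by_cases h12 : (zz a c * zz a p) ^ 3 = 1 ∨ (zz a e * zz a p) ^ 3 = 1
  swap
  · rw [not_or] at h12
    have k1 := (dich h ha hc hp h2 h3).resolve_right h12.1
    have k2 := (dich h ha he hp h4 h3).resolve_right h12.2
    have k3 : Commute ζ p := hζ ▸ ((cp.mul_left k1).mul_left k2).mul_left ((cp.mul_left k1).mul_left k2)
    refine Or.inl (h3.eq ?_)
    rcases hz' with e | e <;> rw [e] at k3
    exacts [Commute.inv_left_iff.1 k3, k3]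
  have d : ∀ g : G, Commute g a → Commute (g * zz a e * g⁻¹) (zz a p) ∨ (g * zz a e * g⁻¹ * zz a p) ^ 3 = 1 :=
    fun g hg => by
      rw [← (cjz hg h4).2]
      exact (dich h ha (h.cj g e he) hp (cjz hg h4).1 h3).imp_left
        (ct (h.sl ha (h.cj g e he) (cjz hg h4).1).2.1)
  subst hζ
  refine (four uu vv ww tt uv uw vw (cz ua) (cz va) (cz wa) (cz ta) ?_ (ct ua cp)
    ((dich h ha hc hp h2 h3).imp_left (ct va)) ((dich h ha he hp h4 h3).imp_left (ct wa)) h12 (d _ va)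
    (d _ (va.mul_left ua))).elim (fun k => absurd ?_ (h.ne a ha)) Or.inr
  · rcases hz' with e | e <;> rw [e]
    · rw [inv_pow, a3, inv_one]
    · exact a3
  · rw [k] at hz'
    exact hz'.elim (fun e => inv_eq_one.1 e.symm) Eq.symm

theorem DS.nrm (h : DS D) {a c z : G} (ha : a ∈ D) (hc : c ∈ D) :
    c = a ∨ c = a⁻¹ ∨ ∃ c' ∈ D, Br a c' ∧ (c = c' ∨ c = c'⁻¹) ∧ (Commute z c ↔ Commute z c') := by
  rcases h.pr a ha c hc with e | e | e | e
  exacts [Or.inl e, Or.inr (Or.inl e), Or.inr (Or.inr ⟨c, hc, e, Or.inl rfl, Iff.rfl⟩),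
    Or.inr (Or.inr ⟨_, h.inv c hc, e, Or.inr (inv_inv c).symm, Commute.inv_right_iff.symm⟩)]

/-- the main result -/
theorem fz (h : DS D) {a b c d : G} (ha : a ∈ D) (hb : b ∈ D) (hc : c ∈ D) (hd : d ∈ D) (h1 : Br a b)
    (nc : ¬ Commute (zz a b) c) (cd : Commute (zz a b) d) : d ∈ closure ({a, b} : Set G) := by
  obtain ⟨uu, ua, ub⟩ := h.sl ha hb h1
  have ma : a ∈ closure ({a, b} : Set G) := subset_closure (by simp)
  have mb : b ∈ closure ({a, b} : Set G) := subset_closure (by simp)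
  rcases h.nrm (z := zz a b) ha hc with rfl | rfl | ⟨c, hc, h2, -, k⟩
  · exact absurd ua nc
  · exact absurd ua.inv_right nc
  rw [k] at nc
  rcases h.nrm (z := zz a b) ha hd with rfl | rfl | ⟨d', hd, h3, k1, k2⟩
  · exact ma
  · exact inv_mem ma
  rw [k2] at cd
  suffices d' ∈ closure ({a, b} : Set G) by
    rcases k1 with rfl | rfl
    exacts [this, inv_mem this]
  by_contra hn
  have s : ∀ g ∈ closure ({a, b} : Set G), Br a (g * d' * g⁻¹) → zz a (g * d' * g⁻¹) = zz a b := fun g hg hb' =>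
    (same h ha hb hc (h.cj g d' hd) h1 h2 hb' nc
      (((comm_cl ua ub hg).mul_right cd).mul_right (comm_cl ua ub hg).inv_right)).resolve_left
      fun e => hn (mem_cl hg (Or.inl e))
  have s0 : zz a d' = zz a b := by simpa using s 1 (one_mem _) (by simpa using h3)
  rcases tri h ha hb hd h1 h3 with k | ⟨-, b1, b2, b3, k⟩ | ⟨-, e, he, h4, -, -, k⟩
  · exact hn k
  · rw [s0, s _ mb b1, s _ (inv_mem mb) b2, s _ (mul_mem mb ma) b3, uu, one_mul, uu, one_mul] at k
    exact nc (k ▸ Commute.one_left c)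
  · rw [s0, uu, one_mul, (h.sl ha he h4).1, one_mul, one_mul, inv_eq_one, or_self] at k
    exact h.ne a ha k

end Cfsg.Agent.H2Fz
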