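import Cfsg.Agent.H98.GbH
import Cfsg.Agent.H14.InduceChar
import Cfsg.Agent.H11.Irr

/-! Project GB, piece AVM. -/

set_option autoImplicit false
open Cfsg Finset
open scoped MatrixGroups

namespace Cfsg.Agent.H2GbAvm

open Cfsg.Agent.H98.GB H14

universe u

theorem shift {G : Type u} [Group G] [Fintype G] (l : G →* ℂˣ) (E : G → ℂ) (g d : G) :
    ∑ x, (l x : ℂ) * ((l d : ℂ) * E (d⁻¹ * (x⁻¹ * g * x) * d)) = ∑ x, (l x : ℂ) * E (x⁻¹ * g * x) := by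
  rw [← Equiv.sum_comp (Equiv.mulRight d) fun x => (l x : ℂ) * E (x⁻¹ * g * x)]
  refine sum_congr rfl fun x _ => ?_
  simp only [Equiv.coe_mulRight, map_mul, Units.val_mul, mul_inv_rev, mul_assoc]

variable {F : Type u} [Field F] {a b n : ℕ} (h : a + b = n)

theorem tri_inv (u : GL (Fin a) F) (c : Matrix (Fin a) (Fin b) F) (v : GL (Fin b) F) :
    (tri h u c v)⁻¹ = tri h u⁻¹ (-(u⁻¹.1 * c * v⁻¹.1)) v⁻¹ := by
  refine inv_eq_of_mul_eq_one_right ?_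
  rw [tri_mul, mul_inv_cancel, mul_inv_cancel, ← tri_one h]
  congr 1
  rw [Matrix.mul_neg, ← Matrix.mul_assoc, ← Matrix.mul_assoc, Units.mul_inv, Matrix.one_mul,
    neg_add_cancel]

/-- the parabolic subgroup of the kernel -/
def P0 (ξ : Fˣ →* ℂˣ) : Subgroup (dl ξ n).ker where
  carrier := {k | ∃ (u : (dl ξ a).ker) (c : Matrix (Fin a) (Fin b) F) (v : (dl ξ b).ker),
    k.1 = tri h u.1 c v.1}
  one_mem' := ⟨1, 0, 1, (tri_one h).symm⟩
  mul_mem' := by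
    rintro x y ⟨u, c, v, e⟩ ⟨u', c', v', e'⟩
    exact ⟨u * u', _, v * v', by rw [Subgroup.coe_mul, e, e', tri_mul]; rfl⟩
  inv_mem' := by
    rintro x ⟨u, c, v, e⟩
    exact ⟨u⁻¹, _, v⁻¹, by rw [Subgroup.coe_inv, e, tri_inv]; rfl⟩

theorem tri_mem {ξ : Fˣ →* ℂˣ} {u : GL (Fin a) F} (c : Matrix (Fin a) (Fin b) F) {v : GL (Fin b) F}
    (hu : u ∈ (dl ξ a).ker) (hv : v ∈ (dl ξ b).ker) : tri h u c v ∈ (dl ξ n).ker := by
  rw [MonoidHom.mem_ker] at hu hv ⊢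
  rw [dl_tri, hu, hv, one_mul]

theorem exists_pr (ξ : Fˣ →* ℂˣ) : ∃ (p₁ : P0 h ξ →* (dl ξ a).ker) (p₂ : P0 h ξ →* (dl ξ b).ker),
    ∀ k : P0 h ξ, ∃ c, k.1.1 = tri h (p₁ k).1 c (p₂ k).1 := by
  have : ∀ k : P0 h ξ, ∃ (u : (dl ξ a).ker) (c : Matrix (Fin a) (Fin b) F) (v : (dl ξ b).ker),
      k.1.1 = tri h u.1 c v.1 := fun k => k.2
  choose u c v e using this
  have m : ∀ x y, (u (x * y)).1 = (u x).1 * (u y).1 ∧ (v (x * y)).1 = (v x).1 * (v y).1 := fun x y => by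
    have := e (x * y)
    rw [Subgroup.coe_mul, Subgroup.coe_mul, e, e, tri_mul] at this
    exact ⟨(tri_inj this).1.symm, (tri_inj this).2.2.symm⟩
  exact ⟨MonoidHom.mk' u fun x y => Subtype.ext (m x y).1,
    MonoidHom.mk' v fun x y => Subtype.ext (m x y).2, fun k => ⟨c k, e k⟩⟩

variable [Fintype F] [DecidableEq F]

omit [DecidableEq F] in
theorem card_P0 (ξ : Fˣ →* ℂˣ) : Nat.card (P0 h ξ) =
    Nat.card (dl ξ a).ker * Nat.card (dl ξ b).ker * Fintype.card F ^ (a * b) := by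
  have : Nat.card (((dl ξ a).ker × (dl ξ b).ker) × Matrix (Fin a) (Fin b) F) = Nat.card (P0 h ξ) :=
    Nat.card_congr (Equiv.ofBijective (fun t => ⟨⟨tri h t.1.1.1 t.2 t.1.2.1, tri_mem h _ t.1.1.2 t.1.2.2⟩,
      _, _, _, rfl⟩) ⟨fun s t e => by
        have := tri_inj (congrArg (fun x : P0 h ξ => x.1.1) e)
        exact Prod.ext (Prod.ext (Subtype.ext this.1) (Subtype.ext this.2.2)) this.2.1, by
        rintro ⟨x, u, c, v, e⟩
        exact ⟨⟨⟨u, v⟩, c⟩, Subtype.ext (Subtype.ext e.symm)⟩⟩)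
  rw [← this, Nat.card_prod, Nat.card_prod]
  congr 1
  change Nat.card (Fin a → Fin b → F) = _
  rw [Nat.card_fun, Nat.card_fun, Nat.card_eq_fintype_card, ← pow_mul]
  simp [mul_comm]

open Classical in
/-- the inflation, extended by zero -/
noncomputable def Ef (f : GL (Fin a) F → ℂ) (f' : GL (Fin b) F → ℂ) (y : GL (Fin n) F) : ℂ :=
  ∑ u : GL (Fin a) F, ∑ c : Matrix (Fin a) (Fin b) F, ∑ v : GL (Fin b) F,
    if y = tri h u c v then f u * f' v else 0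

theorem Ef_tri (f : GL (Fin a) F → ℂ) (f' : GL (Fin b) F → ℂ) (u c v) :
    Ef h f f' (tri h u c v) = f u * f' v := by
  rw [Ef, sum_eq_single u, sum_eq_single c, sum_eq_single v, if_pos rfl]
  · exact fun v' _ n => if_neg fun e => n (tri_inj e).2.2.symm
  · simp
  · exact fun c' _ n => sum_eq_zero fun v' _ => if_neg fun e => n (tri_inj e).2.1.symm
  · simp
  · exact fun u' _ n => sum_eq_zero fun c' _ => sum_eq_zero fun v' _ =>
      if_neg fun e => n (tri_inj e).1.symm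
  · simp

theorem Ef_zero (f : GL (Fin a) F → ℂ) (f' : GL (Fin b) F → ℂ) {y : GL (Fin n) F}
    (hy : ∀ u c v, y = tri h u c v → f u * f' v = 0) : Ef h f f' y = 0 :=
  sum_eq_zero fun u _ => sum_eq_zero fun c _ => sum_eq_zero fun v _ => by
    split_ifs with e
    exacts [hy u c v e, rfl]

theorem cmp_eq (η : Fˣ →* ℂˣ) (f : GL (Fin a) F → ℂ) (f' : GL (Fin b) F → ℂ) (g : GL (Fin n) F) :
    cmp η h f f' g = ((Fintype.card (GL (Fin a) F) * Fintype.card (GL (Fin b) F) *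
      Fintype.card F ^ (a * b) : ℕ) : ℂ)⁻¹ * ∑ x, (dl η n x : ℂ) * Ef h f f' (x⁻¹ * g * x) := by
  rw [H98.GB.cmp, cmpS]
  congr 1
  refine sum_congr rfl fun x _ => ?_
  simp only [Ef, mul_sum, mul_ite, mul_zero, true_and, mul_assoc]
  refine sum_congr rfl fun u _ => sum_congr rfl fun c _ => sum_congr rfl fun v _ => ?_
  refine if_congr ⟨fun e => ?_, fun e => ?_⟩ rfl rfl
  · rw [e]; group
  · rw [← e]; group

theorem Ef_av (η : Fˣ →* ℂˣ) (K₁ : Subgroup (GL (Fin a) F)) (K₂ : Subgroup (GL (Fin b) F))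
    (θ₁ : K₁ → ℂ) (θ₂ : K₂ → ℂ) (y : GL (Fin n) F) :
    Ef h (av K₁ (dl η a) θ₁) (av K₂ (dl η b) θ₂) y =
      (Nat.card K₁ : ℂ)⁻¹ * (Nat.card K₂ : ℂ)⁻¹ * ∑ s, ∑ t, (dl η n (tri h s 0 t) : ℂ) *
        Ef h (extendByZero K₁ θ₁) (extendByZero K₂ θ₂) ((tri h s 0 t)⁻¹ * y * tri h s 0 t) := by
  by_cases hy : ∃ u c v, y = tri h u c v
  · obtain ⟨u, c, v, rfl⟩ := hy
    simp only [tri_inv, tri_mul, Ef_tri, av, dl_tri, Units.val_mul]
    rw [mul_mul_mul_comm, sum_mul_sum]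
    congr 1
    exact sum_congr rfl fun s _ => sum_congr rfl fun t _ => by ring
  · rw [Ef_zero h _ _ fun u c v e => (hy ⟨u, c, v, e⟩).elim, sum_eq_zero, mul_zero]
    refine fun s _ => sum_eq_zero fun t _ => ?_
    rw [Ef_zero, mul_zero]
    refine fun u c v e => (hy ?_).elim
    have : y = tri h s 0 t * tri h u c v * (tri h s 0 t)⁻¹ := by rw [← e]; group
    rw [tri_inv, tri_mul, tri_mul] at this
    exact ⟨_, _, _, this⟩

theorem avm : AVMStmt.{u} := by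
  intro F _ _ _ ξ a b n h θ₁ θ₂
  classical
  obtain ⟨p₁, p₂, hp⟩ := exists_pr h ξ
  let Θ₀ : P0 h ξ → ℂ := (fun k => θ₁ (p₁ k)) * fun k => θ₂ (p₂ k)
  refine ⟨indFun (P0 h ξ) Θ₀, fun j => funext fun g => ?_, fun h1 h2 => IsCharacter.indFun _
    (H11.isCharacter_mul (H11.isCharacter_comp h1 p₁) (H11.isCharacter_comp h2 p₂)),
    fun h1 h2 => IsGeneralizedCharacter.indFun _
      (H11.isGen_mul (H11.isGen_comp h1 p₁) (H11.isGen_comp h2 p₂))⟩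
  set E := Ef h (extendByZero _ θ₁) (extendByZero _ θ₂) with hE
  have z : ∀ u v, ¬ (u ∈ (dl ξ a).ker ∧ v ∈ (dl ξ b).ker) →
      extendByZero _ θ₁ u * extendByZero _ θ₂ v = 0 := fun u v n => by
    rcases not_and_or.1 n with n | n
    · rw [extendByZero_of_not_mem _ _ n, zero_mul]
    · rw [extendByZero_of_not_mem _ θ₂ n, mul_zero]
  have A : ∀ k : (dl ξ n).ker, extendByZero (P0 h ξ) Θ₀ k = E k := fun k => by
    by_cases hk : k ∈ P0 h ξ
    · obtain ⟨c, e⟩ := hp ⟨k, hk⟩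
      rw [extendByZero_coe (P0 h ξ) Θ₀ ⟨k, hk⟩, show k.1 = _ from e, hE, Ef_tri, extendByZero_coe,
        extendByZero_coe]
      rfl
    · rw [extendByZero_of_not_mem _ _ hk, hE, Ef_zero]
      exact fun u c v e => z u v fun m => hk ⟨⟨u, m.1⟩, c, ⟨v, m.2⟩, e⟩
  have B : ∀ y, extendByZero _ (indFun (P0 h ξ) Θ₀) y =
      (Nat.card (P0 h ξ) : ℂ)⁻¹ * ∑ k : (dl ξ n).ker, E (k.1⁻¹ * y * k.1) := fun y => by
    by_cases hy : y ∈ (dl ξ n).ker
    · rw [extendByZero_coe _ _ ⟨y, hy⟩, indFun]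
      simp only [A]
      rfl
    · rw [extendByZero_of_not_mem _ _ hy, sum_eq_zero, mul_zero]
      refine fun k _ => Ef_zero h _ _ fun u c v e => z u v fun m => hy ?_
      have : y = k.1 * tri h u c v * k.1⁻¹ := by rw [← e]; group
      rw [this]
      exact mul_mem (mul_mem k.2 (tri_mem h c m.1 m.2)) (inv_mem k.2)
  have c0 : ∀ (X : Type u) [Finite X] [Nonempty X], (Nat.card X : ℂ) ≠ 0 := fun X _ _ =>
    Nat.cast_ne_zero.2 Nat.card_pos.ne'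
  have L : av (dl ξ n).ker (dl ξ n ^ j) (indFun (P0 h ξ) Θ₀) g =
      (Nat.card (P0 h ξ) : ℂ)⁻¹ * ∑ x, (dl (ξ ^ j) n x : ℂ) * E (x⁻¹ * g * x) := by
    rw [av, ← dl_pow]
    simp only [B, mul_left_comm _ (Nat.card (P0 h ξ) : ℂ)⁻¹, ← mul_sum]
    congr 1
    have : ∀ k : (dl ξ n).ker, ∑ x, (dl (ξ ^ j) n x : ℂ) * E (k.1⁻¹ * (x⁻¹ * g * x) * k.1) =
        ∑ x, (dl (ξ ^ j) n x : ℂ) * E (x⁻¹ * g * x) := fun k => by
      rw [← shift (dl (ξ ^ j) n) E g k.1, dl_pow, MonoidHom.pow_apply _ _ k.1,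
        show dl ξ n k.1 = 1 from k.2]
      simp
    rw [sum_congr rfl fun x _ => mul_sum _ _ _, sum_comm]
    simp only [this, sum_const, card_univ, nsmul_eq_mul]
    rw [← Nat.card_eq_fintype_card, inv_mul_cancel_left₀ (c0 _)]
  have R : ∑ x, (dl (ξ ^ j) n x : ℂ) * ∑ s, ∑ t, (dl (ξ ^ j) n (tri h s 0 t) : ℂ) *
      E ((tri h s 0 t)⁻¹ * (x⁻¹ * g * x) * tri h s 0 t) = Fintype.card (GL (Fin a) F) *
        (Fintype.card (GL (Fin b) F) * ∑ x, (dl (ξ ^ j) n x : ℂ) * E (x⁻¹ * g * x)) := by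
    rw [sum_congr rfl fun x _ => mul_sum _ _ _, sum_comm]
    rw [sum_congr rfl fun s _ => (sum_congr rfl fun x _ => mul_sum _ _ _).trans sum_comm]
    simp only [shift, sum_const, card_univ, nsmul_eq_mul]
  rw [L, cmp_eq, ← dl_pow, ← dl_pow]
  simp only [Ef_av, mul_left_comm _ ((Nat.card (dl ξ a).ker : ℂ)⁻¹ * _)]
  rw [← mul_sum, ← hE, R, card_P0]
  have c1 := c0 (dl ξ a).ker
  have c2 := c0 (dl ξ b).ker
  have c3 := c0 (GL (Fin a) F)
  have c4 := c0 (GL (Fin b) F)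
  have c5 := c0 F
  rw [Nat.card_eq_fintype_card] at c3 c4 c5
  push_cast
  field_simp

end Cfsg.Agent.H2GbAvm
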