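import Cfsg.Agent.H98.GbL

/-! Project GB, piece R1c. -/

set_option autoImplicit false
open Cfsg Finset
open scoped MatrixGroups

namespace Cfsg.Agent.H2GbR1c

open Cfsg.Agent.H98.GB

universe u

theorem step {G G₁ G₂ : Type*} [Group G] [Group G₁] [Group G₂] (j : G₁ × G₂ →* G)
    (hj : Function.Injective j) {p w : ℕ} {u : G₁} (hu : orderOf u = p) {E : Subgroup G₂}
    (c : Nat.card E = p ^ w) (ab : ∀ a ∈ E, ∀ b ∈ E, a * b = b * a) (ex : ∀ a ∈ E, a ^ p = 1)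
    {D : Subgroup G} (h1 : j (u, 1) ∈ D) (h2 : ∀ y ∈ E, j (1, y) ∈ D) :
    ∃ E' : Subgroup G, E' ≤ D ∧ Nat.card E' = p ^ (w + 1) ∧
      (∀ a ∈ E', ∀ b ∈ E', a * b = b * a) ∧ ∀ a ∈ E', a ^ p = 1 := by
  refine ⟨((Subgroup.zpowers u).prod E).map j, ?_, ?_, ?_, ?_⟩
  · rintro _ ⟨⟨a, y⟩, ⟨⟨k, rfl⟩, hy⟩, rfl⟩
    have e : ((u ^ k, y) : G₁ × G₂) = (u, 1) ^ k * (1, y) := by simp
    show j (u ^ k, y) ∈ D
    rw [e, map_mul, map_zpow]
    exact D.mul_mem (D.zpow_mem h1 k) (h2 y hy)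
  · rw [Subgroup.card_map_of_injective hj, Nat.card_congr (Subgroup.prodEquiv _ _).toEquiv,
      Nat.card_prod, Nat.card_zpowers, hu, c, pow_succ']
  · rintro _ ⟨⟨a, y⟩, ⟨⟨k, rfl⟩, hy⟩, rfl⟩ _ ⟨⟨a', y'⟩, ⟨⟨k', rfl⟩, hy'⟩, rfl⟩
    rw [← map_mul, ← map_mul]
    congr 1
    exact Prod.ext (zpow_mul_comm u k k') (ab y hy y' hy')
  · rintro _ ⟨⟨a, y⟩, ⟨⟨k, rfl⟩, hy⟩, rfl⟩
    rw [← map_pow, ← map_one j]
    congr 1
    refine Prod.ext ?_ (ex y hy)
    show (u ^ k) ^ p = 1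
    rw [← zpow_natCast, ← zpow_mul, mul_comm, zpow_mul, zpow_natCast, ← hu, pow_orderOf_eq_one,
      one_zpow]

variable {F : Type u} [Field F] {m k n : ℕ} (h : m + k = n)

/-- the block diagonal embedding -/
noncomputable def jj (u : GL (Fin m) F) : H17.Cg u × GL (Fin k) F →* GL (Fin n) F where
  toFun x := tri h x.1.1 0 x.2
  map_one' := tri_one h
  map_mul' x y := by
    rw [tri_mul, Matrix.mul_zero, Matrix.zero_mul, add_zero]
    rfl

theorem jj_inj (u : GL (Fin m) F) : Function.Injective (jj h u) := fun x y e => by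
  have := tri_inj (h := h) e
  exact Prod.ext (Subtype.ext this.1) this.2.2

theorem jj_range (u : GL (Fin m) F) (hu : IsUnit (u.1 - 1)) :
    (jj h u).range = H17.Cg (jj h u (⟨u, H17.self_mem_Cg u⟩, 1)) := by
  ext g
  rw [H17.mem_Cg]
  constructor
  · rintro ⟨x, rfl⟩
    rw [← map_mul, ← map_mul]
    congr 1
    exact Prod.ext (Subtype.ext (H17.mem_Cg.1 x.1.2)) (by simp)
  · intro e
    obtain ⟨A, hA⟩ := (Matrix.reindex (eqv h) (eqv h)).surjective g.1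
    rw [← Matrix.fromBlocks_toBlocks A] at hA
    generalize A.toBlocks₁₁ = a at hA
    generalize A.toBlocks₁₂ = b at hA
    generalize A.toBlocks₂₁ = c at hA
    generalize A.toBlocks₂₂ = d at hA
    have e1 : g.1 * (tri h u 0 1).1 = (tri h u 0 1).1 * g.1 := congrArg Units.val e
    rw [← hA, coe_tri] at e1
    have e2 : Matrix.fromBlocks a b c d * Matrix.fromBlocks u.1 0 0 (1 : GL (Fin k) F).1 =
        Matrix.fromBlocks u.1 0 0 (1 : GL (Fin k) F).1 * Matrix.fromBlocks a b c d := by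
      refine (Matrix.reindex (eqv h) (eqv h)).injective ?_
      simpa only [Matrix.reindex_apply, Matrix.submatrix_mul_equiv] using e1
    rw [Matrix.fromBlocks_multiply, Matrix.fromBlocks_multiply, Matrix.fromBlocks_inj] at e2
    obtain ⟨p1, p2, p3, -⟩ := e2
    simp only [Matrix.mul_zero, Matrix.zero_mul, add_zero, zero_add, Units.val_one,
      Matrix.mul_one, Matrix.one_mul] at p1 p2 p3
    obtain ⟨w, hw⟩ := hu
    have b0 : b = 0 := by
      have : w.1 * b = 0 := by rw [hw, Matrix.sub_mul, Matrix.one_mul, ← p2, sub_self]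
      rw [← Matrix.one_mul b, ← w.inv_mul, Matrix.mul_assoc, this, Matrix.mul_zero]
    have c0 : c = 0 := by
      have : c * w.1 = 0 := by rw [hw, Matrix.mul_sub, Matrix.mul_one, p3, sub_self]
      rw [← Matrix.mul_one c, ← w.mul_inv, ← Matrix.mul_assoc, this, Matrix.zero_mul]
    subst b0 c0
    have hd := g.det_ne_zero
    rw [← hA, Matrix.det_reindex_self, Matrix.det_fromBlocks_zero₂₁] at hd
    refine ⟨(⟨Matrix.GeneralLinearGroup.mkOfDetNeZero a (left_ne_zero_of_mul hd),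
      H17.mem_Cg.2 (Units.ext p1)⟩,
      Matrix.GeneralLinearGroup.mkOfDetNeZero d (right_ne_zero_of_mul hd)), Units.ext ?_⟩
    exact hA

theorem r1c (ha : R1aStmt.{u}) (hb : R1bStmt.{u}) (hI : IRRStmt.{u}) : R1cStmt.{u} := by
  intro F _ _ _ C
  suffices H : ∀ w n, n ≤ C.n0 → ∀ Λ, C.IsLab n Λ → C.Bas Λ → C.ww Λ = w →
      ∀ D : Subgroup (GL (Fin n) F), IsDefectGroup C.p C.M (blockOf C.M (C.sC Λ n)) D →
      ∃ E : Subgroup (GL (Fin n) F), E ≤ D ∧ Nat.card E = C.p ^ w ∧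
        (∀ a ∈ E, ∀ b ∈ E, a * b = b * a) ∧ ∀ a ∈ E, a ^ C.p = 1 from
    fun n hn Λ hl hB D hD => H _ n hn Λ hl hB rfl D hD
  intro w
  induction w with
  | zero =>
    intro n _ Λ _ _ _ D _
    refine ⟨⊥, bot_le, by simp, ?_, ?_⟩
    · intro a ha b hb
      rw [Subgroup.mem_bot.1 ha, one_mul, mul_one]
    · intro a ha
      rw [Subgroup.mem_bot.1 ha, one_pow]
  | succ w ih =>
    intro n hn Λ hl hB hw D hD
    classical
    obtain ⟨m, k, h, u, s, Λ', m0, hl', hB', hw', ⟨i, hi⟩, hu, hus, hs, hne⟩ :=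
      ha F C n hn Λ hl hB (by omega)
    have hk : k ≤ C.n0 := by omega
    let χ : IrrCharacter (GL (Fin n) F) := ⟨_, (hI F C n hn Λ hl).2.1⟩
    let ψ : IrrCharacter (GL (Fin k) F) := ⟨_, (hI F C k hk Λ' hl').2.1⟩
    obtain ⟨D₂, hD₂⟩ := H17.exists_dg (p := C.p) C.hM.2.1 (B := blockOf C.M ψ.1) ⟨ψ, rfl⟩
    obtain ⟨E₂, le₂, c₂, ab₂, ex₂⟩ := ih k hk Λ' hl' hB' (by omega) D₂ hD₂
    let u₁ : H17.Cg u := ⟨u, H17.self_mem_Cg u⟩
    let s₁ : H17.Cg u := ⟨s, H17.mem_Cg.2 hus.symm.eq⟩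
    have ou : orderOf u₁ = C.p ^ i := by rw [← hi, ← Subgroup.orderOf_coe]
    letI : Fintype (H17.Cg u) := Fintype.ofFinite _
    obtain ⟨D', hD', m1, m2⟩ := hb (GL (Fin n) F) C.p C.M C.hM (H17.Cg u) (GL (Fin k) F)
      (jj h u) (jj_inj h u) u₁ ⟨i, ou⟩ (jj_range h u hu) s₁
      (by rw [← Subgroup.orderOf_coe]; exact hs) χ ψ hne D₂ hD₂
    obtain ⟨x, rfl⟩ := H17.dg_exists_cs_eq C.hM (B := blockOf C.M χ.1) ⟨χ, rfl⟩ hD' hD
    have i0 : i ≠ 0 := by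
      rintro rfl
      rw [pow_zero, orderOf_eq_one_iff] at hi
      rw [hi, Units.val_one, sub_self] at hu
      haveI : Nonempty (Fin m) := ⟨⟨0, m0⟩⟩
      exact not_isUnit_zero hu
    have o' : orderOf (u₁ ^ (orderOf u₁ / C.p)) = C.p :=
      orderOf_pow_orderOf_div (orderOf_pos _).ne' (ou ▸ dvd_pow_self _ i0)
    refine step ((MulAut.conj x).toMonoidHom.comp (jj h u))
      ((MulAut.conj x).injective.comp (jj_inj h u)) o' c₂ ab₂ ex₂ ?_ fun y hy => ?_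
    · refine Subgroup.mem_map_of_mem _ ?_
      have e : ((u₁ ^ (orderOf u₁ / C.p), 1) : H17.Cg u × GL (Fin k) F) =
        (u₁, 1) ^ (orderOf u₁ / C.p) := by simp
      rw [e, map_pow]
      exact D'.pow_mem m1 _
    · exact Subgroup.mem_map_of_mem _ (m2 y (le₂ hy))

end Cfsg.Agent.H2GbR1c
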