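import Mathlib

/-! Free actions on a finite set. -/

set_option autoImplicit false

namespace Cfsg.Agent.H2.HnP

/-- The identity and the fixed point free permutations. -/
def Fr (X : Type) : Set (Equiv.Perm X) := {g | g = 1 ∨ ∀ i, g i ≠ i}

theorem fr_conj {X : Type} (g : Equiv.Perm X) {x : Equiv.Perm X} (hx : x ∈ Fr X) :
    g * x * g⁻¹ ∈ Fr X := by
  rcases hx with rfl | hx
  · left; simp
  · right
    intro i hi
    apply hx (g⁻¹ i)
    have : g (x (g⁻¹ i)) = i := by simpa [Equiv.Perm.mul_apply] using hi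
    have h2 := congrArg (fun y => g⁻¹ y) this
    simpa using h2

theorem exists_emb {H : Type*} [Group H] [Finite H] {n : ℕ} (hn : 0 < n) (hd : Nat.card H ∣ n) :
    ∃ ι : H →* Equiv.Perm (Fin n), Function.Injective ι ∧ ∀ h, ι h ∈ Fr (Fin n) := by
  obtain ⟨m, hm⟩ := hd
  have hm0 : 0 < m := Nat.pos_of_ne_zero (by rintro rfl; simp at hm; omega)
  have hc : Nat.card (H × Fin m) = Nat.card (Fin n) := by simp [Nat.card_prod, hm]
  obtain ⟨e⟩ := Finite.card_eq.mp hc
  let ι : H →* Equiv.Perm (Fin n) :=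
    { toFun := fun h => e.permCongr ((Equiv.mulLeft h).prodCongr (Equiv.refl _))
      map_one' := by ext i; simp
      map_mul' := fun a b => by ext i; simp [Equiv.permCongr_apply, Prod.map, mul_assoc] }
  have key : ∀ h, ∀ i, ι h i = i → h = 1 := by
    intro h i hi
    have h1 : e (h * (e.symm i).1, (e.symm i).2) = i := hi
    have h2 : (h * (e.symm i).1, (e.symm i).2) = e.symm i := by
      rw [Equiv.eq_symm_apply]; exact h1
    have h3 := congrArg Prod.fst h2
    simpa using h3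
  refine ⟨ι, ?_, ?_⟩
  · rw [injective_iff_map_eq_one]
    intro a ha
    exact key a ⟨0, hn⟩ (by rw [ha]; rfl)
  · intro h
    by_cases h1 : h = 1
    · left; rw [h1, map_one]
    · right; intro i hi; exact h1 (key h i hi)

theorem exists_triv {P : Type*} [Group P] {X : Type} (ρ : P →* Equiv.Perm X)
    (hρ : ∀ p i, ρ p i = i → p = 1) :
    ∃ (Q : Type) (e : P × Q ≃ X), ∀ p a q, ρ p (e (a, q)) = e (p * a, q) := by
  let r : Setoid X :=
    { r := fun x y => ∃ p, ρ p x = y
      iseqv := ⟨fun x => ⟨1, by simp⟩, fun ⟨p, hp⟩ => ⟨p⁻¹, by rw [← hp]; simp⟩,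
        fun ⟨p, hp⟩ ⟨q, hq⟩ => ⟨q * p, by rw [map_mul, Equiv.Perm.mul_apply, hp, hq]⟩⟩ }
  let φ : P × Quotient r → X := fun z => ρ z.1 z.2.out
  have hb : Function.Bijective φ := by
    constructor
    · rintro ⟨a, q⟩ ⟨b, q'⟩ h
      have h1 : ρ a q.out = ρ b q'.out := h
      have h2 : ρ (b⁻¹ * a) q.out = q'.out := by
        rw [map_mul, Equiv.Perm.mul_apply, h1]; simp
      have h3 : q = q' := by
        rw [← Quotient.out_eq q, ← Quotient.out_eq q']
        exact Quotient.sound ⟨_, h2⟩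
      subst h3
      have h4 := hρ _ _ h2
      rw [inv_mul_eq_one] at h4
      rw [h4]
    · intro x
      obtain ⟨p, hp⟩ : r.r (Quotient.mk r x).out x := Quotient.mk_out x
      exact ⟨(p, Quotient.mk r x), hp⟩
  refine ⟨Quotient r, Equiv.ofBijective φ hb, fun p a q => ?_⟩
  show ρ p (ρ a q.out) = ρ (p * a) q.out
  rw [map_mul, Equiv.Perm.mul_apply]

theorem exists_conj {P : Type*} [Group P] [Finite P] {X : Type} [Finite X]
    (ρ₁ ρ₂ : P →* Equiv.Perm X) (h₁ : ∀ p i, ρ₁ p i = i → p = 1)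
    (h₂ : ∀ p i, ρ₂ p i = i → p = 1) : ∃ g : Equiv.Perm X, ∀ p, ρ₂ p = g * ρ₁ p * g⁻¹ := by
  obtain ⟨Q₁, e₁, he₁⟩ := exists_triv ρ₁ h₁
  obtain ⟨Q₂, e₂, he₂⟩ := exists_triv ρ₂ h₂
  haveI : Finite (P × Q₁) := Finite.of_equiv _ e₁.symm
  haveI : Finite (P × Q₂) := Finite.of_equiv _ e₂.symm
  haveI : Finite Q₁ := Finite.of_injective (fun q : Q₁ => ((1 : P), q)) (fun a b h => by simpa using h)
  haveI : Finite Q₂ := Finite.of_injective (fun q : Q₂ => ((1 : P), q)) (fun a b h => by simpa using h)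
  have hc : Nat.card Q₁ = Nat.card Q₂ := by
    have a1 := Nat.card_congr e₁
    have a2 := Nat.card_congr e₂
    rw [Nat.card_prod] at a1 a2
    exact Nat.eq_of_mul_eq_mul_left Nat.card_pos (a1.trans a2.symm)
  obtain ⟨c⟩ := Finite.card_eq.mp hc
  let g : Equiv.Perm X := (e₁.symm.trans ((Equiv.refl P).prodCongr c)).trans e₂
  have hg : ∀ a q, g (e₁ (a, q)) = e₂ (a, c q) := by intro a q; simp [g]
  refine ⟨g, fun p => ?_⟩
  rw [eq_mul_inv_iff_mul_eq]
  ext x
  obtain ⟨⟨a, q⟩, rfl⟩ := e₁.surjective x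
  rw [Equiv.Perm.mul_apply, Equiv.Perm.mul_apply, hg, he₁, he₂, hg]

/-- The order of a group with a self-centralizing normal subgroup. -/
theorem card_dvd {G : Type*} [Group G] [Finite G] (O : Subgroup G) [O.Normal]
    (hO : Subgroup.centralizer (O : Set G) ≤ O) {s : ℕ} (hs : 0 < s) (hd : Nat.card O ∣ s) :
    Nat.card G ∣ s * s.factorial := by
  classical
  let f : G →* MulAut O := MulAut.conjNormal
  have h1 : f.ker ≤ O := by
    intro g hg
    apply hO
    rw [Subgroup.mem_centralizer_iff]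
    intro x hx
    have := congrArg (fun α : MulAut O => ((α ⟨x, hx⟩ : O) : G)) (MonoidHom.mem_ker.mp hg)
    simp only [f, MulAut.conjNormal_apply, MulAut.one_apply] at this
    rw [mul_inv_eq_iff_eq_mul] at this
    exact this.symm
  have h2 : Nat.card f.ker ∣ s := (Subgroup.card_dvd_of_le h1).trans hd
  have h3 : Nat.card f.range ∣ s.factorial := by
    have a1 : Nat.card f.range ∣ Nat.card (MulAut O) := Subgroup.card_subgroup_dvd_card _
    have a2 : Nat.card (MulAut O) ∣ Nat.card (Equiv.Perm O) :=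
      Subgroup.card_dvd_of_injective (MulAut.toPerm O) (fun a b h => by
        ext x
        exact congrArg (fun e : Equiv.Perm O => ((e x : O) : G)) h)
    have a3 : Nat.card (Equiv.Perm O) = (Nat.card O).factorial := Nat.card_perm
    rw [a3] at a2
    exact (a1.trans a2).trans (Nat.factorial_dvd_factorial (Nat.le_of_dvd hs hd))
  have h4 : Nat.card G = Nat.card f.ker * Nat.card f.range := by
    rw [← Subgroup.index_ker, Subgroup.card_mul_index]
  rw [h4]
  exact Nat.mul_dvd_mul h2 h3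

end Cfsg.Agent.H2.HnP
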