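import Cfsg.Agent.H9.KCDefs
import Cfsg.Agent.H39.SzPart
import Cfsg.Agent.H39.SzOvoid
import Cfsg.Agent.H42.FusionSimple
import Cfsg.Agent.H42.Cent
import Cfsg.Agent.H13.M11Iso

/-!
# Centralizer orders in `M₁₁` and `Sz(8)`
-/

set_option autoImplicit false
set_option linter.style.haveILetI false

namespace Cfsg.Agent.H2.KCF

open Subgroup

universe u

theorem gl23 (y : GL (Fin 2) (ZMod 3)) : Nat.card (centralizer ({y} : Set _)) ≠ 16 := by
  have key : ∀ a b c d : ZMod 3, (b = 0 ∧ c = 0 ∧ a = d) ∨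
      (Finset.univ.filter fun v : ZMod 3 × ZMod 3 × ZMod 3 × ZMod 3 =>
        v.2.1 * c = b * v.2.2.1 ∧ v.1 * b + v.2.1 * d = a * v.2.1 + b * v.2.2.2 ∧
          v.2.2.1 * a + v.2.2.2 * c = c * v.1 + d * v.2.2.1).card ≤ 9 := by decide +kernel
  rcases key (y 0 0) (y 0 1) (y 1 0) (y 1 1) with ⟨h1, h2, h3⟩ | h
  · have : centralizer ({y} : Set (GL (Fin 2) (ZMod 3))) = ⊤ := by
      refine eq_top_iff.2 fun g _ => mem_centralizer_singleton_iff.2 (Units.ext ?_)
      ext i j
      fin_cases i <;> fin_cases j <;>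
        simp [Matrix.mul_apply, Fin.sum_univ_two, h1, h2, h3, mul_comm]
    rw [this, card_top, Matrix.card_GL_field, ZMod.card]
    decide +kernel
  · intro e
    have h9 : Nat.card (centralizer ({y} : Set (GL (Fin 2) (ZMod 3)))) ≤ 9 := by
      refine le_trans ?_ h
      rw [← Fintype.card_coe, ← Nat.card_eq_fintype_card]
      refine Nat.card_le_card_of_injective
        (fun g => ⟨(g.1 0 0, g.1 0 1, g.1 1 0, g.1 1 1), ?_⟩) fun g g' hg => ?_
      · have := congrArg Units.val (mem_centralizer_singleton_iff.1 g.2)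
        have e0 := congrFun (congrFun this 0) 0
        have e1 := congrFun (congrFun this 0) 1
        have e2 := congrFun (congrFun this 1) 0
        simp only [Units.val_mul, Matrix.mul_apply, Fin.sum_univ_two] at e0 e1 e2
        simp only [Finset.mem_filter, Finset.mem_univ, true_and]
        exact ⟨by linear_combination e0, e1, e2⟩
      · simp only [Subtype.mk.injEq, Prod.mk.injEq] at hg
        refine Subtype.ext (Units.ext ?_)
        ext i j
        fin_cases i <;> fin_cases j
        exacts [hg.1, hg.2.1, hg.2.2.1, hg.2.2.2]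
    omega

theorem fm11 : H9.KC.FM11Stmt.{u} := by
  intro G _ h x hx
  have hG := (H13.isM11_of_isoM11 h).2
  haveI : Finite G := Nat.finite_of_card_ne_zero (by rw [hG]; norm_num)
  have hx1 : x ≠ 1 := by
    rintro rfl
    rw [centralizer_eq_top_iff_subset.2 (by simp), card_top, hG] at hx
    norm_num at hx
  have h16 : orderOf x ∣ 2 ^ 4 := by
    have := orderOf_dvd_natCard (centralizer ({x} : Set G)) (mem_centralizer_singleton_iff.2 rfl)
    rwa [hx] at this
  obtain ⟨k, -, hk⟩ := (Nat.dvd_prime_pow Nat.prime_two).1 h16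
  have h2 : 2 ∣ orderOf x := by
    rw [hk]
    refine dvd_pow_self 2 fun e => hx1 ?_
    rwa [e, pow_zero, orderOf_eq_one_iff] at hk
  have ht : orderOf (x ^ (orderOf x / 2)) = 2 := orderOf_pow_orderOf_div (orderOf_pos x).ne' h2
  have hle : centralizer ({x} : Set G) ≤ centralizer {x ^ (orderOf x / 2)} := fun g hg =>
    mem_centralizer_singleton_iff.2
      ((show Commute g x from mem_centralizer_singleton_iff.1 hg).pow_right _).eq
  generalize x ^ (orderOf x / 2) = t at ht hle
  obtain ⟨e⟩ := h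
  have e' := e.trans H42.equiv11.symm
  obtain ⟨f⟩ := H42.cent_G11_equiv (e' t) (by rw [MulEquiv.orderOf_eq, ht])
  have f' := (H42.centEquiv e' t).trans f
  let x' : centralizer ({t} : Set G) := ⟨x, hle (mem_centralizer_singleton_iff.2 rfl)⟩
  refine gl23 (f' x') ?_
  rw [← Nat.card_congr (H42.centEquiv f' x').toEquiv, ← hx,
    ← Nat.card_congr (subgroupOfEquivOfLe hle).toEquiv]
  congr 2
  ext g
  rw [mem_subgroupOf, mem_centralizer_singleton_iff, mem_centralizer_singleton_iff, Subtype.ext_iff]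
  rfl

theorem fsz : H9.KC.FSzStmt.{u} := by
  rintro G _ ⟨F, _, _, hF, ⟨e⟩⟩ x hx
  have hF' : Fintype.card F = 2 ^ (2 * 1 + 1) := hF
  haveI := H39.szField_of_card le_rfl hF'
  have S0 := (H39.lieModel hF').comap e
  have hc : Nat.card F = 8 := by rw [Nat.card_eq_fintype_card, hF]
  have h8 : x ^ 2 ^ 3 = 1 := by
    have := orderOf_dvd_natCard (centralizer ({x} : Set G)) (mem_centralizer_singleton_iff.2 rfl)
    rw [hx] at this
    exact orderOf_dvd_iff_pow_eq_one.1 this
  obtain ⟨g, hg⟩ := S0.exists_twist_mem_U h8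
  generalize S0.twist g = S at hg
  haveI := S.finite
  have hU := S.card_U
  have hZ : S.Z ≤ centralizer {x} := fun z hz =>
    mem_centralizer_singleton_iff.2 (S.Z_comm_U hz hg)
  have hE : S.Z = centralizer {x} := eq_of_le_of_card_ge hZ (by rw [hx, S.card_Z, hc])
  have hxZ : x ∈ S.Z := hE ▸ mem_centralizer_singleton_iff.2 rfl
  have := card_le_of_le (H := S.U) (K := centralizer {x}) fun y hy =>
    mem_centralizer_singleton_iff.2 (S.Z_comm_U hxZ hy).symm
  rw [hU, hx, hc] at this
  norm_num at this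

end Cfsg.Agent.H2.KCF
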