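import Cfsg.Agent.H55.WoGD1
import Cfsg.Agent.H31.WoAs
import Cfsg.Agent.H2.WoC2

/-!
Orthogonal geometry over the field with three elements: double centralisers of plane involutions.
-/

set_option autoImplicit false

namespace Cfsg.Agent.H2.Nc

open Cfsg.Agent.H30 Cfsg.Agent.H17.Wo Cfsg.Agent.H55.WoG Cfsg.Agent.H31.WoAs Module QuadraticMap

/-- the field has three elements -/
structure F3 (F : Type*) [Field F] : Prop where
  two : (2 : F) ≠ 0
  sq : ∀ a : F, a ≠ 0 → a * a = 1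

section Fld

variable {F : Type*} [Field F] (h3 : F3 F)
include h3

theorem F3.two_eq : (2 : F) = -1 := by
  have := h3.sq 2 h3.two
  linear_combination this

theorem F3.pm {a : F} (ha : a ≠ 0) : a = 1 ∨ a = -1 := by
  have := h3.sq a ha
  have h : (a - 1) * (a + 1) = 0 := by linear_combination this
  rcases mul_eq_zero.1 h with h | h
  · left; linear_combination h
  · right; linear_combination h

theorem F3.norm {a b : F} (ha : a ≠ 0) (hb : b ≠ 0) : b = a ∨ b = -a := by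
  rcases h3.pm ha with rfl | rfl <;> rcases h3.pm hb with rfl | rfl <;> simp

theorem F3.inv {a : F} (ha : a ≠ 0) : a⁻¹ = a := by
  rw [inv_eq_iff_eq_inv, eq_comm, inv_eq_iff_eq_inv]
  exact eq_inv_of_mul_eq_one_left (h3.sq a ha)

theorem F3.sum_sq {a b : F} (h : a * a + b * b = 0) : a = 0 ∧ b = 0 := by
  by_cases ha : a = 0
  · subst ha
    refine ⟨rfl, ?_⟩
    simpa using h
  · by_cases hb : b = 0
    · subst hb
      exact absurd (by simpa using h) ha
    · rw [h3.sq a ha, h3.sq b hb] at h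
      exact absurd (by linear_combination h) h3.two

end Fld

variable {F V : Type*} [Field F] [AddCommGroup V] [Module F V] {Q : QuadraticForm F V}

/-- `x` is orthogonal to the set `T` -/
def Or (Q : QuadraticForm F V) (T : Set V) (x : V) : Prop := ∀ s ∈ T, polar Q s x = 0

theorem or_insert {T : Set V} {a x : V} : Or Q (insert a T) x ↔ polar Q a x = 0 ∧ Or Q T x := by
  simp [Or]

theorem or_empty {x : V} : Or Q ∅ x := fun _ h => h.elim

theorem Or.add {T : Set V} {x y : V} (hx : Or Q T x) (hy : Or Q T y) : Or Q T (x + y) :=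
  fun s hs => by rw [polar_add_right, hx s hs, hy s hs, add_zero]

theorem psymm {x y : V} (h : polar Q x y = 0) : polar Q y x = 0 := by rw [polar_comm]; exact h

theorem neg2 (h2 : (2 : F) ≠ 0) {x y y' z : V} (hx : Q x ≠ 0) (hy : Q y ≠ 0) (hy' : Q y' ≠ 0)
    (o1 : polar Q x y = 0) (o2 : polar Q x y' = 0) (o3 : polar Q y y' = 0)
    (n1 : (refl Q x * refl Q y).1 z = -z) (n2 : (refl Q x * refl Q y').1 z = -z) :
    ∃ t : F, t • x = z := by
  have m1 := mem_mov_of_neg h2 n1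
  have m2 := mem_mov_of_neg h2 n2
  rw [mov_rr h2 x y hx hy o1, Submodule.mem_span_pair] at m1
  rw [mov_rr h2 x y' hx hy' o2, Submodule.mem_span_pair] at m2
  obtain ⟨a, b, e1⟩ := m1
  obtain ⟨a', b', e2⟩ := m2
  have p1 : polar Q z y = b * polar Q y y := by
    rw [← e1, polar_add_left, polar_smul_left', polar_smul_left', o1, mul_zero, zero_add]
  have p2 : polar Q z y = 0 := by
    rw [← e2, polar_add_left, polar_smul_left', polar_smul_left', o1, psymm o3]; simp
  have hb : b = 0 := by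
    rw [p2] at p1
    exact (mul_eq_zero.1 p1.symm).resolve_right (H2.WoB.polar_self_ne h2 hy)
  exact ⟨a, by rw [← e1, hb, zero_smul, add_zero]⟩

theorem comm_neg {m g : O Q} (h : m * g = g * m) {x : V} (hx : g.1 x = -x) :
    g.1 (m.1 x) = -m.1 x := by
  rw [← O_mul_apply, ← h, O_mul_apply, hx, map_neg]

theorem lemE (h2 : (2 : F) ≠ 0) {m : O Q} {x y y' : V} (hx : Q x ≠ 0) (hy : Q y ≠ 0)
    (hy' : Q y' ≠ 0) (o1 : polar Q x y = 0) (o2 : polar Q x y' = 0) (o3 : polar Q y y' = 0)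
    (c1 : m * (refl Q x * refl Q y) = refl Q x * refl Q y * m)
    (c2 : m * (refl Q x * refl Q y') = refl Q x * refl Q y' * m) : Eig m x := by
  obtain ⟨t, ht⟩ := neg2 h2 hx hy hy' o1 o2 o3 (comm_neg c1 (rr_left hx o1))
    (comm_neg c2 (rr_left hx o2))
  exact eig_of_smul hx ht

theorem same (h2 : (2 : F) ≠ 0) {m : O Q} {x y : V} (hx : Q x ≠ 0) (hy : Q y ≠ 0)
    (mx : m.1 x = x) (my : m.1 y = -y) (e : Eig m (x + y)) : False := by
  rcases e with e | e
  · rw [map_add, mx, my] at e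
    exact ne_zero_of_Q_ne_zero hy (eq_zero_of_eq_neg h2 (add_left_cancel e).symm)
  · rw [map_add, mx, my, neg_add] at e
    exact ne_zero_of_Q_ne_zero hx (eq_zero_of_eq_neg h2 (add_right_cancel e))

theorem pls (h2 : (2 : F) ≠ 0) {m : O Q} {a b : V} (ha : Q a ≠ 0) (hb : Q b ≠ 0)
    (ea : Eig m a) (eb : Eig m b) (e : Eig m (a + b)) :
    (m.1 a = a ∧ m.1 b = b) ∨ (m.1 a = -a ∧ m.1 b = -b) := by
  rcases ea with ea | ea <;> rcases eb with eb | eb
  · exact .inl ⟨ea, eb⟩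
  · exact (same h2 ha hb ea eb e).elim
  · exact (same h2 hb ha eb ea (by rwa [add_comm])).elim
  · exact .inr ⟨ea, eb⟩

theorem Q_add_orth (h2 : (2 : F) ≠ 0) {a b : V} (ha : Q a ≠ 0) (hb : Q b = Q a)
    (o : polar Q a b = 0) : Q (a + b) ≠ 0 := by
  rw [Q_add, hb, o, add_zero, ← two_mul]
  exact mul_ne_zero h2 ha

theorem rr_fix {a b y : V} (h1 : polar Q a y = 0) (h2 : polar Q b y = 0) :
    (refl Q a * refl Q b).1 y = y := by
  rw [O_mul_apply, refl_apply_of_orth (psymm h2), refl_apply_of_orth (psymm h1)]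

theorem eig_rr {g : O Q} {x y : V} (ex : Eig g x) (ey : Eig g y) :
    refl Q x * refl Q y * g = g * (refl Q x * refl Q y) := by
  rw [mul_assoc, ← eig_comm g y ey, ← mul_assoc, ← eig_comm g x ex, mul_assoc]

variable [FiniteDimensional F V] (hQ : (polarBilin Q).Nondegenerate)
include hQ

omit hQ in
theorem ext_on {T : Set V} (hT : NondegOn Q (Submodule.span F T)) {g h : O Q}
    (h1 : ∀ x ∈ T, g.1 x = h.1 x) (h2 : ∀ x, Or Q T x → g.1 x = h.1 x) : g = h := by
  refine O_ext_orthDec hT.orthDec (fun u hu => ?_) (fun w hw => h2 w (mem_perp_span.1 hw))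
  induction hu using Submodule.span_induction with
  | mem x hx => exact h1 x hx
  | zero => rw [map_zero, map_zero]
  | add x y _ _ hx hy => rw [map_add, map_add, hx, hy]
  | smul a x _ hx => rw [map_smul, map_smul, hx]

omit hQ [FiniteDimensional F V] in
theorem sp0 {n : ℕ} (h : n ≤ finrank F V) : Sp Q ∅ n := by
  refine ⟨?_, ?_⟩
  · rw [Submodule.span_empty]
    intro x hx _
    exact hx
  · rw [Submodule.span_empty, finrank_bot, zero_add]; exact h

omit hQ in
theorem spi (h2 : (2 : F) ≠ 0) {T : Set V} {n : ℕ} (h : Sp Q T (n + 1)) {x : V} (hx : Q x ≠ 0)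
    (hT : Or Q T x) : Sp Q (insert x T) n := h.ins h2 hx hT

theorem spk (h2 : (2 : F) ≠ 0) {T : Set V} {n : ℕ} (h : Sp Q T (n + 2)) (y : V) :
    ∃ T', Sp Q T' n ∧ ∀ p, Or Q T' p → Or Q T p ∧ polar Q y p = 0 := h.kill hQ h2 y

variable [Finite F]

theorem cn0 {T : Set V} (h : Sp Q T 2) (κ : F) : ∃ p, Q p = κ ∧ Or Q T p := h.vec hQ κ

theorem cn1 (h2 : (2 : F) ≠ 0) {T : Set V} (h : Sp Q T 4) (κ : F) (y : V) :
    ∃ p, Q p = κ ∧ Or Q T p ∧ polar Q y p = 0 := by
  obtain ⟨T', h', H⟩ := spk hQ h2 h y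
  obtain ⟨p, hp, o⟩ := cn0 hQ h' κ
  exact ⟨p, hp, H p o⟩

theorem cn2 (h2 : (2 : F) ≠ 0) {T : Set V} (h : Sp Q T 6) (κ : F) (y z : V) :
    ∃ p, Q p = κ ∧ Or Q T p ∧ polar Q y p = 0 ∧ polar Q z p = 0 := by
  obtain ⟨T', h', H⟩ := spk hQ h2 h y
  obtain ⟨p, hp, o, o'⟩ := cn1 hQ h2 h' κ z
  exact ⟨p, hp, (H p o).1, (H p o).2, o'⟩

theorem cnn (h2 : (2 : F) ≠ 0) {T : Set V} (h : Sp Q T 3) {κ : F} (hκ : κ ≠ 0) :
    ∃ p q, Q p = κ ∧ Q q = κ ∧ Or Q T p ∧ Or Q T q ∧ polar Q p q = 0 := by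
  obtain ⟨p, hp, o⟩ := cn0 hQ (h.mono (by omega)) κ
  obtain ⟨q, hq, o'⟩ := cn0 hQ (spi h2 h (hp ▸ hκ) o) κ
  rw [or_insert] at o'
  exact ⟨p, q, hp, hq, o, o'.2, o'.1⟩

theorem eigAll (h2 : (2 : F) ≠ 0) {T : Set V} (hT : Sp Q T 5) {m : O Q} (P : V → Prop)
    (hP : ∀ y, Or Q T y → P y)
    (H : ∀ x y, Q x ≠ 0 → Q y = Q x → polar Q x y = 0 → P x → P y →
      m * (refl Q x * refl Q y) = refl Q x * refl Q y * m) {x : V} (hx : Q x ≠ 0) (px : P x) :
    Eig m x := by
  obtain ⟨T', h', H'⟩ := spk hQ h2 hT x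
  obtain ⟨p, q, hp, hq, op, oq, o⟩ := cnn hQ h2 h' hx
  exact lemE h2 hx (hp ▸ hx) (hq ▸ hx) (H' p op).2 (H' q oq).2 o
    (H x p hx hp (H' p op).2 px (hP p (H' p op).1)) (H x q hx hq (H' q oq).2 px (hP q (H' q oq).1))

omit [Finite F] in
theorem fix_all (h2 : (2 : F) ≠ 0) {T : Set V} (hT : NondegOn Q (Submodule.span F T)) {m : O Q}
    (H : ∀ x, Or Q T x → Q x ≠ 0 → m.1 x = x) (x : V) (hx : Or Q T x) : m.1 x = x := by
  by_contra hn
  have := (hT.perp hQ).mem_of_nonsingular (fixSp m).toAddSubgroup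
    (fun w hw hq => mem_fixSp.2 (H w (mem_perp_span.1 hw) hq)) (mem_perp_span.2 hx)
    (fun h => hn (mem_fixSp.1 h))
  exact h2 this.1.two_eq_zero

theorem scal (h3 : F3 F) {T : Set V} (hT : Sp Q T 4) {m : O Q}
    (H : ∀ x, Or Q T x → Q x ≠ 0 → Eig m x) :
    (∀ x, Or Q T x → m.1 x = x) ∨ (∀ x, Or Q T x → (negOne Q * m).1 x = x) := by
  have h2 := h3.two
  have A : ∀ x y, Or Q T x → Or Q T y → Q x ≠ 0 → Q y = Q x → m.1 x = x → m.1 y = -y → False :=
    fun x y ox oy hx hy mx my => same h2 hx (hy ▸ hx) mx my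
      (H _ (ox.add oy) (Q_add_orth h2 hx hy (orth_eig h2 mx my)))
  have B : ∀ x y, Or Q T x → Or Q T y → Q x ≠ 0 → Q y ≠ 0 → m.1 x = x → m.1 y = -y → False := by
    intro x y ox oy hx hy mx my
    rcases h3.norm hx hy with e | e
    · exact A x y ox oy hx e mx my
    · have o := orth_eig h2 mx my
      obtain ⟨z, hz, oz⟩ := cn0 hQ (spi h2 (spi h2 hT hx ox) hy (or_insert.2 ⟨o, oy⟩)) (Q x)
      rw [or_insert, or_insert] at oz
      rcases H z oz.2.2 (hz ▸ hx) with mz | mz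
      · refine A (x + z) y (ox.add oz.2.2) oy (Q_add_orth h2 hx hz oz.2.1) ?_
          (by rw [map_add, mx, mz]) my
        rw [Q_add, hz, oz.2.1, e, add_zero, ← two_mul, h3.two_eq, neg_one_mul]
      · exact A x z ox oz.2.2 hx hz mx mz
  by_cases hex : ∃ y, Or Q T y ∧ Q y ≠ 0 ∧ m.1 y = -y
  · obtain ⟨y, oy, hy, my⟩ := hex
    refine .inr (fix_all hQ h2 hT.1 fun x ox hx => ?_)
    rcases H x ox hx with mx | mx
    · exact (B x y ox oy hx hy mx my).elim
    · rw [O_mul_apply, mx, negOne_apply, neg_neg]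
  · refine .inl (fix_all hQ h2 hT.1 fun x ox hx => ?_)
    exact (H x ox hx).resolve_right fun h => hex ⟨x, ox, hx, h⟩

omit [Finite F] in
theorem dk_rr {a b : V} (ha : Q a ≠ 0) (hb : Q b ≠ 0) :
    dickson hQ (refl Q a * refl Q b) = 1 := by
  rw [map_mul, dickson_refl hQ ha, dickson_refl hQ hb]; simp

omit [Finite F] in
theorem neg_mem_of {m : O Q} (hm : m ∈ kerDS hQ) (h : negOne Q * m ∈ kerDS hQ) :
    negOne Q ∈ kerDS hQ := by
  simpa using (kerDS hQ).mul_mem h ((kerDS hQ).inv_mem hm)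

omit hQ [Finite F] [FiniteDimensional F V] in
theorem eq_of_mul_eq_one' {u m : O Q} (hu : u * u = 1) (h : u * m = 1) : m = u := by
  rw [← mul_left_cancel_iff (a := u), h, hu]

omit hQ [Finite F] [FiniteDimensional F V] in
theorem pl_ne_one {π : O Q} (h2 : (2 : F) ≠ 0) (h : Pl Q π) : π ≠ 1 := by
  obtain ⟨c, d, hc, _, o, rfl⟩ := h
  intro e
  have := rr_left hc o
  rw [e, O_one_apply] at this
  exact ne_zero_of_Q_ne_zero hc (eq_zero_of_eq_neg h2 this)

/-- the double centraliser of a plane involution -/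
theorem twin (h3 : F3 F) (h10 : 10 ≤ finrank F V) (hn : negOne Q ∉ kerDS hQ) {π m : O Q}
    (hπ : Pl Q π) (hm : m ∈ kerDS hQ)
    (H : ∀ k ∈ kerDS hQ, k * π = π * k → m * k = k * m) : m = 1 ∨ m = π := by
  have h2 := h3.two
  obtain ⟨a, b, ha, hb, o, rfl⟩ := id hπ
  have hb0 : Q b ≠ 0 := hb ▸ ha
  have hT : Sp Q (insert b (insert a ∅)) 8 :=
    spi h2 (spi h2 (sp0 h10) ha or_empty) hb0 (or_insert.2 ⟨o, or_empty⟩)
  have fx : ∀ y, Or Q (insert b (insert a ∅)) y → (refl Q a * refl Q b).1 y = y := fun y hy => by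
    rw [or_insert, or_insert] at hy
    exact rr_fix hy.2.1 hy.1
  have E : ∀ x, Q x ≠ 0 → Eig (refl Q a * refl Q b) x → Eig m x := fun x hx ex =>
    eigAll hQ h2 (hT.mono (by omega)) (Eig (refl Q a * refl Q b)) (fun y hy => .inl (fx y hy))
      (fun x y hx hy o ex ey => H _ (pl_mem hQ _ ⟨x, y, hx, hy, o, rfl⟩) (eig_rr ex ey)) hx ex
  have na := rr_left ha o
  have nb := rr_right hb0 o
  have core : ∀ m' : O Q, (∀ x, Q x ≠ 0 → Eig (refl Q a * refl Q b) x → Eig m' x) →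
      (∀ x, Or Q (insert b (insert a ∅)) x → m'.1 x = x) → m' = 1 ∨ m' = refl Q a * refl Q b := by
    intro m' E' f'
    rcases pls h2 ha hb0 (E' a ha (.inr na)) (E' b hb0 (.inr nb))
      (E' _ (Q_add_orth h2 ha hb o) (.inr (by rw [map_add, na, nb, neg_add]))) with h | h
    · refine .inl (ext_on hT.1 ?_ f')
      simp only [Set.mem_insert_iff, Set.mem_empty_iff_false, or_false, forall_eq_or_imp,
        forall_eq, O_one_apply]
      exact ⟨h.2, h.1⟩
    · refine .inr (ext_on hT.1 ?_ fun x hx => by rw [f' x hx, fx x hx])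
      simp only [Set.mem_insert_iff, Set.mem_empty_iff_false, or_false, forall_eq_or_imp,
        forall_eq, na, nb]
      exact ⟨h.2, h.1⟩
  rcases scal hQ h3 (hT.mono (by omega)) (fun x ox hx => E x hx (.inl (fx x ox))) with h | h
  · exact core m E h
  · refine (hn (neg_mem_of hQ hm ?_)).elim
    rcases core _ (fun x hx ex => eig_neg.2 (E x hx ex)) h with e | e <;> rw [e]
    · exact one_mem _
    · exact pl_mem hQ _ hπ

omit hQ [Finite F] [FiniteDimensional F V] in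
theorem mem_mov_rr (h2 : (2 : F) ≠ 0) {a b : V} (ha : Q a ≠ 0) (hb : Q b ≠ 0)
    (o : polar Q a b = 0) : a ∈ movSp (refl Q a * refl Q b) ∧ b ∈ movSp (refl Q a * refl Q b) :=
  ⟨mem_mov_of_neg h2 (rr_left ha o), mem_mov_of_neg h2 (rr_right hb o)⟩

/-- the centraliser of the common centraliser of two commuting plane involutions -/
theorem ccent (h3 : F3 F) (h10 : 10 ≤ finrank F V) (hn : negOne Q ∉ kerDS hQ)
    (hev : dickson hQ (negOne Q) = 1) {ρ ρ' m : O Q}
    (hρ : Pl Q ρ) (hρ' : Pl Q ρ') (c : ρ * ρ' = ρ' * ρ) (hne : ρ ≠ ρ') (hm : m ∈ kerDS hQ)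
    (H : ∀ k ∈ kerDS hQ, k * ρ = ρ * k → k * ρ' = ρ' * k → m * k = k * m) :
    m = 1 ∨ m = ρ ∨ m = ρ' ∨ m = ρ * ρ' := by
  have h2 := h3.two
  have s1 := pl_sq ρ hρ
  have s2 := pl_sq ρ' hρ'
  have s3 := mul_inv_of_comm s1 s2 c
  have k1 := pl_mem hQ ρ hρ
  have k2 := pl_mem hQ ρ' hρ'
  suffices S : ∃ T : Set V, Sp Q T 5 ∧ (∀ y, Or Q T y → ρ.1 y = y ∧ ρ'.1 y = y) ∧
      ∀ m' : O Q, dickson hQ m' = 1 → (∀ x, Q x ≠ 0 → Eig ρ x ∧ Eig ρ' x → Eig m' x) →
        (∀ x, Or Q T x → m'.1 x = x) → m' = 1 ∨ m' = ρ ∨ m' = ρ' ∨ m' = ρ * ρ' by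
    obtain ⟨T, hT, fx, core⟩ := S
    have E : ∀ x, Q x ≠ 0 → Eig ρ x ∧ Eig ρ' x → Eig m x := fun x hx ex =>
      eigAll hQ h2 hT (fun x => Eig ρ x ∧ Eig ρ' x)
        (fun y hy => ⟨.inl (fx y hy).1, .inl (fx y hy).2⟩)
        (fun x y hx hy o ex ey => H _ (pl_mem hQ _ ⟨x, y, hx, hy, o, rfl⟩) (eig_rr ex.1 ey.1)
          (eig_rr ex.2 ey.2)) hx ex
    have dm := ((mem_kerDS hQ).1 hm).1
    rcases scal hQ h3 (hT.mono (by omega))
      (fun x ox hx => E x hx ⟨.inl (fx x ox).1, .inl (fx x ox).2⟩) with h | h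
    · exact core m dm E h
    · refine (hn (neg_mem_of hQ hm ?_)).elim
      rcases core _ (by rw [map_mul, hev, dm, mul_one]) (fun x hx ex => eig_neg.2 (E x hx ex)) h
        with e | e | e | e <;> rw [e]
      exacts [one_mem _, k1, k2, mul_mem k1 k2]
  by_cases hp : Pl Q (ρ * ρ')
  · obtain ⟨a, b, e, ha, hb, he, ab, ae, be, rfl, rfl⟩ := line hQ h2 ρ ρ' hρ hρ' c hp
    have hb0 : Q b ≠ 0 := hb ▸ ha
    have he0 : Q e ≠ 0 := he ▸ ha
    have hT : Sp Q (insert e (insert b (insert a ∅))) 7 :=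
      spi h2 (spi h2 (spi h2 (sp0 h10) ha or_empty) hb0 (or_insert.2 ⟨ab, or_empty⟩)) he0
        (or_insert.2 ⟨be, or_insert.2 ⟨ae, or_empty⟩⟩)
    have fx : ∀ y, Or Q (insert e (insert b (insert a ∅))) y →
        (refl Q a * refl Q b).1 y = y ∧ (refl Q a * refl Q e).1 y = y := fun y hy => by
      rw [or_insert, or_insert, or_insert] at hy
      exact ⟨rr_fix hy.2.2.1 hy.2.1, rr_fix hy.2.2.1 hy.1⟩
    refine ⟨_, hT.mono (by omega), fx, fun m' dm E f => ?_⟩
    have a1 := rr_left ha ab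
    have b1 := rr_right hb0 ab
    have e1 := rr_fix ae be
    have a2 := rr_left ha ae
    have b2 := rr_fix ab (psymm be)
    have e2 := rr_right he0 ae
    have core : ∀ u : O Q, dickson hQ u = 1 → Eig u a → u.1 b = b → u.1 e = e →
        (∀ x, Or Q (insert e (insert b (insert a ∅))) x → u.1 x = x) → u = 1 := by
      intro u du ua ub ue f
      rcases ua with ua | ua
      · refine ext_on hT.1 ?_ f
        simp only [Set.mem_insert_iff, Set.mem_empty_iff_false, or_false, forall_eq_or_imp,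
          forall_eq, O_one_apply]
        exact ⟨ue, ub, ua⟩
      · have : u = refl Q a := by
          refine ext_on hT.1 ?_ fun x hx => ?_
          · simp only [Set.mem_insert_iff, Set.mem_empty_iff_false, or_false, forall_eq_or_imp,
              forall_eq, refl_apply_self ha, refl_apply_of_orth (psymm ab),
              refl_apply_of_orth (psymm ae)]
            exact ⟨ue, ub, ua⟩
          · rw [f x hx, refl_apply_of_orth]
            rw [or_insert, or_insert, or_insert] at hx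
            exact psymm hx.2.2.1
        rw [this, dickson_refl hQ ha] at du
        exact absurd du (by decide)
    have d1 := dk_rr hQ ha hb0
    have d2 := dk_rr hQ ha he0
    have ma := E a ha ⟨.inr a1, .inr a2⟩
    rcases E b hb0 ⟨.inr b1, .inl b2⟩ with mb | mb <;>
      rcases E e he0 ⟨.inl e1, .inr e2⟩ with me | me
    · exact .inl (core m' dm ma mb me f)
    · refine .inr (.inr (.inl (eq_of_mul_eq_one' s2 (core _ (by rw [map_mul, d2, dm, mul_one])
        ?_ (by rw [O_mul_apply, mb, b2]) (by rw [O_mul_apply, me, map_neg, e2, neg_neg])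
        fun x hx => by rw [O_mul_apply, f x hx, (fx x hx).2]))))
      rcases ma with ma | ma
      · exact .inr (by rw [O_mul_apply, ma, a2])
      · exact .inl (by rw [O_mul_apply, ma, map_neg, a2, neg_neg])
    · refine .inr (.inl (eq_of_mul_eq_one' s1 (core _ (by rw [map_mul, d1, dm, mul_one])
        ?_ (by rw [O_mul_apply, mb, map_neg, b1, neg_neg]) (by rw [O_mul_apply, me, e1])
        fun x hx => by rw [O_mul_apply, f x hx, (fx x hx).1])))
      rcases ma with ma | ma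
      · exact .inr (by rw [O_mul_apply, ma, a1])
      · exact .inl (by rw [O_mul_apply, ma, map_neg, a1, neg_neg])
    · refine .inr (.inr (.inr (eq_of_mul_eq_one' s3 (core _
        (by rw [map_mul, map_mul, d1, d2, dm, mul_one, mul_one])
        ?_ (by rw [O_mul_apply, mb, map_neg, O_mul_apply, b2, b1, neg_neg])
        (by rw [O_mul_apply, me, map_neg, O_mul_apply, e2, map_neg, e1, neg_neg])
        fun x hx => by rw [O_mul_apply, f x hx, O_mul_apply, (fx x hx).2, (fx x hx).1]))))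
      rcases ma with ma | ma
      · exact .inl (by rw [O_mul_apply, ma, O_mul_apply, a2, map_neg, a1, neg_neg])
      · exact .inr (by rw [O_mul_apply, ma, map_neg, O_mul_apply, a2, map_neg, a1, neg_neg])
  · have o := orth hQ h2 ρ ρ' hρ hρ' c hp hne
    obtain ⟨a, b, ha, hb, ab, rfl⟩ := hρ
    obtain ⟨e, g, he, hg, eg, rfl⟩ := hρ'
    have hb0 : Q b ≠ 0 := hb ▸ ha
    have hg0 : Q g ≠ 0 := hg ▸ he
    obtain ⟨ma, mb⟩ := mem_mov_rr h2 ha hb0 ab
    obtain ⟨me, mg⟩ := mem_mov_rr h2 he hg0 eg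
    have ae := mem_perp.1 (o me) a ma
    have be := mem_perp.1 (o me) b mb
    have ag := mem_perp.1 (o mg) a ma
    have bg := mem_perp.1 (o mg) b mb
    have hT : Sp Q (insert g (insert e (insert b (insert a ∅)))) 6 :=
      spi h2 (spi h2 (spi h2 (spi h2 (sp0 h10) ha or_empty) hb0 (or_insert.2 ⟨ab, or_empty⟩)) he
        (or_insert.2 ⟨be, or_insert.2 ⟨ae, or_empty⟩⟩)) hg0
        (or_insert.2 ⟨eg, or_insert.2 ⟨bg, or_insert.2 ⟨ag, or_empty⟩⟩⟩)
    have fx : ∀ y, Or Q (insert g (insert e (insert b (insert a ∅)))) y →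
        (refl Q a * refl Q b).1 y = y ∧ (refl Q e * refl Q g).1 y = y := fun y hy => by
      rw [or_insert, or_insert, or_insert, or_insert] at hy
      exact ⟨rr_fix hy.2.2.2.1 hy.2.2.1, rr_fix hy.2.1 hy.1⟩
    refine ⟨_, hT.mono (by omega), fx, fun m' _ E f => ?_⟩
    have a1 := rr_left ha ab
    have b1 := rr_right hb0 ab
    have e1 := rr_fix ae be
    have g1 := rr_fix ag bg
    have a2 := rr_fix (psymm ae) (psymm ag)
    have b2 := rr_fix (psymm be) (psymm bg)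
    have e2 := rr_left he eg
    have g2 := rr_right hg0 eg
    have X : ∀ u : O Q, m'.1 a = u.1 a → m'.1 b = u.1 b → m'.1 e = u.1 e → m'.1 g = u.1 g →
        (∀ x, Or Q (insert g (insert e (insert b (insert a ∅)))) x → u.1 x = x) → m' = u := by
      intro u ua ub ue ug f'
      refine ext_on hT.1 ?_ fun x hx => by rw [f x hx, f' x hx]
      simp only [Set.mem_insert_iff, Set.mem_empty_iff_false, or_false, forall_eq_or_imp,
        forall_eq]
      exact ⟨ug, ue, ub, ua⟩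
    rcases pls h2 ha hb0 (E a ha ⟨.inr a1, .inl a2⟩) (E b hb0 ⟨.inr b1, .inl b2⟩)
      (E _ (Q_add_orth h2 ha hb ab) ⟨.inr (by rw [map_add, a1, b1, neg_add]),
        .inl (by rw [map_add, a2, b2])⟩) with h | h <;>
    rcases pls h2 he hg0 (E e he ⟨.inl e1, .inr e2⟩) (E g hg0 ⟨.inl g1, .inr g2⟩)
      (E _ (Q_add_orth h2 he hg eg) ⟨.inl (by rw [map_add, e1, g1]),
        .inr (by rw [map_add, e2, g2, neg_add])⟩) with h' | h'
    · exact .inl (X 1 h.1 h.2 h'.1 h'.2 fun _ _ => rfl)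
    · exact .inr (.inr (.inl (X _ (by rw [h.1, a2]) (by rw [h.2, b2]) (by rw [h'.1, e2])
        (by rw [h'.2, g2]) fun x hx => (fx x hx).2)))
    · exact .inr (.inl (X _ (by rw [h.1, a1]) (by rw [h.2, b1]) (by rw [h'.1, e1])
        (by rw [h'.2, g1]) fun x hx => (fx x hx).1))
    · exact .inr (.inr (.inr (X _ (by rw [h.1, O_mul_apply, a2, a1])
        (by rw [h.2, O_mul_apply, b2, b1]) (by rw [h'.1, O_mul_apply, e2, map_neg, e1])
        (by rw [h'.2, O_mul_apply, g2, map_neg, g1])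
        fun x hx => by rw [O_mul_apply, (fx x hx).2, (fx x hx).1])))

end Cfsg.Agent.H2.Nc
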