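import Cfsg.Agent.H2.NcA
import Cfsg.Agent.H30.OrthCount

/-!
Orthogonal geometry over the field with three elements: the order of the centraliser recognises
the plane involutions.
-/

set_option autoImplicit false

namespace Cfsg.Agent.H2.Nc

open Cfsg.Agent.H30 Cfsg.Agent.H17.Wo Cfsg.Agent.H55.WoG Cfsg.Agent.H31.WoAs Module QuadraticMap

/-- the product in the order formula -/
def PP (m : ℕ) : ℕ := ∏ i ∈ Finset.range (m - 1), (3 ^ (2 * (i + 1)) - 1)

theorem nd_sub (k : ℕ) (hk : 1 ≤ k) : ¬ 3 ∣ 3 ^ k - 1 := fun h => by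
  have h1 : 3 ∣ 3 ^ k := dvd_pow_self 3 (by omega)
  have h2 : 1 ≤ 3 ^ k := Nat.one_le_pow _ _ (by norm_num)
  omega

theorem nd_add (k : ℕ) (hk : 1 ≤ k) : ¬ 3 ∣ 3 ^ k + 1 := fun h => by
  have h1 : 3 ∣ 3 ^ k := dvd_pow_self 3 (by omega)
  omega

theorem nd_PP (m : ℕ) : ¬ 3 ∣ PP m := fun h => by
  obtain ⟨i, _, hi⟩ := (Prime.dvd_finsetProd_iff Nat.prime_three.prime _).1 h
  exact nd_sub _ (by omega) hi

theorem nd_mul {a b : ℕ} (ha : ¬ 3 ∣ a) (hb : ¬ 3 ∣ b) : ¬ 3 ∣ a * b := fun h =>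
  ((Nat.Prime.dvd_mul Nat.prime_three).1 h).elim ha hb

theorem exp_eq {a b u v : ℕ} (hu : ¬ 3 ∣ u) (hv : ¬ 3 ∣ v) (h : 3 ^ a * u = 3 ^ b * v) :
    a = b := by
  have key : ∀ {a b u v : ℕ}, ¬ 3 ∣ u → 3 ^ a * u = 3 ^ b * v → b ≤ a := by
    intro a b u v hu h
    by_contra hn
    obtain ⟨c, rfl⟩ : ∃ c, b = a + (c + 1) := ⟨b - a - 1, by omega⟩
    rw [pow_add, mul_assoc] at h
    have := Nat.eq_of_mul_eq_mul_left (by positivity) h
    exact hu ⟨3 ^ c * v, by rw [this]; ring⟩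
  exact le_antisymm (key hv h.symm) (key hu h)

variable {F V : Type*} [Field F] [AddCommGroup V] [Module F V] {Q : QuadraticForm F V}
  [FiniteDimensional F V] [Finite F]

theorem cardO (hF : Nat.card F = 3) (hQ : (polarBilin Q).Nondegenerate) {m : ℕ} (hm : 1 ≤ m)
    (hV : finrank F V = 2 * m) :
    ∃ c, ((H79.IsPlus (F := F) Q ∧ c = 3 ^ m - 1) ∨ (¬ H79.IsPlus (F := F) Q ∧ c = 3 ^ m + 1)) ∧
      ¬ 3 ∣ c ∧ Nat.card (O Q) = 3 ^ (m * (m - 1)) * (2 * c * PP m) := by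
  by_cases hp : H79.IsPlus (F := F) Q
  · refine ⟨_, .inl ⟨hp, rfl⟩, nd_sub m hm, ?_⟩
    rw [card_O_plus hQ hm hV hp, hF, PP]; ring
  · refine ⟨_, .inr ⟨hp, rfl⟩, nd_add m hm, ?_⟩
    rw [card_O_minus hQ hm hV hp, hF, PP]; ring

variable (hQ : (polarBilin Q).Nondegenerate)
include hQ

theorem card_cent (h2 : (2 : F) ≠ 0) {t : O Q} (ht : t * t = 1) (hw : 2 ≤ wt t) :
    Nat.card {k : O Q // k ∈ kerDS hQ ∧ k * t = t * k} * 4 =
      Nat.card (O (Q.restrict (movSp t))) * Nat.card (O (Q.restrict (fixSp t))) := by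
  obtain ⟨h1, -, h⟩ := inv_nd hQ h2 t ht
  let ψ := ((dickson hQ).prod (spinorNorm hQ)).comp (orthSum h)
  have hs : Function.Surjective ψ := fun y => by
    obtain ⟨g, hg⟩ := dickson_prod_spinorNorm_surjective (h.nondegOn hQ).restrict hw y
    refine ⟨(g, 1), ?_⟩
    rw [← hg]
    refine Prod.ext ?_ ?_
    · change dickson hQ (orthSum h (g, 1)) = dickson _ g
      rw [dickson_orthSum h hQ, map_one, mul_one]
    · change spinorNorm hQ (orthSum h (g, 1)) = spinorNorm _ g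
      rw [spinorNorm_orthSum h hQ, map_one, mul_one]
  have hc := ψ.ker.card_mul_index
  rw [Subgroup.index_ker, MonoidHom.range_eq_top.2 hs, Subgroup.card_top, Nat.card_prod,
    Nat.card_prod, card_sqCl h2, Nat.card_eq_fintype_card (α := ℤˣ), Fintype.card_units_int] at hc
  rw [← hc]
  congr 1
  symm
  refine Nat.card_congr (Equiv.ofBijective (fun k => ⟨orthSum h k.1, ?_, ?_⟩) ⟨?_, ?_⟩)
  · rw [kerDS_eq_ker]; exact k.2
  · refine O_ext_orthDec h (fun u hu => ?_) fun w hw => ?_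
    · have e := orthSum_apply_left h k.1 ⟨u, hu⟩
      rw [O_mul_apply, O_mul_apply, (inv_mov h2 t ht u).1 hu, map_neg, e,
        (inv_mov h2 t ht _).1 (k.1.1.1 ⟨u, hu⟩).2]
    · have e := orthSum_apply_right h k.1 ⟨w, hw⟩
      rw [O_mul_apply, O_mul_apply, mem_fixSp.1 hw, e, mem_fixSp.1 (k.1.2.1 ⟨w, hw⟩).2]
  · intro a b e
    exact Subtype.ext (orthSum_injective h (congrArg Subtype.val e))
  · rintro ⟨k, hk, c⟩
    obtain ⟨j, rfl⟩ := exists_orthSum_eq hQ h k (mov_stab h2 ht c.symm)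
    refine ⟨⟨j, ?_⟩, rfl⟩
    rw [kerDS_eq_ker] at hk
    exact hk

omit hQ [Finite F] [FiniteDimensional F V] in
theorem not_plus (h3 : F3 F) {π : O Q} (hπ : Pl Q π) (hw : wt π = 2) :
    ¬ H79.IsPlus (F := F) (Q.restrict (movSp π)) := by
  rintro ⟨W, hW, h0⟩
  obtain ⟨c, d, hc, hd, o, rfl⟩ := hπ
  have : W ≠ ⊥ := ne_bot_of_finrank_pos (by unfold wt at hw; omega)
  obtain ⟨w, hw, hw0⟩ := Submodule.exists_mem_ne_zero_of_ne_bot this
  have hm : (w : V) ∈ Submodule.span F {c, d} := by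
    rw [← mov_rr h3.two c d hc (hd ▸ hc) o]; exact w.2
  have q := h0 w hw
  obtain ⟨a, b, e⟩ := Submodule.mem_span_pair.1 hm
  rw [Q_restrict, ← e, Q_add, Q_smul, Q_smul, polar_smul_left', polar_smul_right', o, hd] at q
  have : a * a + b * b = 0 := by
    refine (mul_eq_zero.1 (?_ : (a * a + b * b) * Q c = 0)).resolve_right hc
    linear_combination q
  obtain ⟨rfl, rfl⟩ := h3.sum_sq this
  exact hw0 (Subtype.ext (by rw [← e]; simp))

omit [Finite F] in
theorem is_plus (h3 : F3 F) (hn : negOne Q ∉ kerDS hQ) {t : O Q} (hk : t ∈ kerDS hQ)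
    (ht : t * t = 1) (hw : finrank F (fixSp t) = 2) :
    H79.IsPlus (F := F) (Q.restrict (fixSp t)) := by
  have h2 := h3.two
  by_contra hp
  have an := anisotropic_of_not_isPlus hw hp
  have e := mov_neg h2 t ht
  have s : negOne Q * t * (negOne Q * t) = 1 :=
    mul_inv_of_comm negOne_mul_self ht (negOne_comm t).symm
  have w2 : wt (negOne Q * t) = 2 := by unfold wt; rw [e, hw]
  obtain ⟨c, hc, hc0⟩ := (inv_nd hQ h2 t ht).2.1.exists_Q_ne_zero
    (ne_bot_of_finrank_pos (by omega))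
  have nc := (inv_mov h2 _ s c).1 (e ▸ hc)
  obtain ⟨d, hd, o, r⟩ := exists_rr hQ h2 s w2 hc0 nc
  have hdm : d ∈ fixSp t := by
    rw [← e, r]; exact (mem_mov_rr h2 hc0 hd o).2
  rcases h3.norm hc0 hd with q | q
  · exact hn (neg_mem_of hQ hk (pl_mem hQ _ ⟨c, d, hc0, q, o, r⟩))
  · have := an ⟨c + d, add_mem hc hdm⟩ (by rw [Q_restrict, Q_add, o, q]; ring)
    have e0 : c + d = 0 := congrArg Subtype.val this
    have : d = -c := eq_neg_of_add_eq_zero_right e0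
    rw [this, polar_neg_right, neg_eq_zero] at o
    exact H2.WoB.polar_self_ne h2 hc0 o

theorem deg (h3 : F3 F) (hF : Nat.card F = 3) {n : ℕ} (h5 : 5 ≤ n) (hV : finrank F V = 2 * n)
    (hn : negOne Q ∉ kerDS hQ) {π t : O Q} (hπ : Pl Q π) (hk : t ∈ kerDS hQ) (ht : t * t = 1)
    (h1 : t ≠ 1) (hc : Nat.card {k : O Q // k ∈ kerDS hQ ∧ k * t = t * k} =
      Nat.card {k : O Q // k ∈ kerDS hQ ∧ k * π = π * k}) : Pl Q t := by
  have h2 := h3.two
  have wπ := wt_pl hQ h2 π hπ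
  have dk := ((mem_kerDS hQ).1 hk).1
  rw [dickson_apply, neg_one_pow_eq_one_iff_even (by decide)] at dk
  obtain ⟨k, hk2⟩ := dk
  have k0 : wt t ≠ 0 := fun h => h1 ((wt_zero t).1 h)
  have sum := finrank_movSp_add_finrank_fixSp t
  have sum' := finrank_movSp_add_finrank_fixSp π
  have l0 : finrank F (fixSp t) ≠ 0 := fun h => by
    have s : negOne Q * t * (negOne Q * t) = 1 :=
      mul_inv_of_comm negOne_mul_self ht (negOne_comm t).symm
    have : negOne Q * t = 1 := (wt_zero _).1 (by unfold wt; rw [mov_neg h2 t ht, h])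
    exact hn (neg_mem_of hQ hk (this ▸ one_mem _))
  unfold wt at k0 wπ
  obtain ⟨l, hl⟩ : ∃ l, n = k + l := ⟨n - k, by omega⟩
  have c1 := card_cent hQ h2 ht (by unfold wt; omega)
  have c2 := card_cent hQ h2 (pl_sq π hπ) (by unfold wt; omega)
  rw [hc, c2] at c1
  obtain ⟨n1, n2, -⟩ := inv_nd hQ h2 t ht
  obtain ⟨n3, n4, -⟩ := inv_nd hQ h2 π (pl_sq π hπ)
  obtain ⟨x1, p1, d1, e1⟩ := cardO hF n1.restrict (m := k) (by omega) (by omega)
  obtain ⟨x2, p2, d2, e2⟩ := cardO hF n2.restrict (m := l) (by omega) (by omega)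
  obtain ⟨x3, p3, d3, e3⟩ := cardO hF n3.restrict (m := 1) (by omega) (by omega)
  obtain ⟨x4, p4, d4, e4⟩ := cardO hF n4.restrict (m := n - 1) (by omega) (by omega)
  rw [e1, e2, e3, e4] at c1
  have nd : ∀ {x : ℕ} (m : ℕ), ¬ 3 ∣ x → ¬ 3 ∣ 2 * x * PP m := fun m h =>
    nd_mul (nd_mul (by decide) h) (nd_PP m)
  have ex : 1 * (1 - 1) + (n - 1) * (n - 1 - 1) = k * (k - 1) + l * (l - 1) :=
    exp_eq (nd_mul (nd 1 d3) (nd (n - 1) d4)) (nd_mul (nd k d1) (nd l d2))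
      (by rw [pow_add, pow_add]; linear_combination c1)
  obtain ⟨k, rfl⟩ : ∃ k', k = k' + 1 := ⟨k - 1, by omega⟩
  obtain ⟨l, rfl⟩ : ∃ l', l = l' + 1 := ⟨l - 1, by omega⟩
  have hn1 : n - 1 = k + l + 1 := by omega
  rw [hn1] at ex c1 p4
  simp only [Nat.add_sub_cancel] at ex c1
  have kl : k * l = 0 := by
    have : (k + l + 1) * (k + l) = (k + 1) * k + (l + 1) * l + 2 * (k * l) := by ring
    omega
  rcases Nat.mul_eq_zero.1 kl with rfl | rfl
  · exact pl_of_wt hQ h2 t hk ht (by unfold wt; omega)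
  · exfalso
    have q2 := is_plus hQ h3 hn hk ht (by omega)
    have q3 := not_plus h3 hπ wπ
    obtain rfl : x2 = 2 := by
      rcases p2 with p | p
      · exact p.2
      · exact absurd q2 p.1
    obtain rfl : x3 = 4 := by
      rcases p3 with p | p
      · exact absurd p.1 q3
      · exact p.2
    have hP : PP (k + 1) ≠ 0 := fun h => nd_PP (k + 1) (h ▸ dvd_zero 3)
    have hP1 : PP 1 = 1 := rfl
    simp only [Nat.add_zero, Nat.zero_add, hP1] at c1 p4
    have : x1 = 2 * x4 := by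
      refine mul_left_cancel₀ (a := 3 ^ ((k + 1) * k) * (8 * PP (k + 1)))
        (mul_ne_zero (pow_ne_zero _ (by norm_num)) (mul_ne_zero (by norm_num) hP)) ?_
      simp only [mul_zero, pow_zero, Nat.sub_self] at c1
      linear_combination c1.symm
    have big : 3 ^ 4 ≤ 3 ^ (k + 1) := Nat.pow_le_pow_right (by norm_num) (by omega)
    rcases p1 with p | p <;> rcases p4 with p' | p' <;> omega

end Cfsg.Agent.H2.Nc
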