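import Cfsg.Agent.H2.NcB

/-!
Orthogonal geometry over the field with three elements: automorphisms of the commuting graph
preserve conjugation of plane involutions.
-/

set_option autoImplicit false

namespace Cfsg.Agent.H2.Nc

open Cfsg.Agent.H30 Cfsg.Agent.H17.Wo Cfsg.Agent.H55.WoG Cfsg.Agent.H31.WoAs Module QuadraticMap

variable {F V : Type*} [Field F] [AddCommGroup V] [Module F V] {Q : QuadraticForm F V}

/-- collinear plane involutions -/
def Col (Q : QuadraticForm F V) (π π' : O Q) : Prop :=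
  Pl Q π ∧ Pl Q π' ∧ π * π' = π' * π ∧ Pl Q (π * π')

theorem Col.symm {π π' : O Q} (h : Col Q π π') : Col Q π' π :=
  ⟨h.2.1, h.1, h.2.2.1.symm, h.2.2.1 ▸ h.2.2.2⟩

theorem rr_rr {a b e : V} (ab : polar Q a b = 0) :
    refl Q a * refl Q b * (refl Q a * refl Q e) = refl Q b * refl Q e := by
  rw [rr_comm a b ab, mul_assoc, ← mul_assoc (refl Q a), refl_mul_self, one_mul]

theorem col_rr {a b e : V} (ha : Q a ≠ 0) (hb : Q b = Q a) (he : Q e = Q a)
    (ab : polar Q a b = 0) (ae : polar Q a e = 0) (be : polar Q b e = 0) :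
    Col Q (refl Q a * refl Q b) (refl Q a * refl Q e) :=
  ⟨⟨a, b, ha, hb, ab, rfl⟩, ⟨a, e, ha, he, ae, rfl⟩,
    by rw [rr_rr ab, rr_rr ae, rr_comm b e be],
    ⟨b, e, hb ▸ ha, he.trans hb.symm, be, rr_rr ab⟩⟩

theorem Col.ne (h2 : (2 : F) ≠ 0) {π π' : O Q} (h : Col Q π π') : π ≠ π' := by
  rintro rfl
  exact pl_ne_one h2 h.2.2.2 (pl_sq π h.1)

theorem neg_smul_of {g : O Q} {x : V} (t : F) (h : g.1 x = -x) : g.1 (t • x) = -(t • x) := by
  rw [map_smul, h, smul_neg]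

theorem neg_of_smul {g : O Q} {x : V} {t : F} (ht : t ≠ 0) (h : g.1 (t • x) = -(t • x)) :
    g.1 x = -x := by
  rw [map_smul, ← smul_neg] at h
  exact smul_right_injective V ht h

theorem ne_of_smul {x y : V} {t : F} (hy : Q y ≠ 0) (h : t • x = y) : t ≠ 0 := by
  rintro rfl
  rw [zero_smul] at h
  exact ne_zero_of_Q_ne_zero hy h.symm

theorem pm_of_smul (h3 : F3 F) {x y : V} {t : F} (hy : Q y ≠ 0) (h : t • x = y) :
    y = x ∨ y = -x := by
  rcases h3.pm (ne_of_smul hy h) with rfl | rfl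
  · exact .inl (by rw [← h, one_smul])
  · exact .inr (by rw [← h, neg_one_smul])

variable [FiniteDimensional F V] (hQ : (polarBilin Q).Nondegenerate)

/-- an automorphism of the commuting graph of the group, with its inverse -/
structure GAut (s s' : O Q → O Q) : Prop where
  mem : ∀ m ∈ kerDS hQ, s m ∈ kerDS hQ
  mem' : ∀ m ∈ kerDS hQ, s' m ∈ kerDS hQ
  left : ∀ m ∈ kerDS hQ, s' (s m) = m
  right : ∀ m ∈ kerDS hQ, s (s' m) = m
  comm : ∀ a ∈ kerDS hQ, ∀ b ∈ kerDS hQ, s a * s b = s b * s a ↔ a * b = b * a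

/-- the standing hypotheses -/
structure Ctx : Prop where
  h3 : F3 F
  hF : Nat.card F = 3
  dim : ∃ n, 5 ≤ n ∧ finrank F V = 2 * n
  hn : negOne Q ∉ kerDS hQ

variable {hQ} {s s' : O Q → O Q}

theorem GAut.symm (h : GAut hQ s s') : GAut hQ s' s where
  mem := h.mem'
  mem' := h.mem
  left := h.right
  right := h.left
  comm a ha b hb := by rw [← h.comm _ (h.mem' a ha) _ (h.mem' b hb), h.right a ha, h.right b hb]

theorem GAut.inj (h : GAut hQ s s') {a b : O Q} (ha : a ∈ kerDS hQ) (hb : b ∈ kerDS hQ)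
    (e : s a = s b) : a = b := by
  rw [← h.left a ha, e, h.left b hb]

theorem Ctx.ten (C : Ctx hQ) : 10 ≤ finrank F V := by
  obtain ⟨n, h, e⟩ := C.dim
  omega

theorem Ctx.ev (C : Ctx hQ) : dickson hQ (negOne Q) = 1 := by
  obtain ⟨n, h, e⟩ := C.dim
  rw [dickson_negOne hQ C.h3.two, e, pow_mul]; simp

include hQ in
theorem other (h2 : (2 : F) ≠ 0) {π : O Q} {a b : V} (ha : Q a ≠ 0) (hb : Q b = Q a)
    (ab : polar Q a b = 0) (h : Col Q (refl Q a * refl Q b) π) (fa : π.1 a = a) :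
    π.1 b = -b := by
  obtain ⟨x, hx, m1, m2⟩ := common hQ h2 h.1 h.2.1 h.2.2.1 h.2.2.2
  have n2 := (inv_mov h2 π (pl_sq π h.2.1) x).1 m2
  have o := orth_eig h2 fa n2
  rw [mov_rr h2 a b ha (hb ▸ ha) ab, Submodule.mem_span_pair] at m1
  obtain ⟨u, v, e⟩ := m1
  rw [← e, polar_add_right, polar_smul_right', polar_smul_right', ab, mul_zero, add_zero] at o
  have hu : u = 0 := (mul_eq_zero.1 o).resolve_right (H2.WoB.polar_self_ne h2 ha)
  rw [hu, zero_smul, zero_add] at e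
  exact neg_of_smul (ne_of_smul hx e) (e ▸ n2)

include hQ in
theorem lemT (h2 : (2 : F) ≠ 0) {π₁ π₂ π₃ : O Q} (h12 : Col Q π₁ π₂) (h13 : Col Q π₁ π₃)
    (h23 : Col Q π₂ π₃) (hne : π₃ ≠ π₁ * π₂) {c : V} (n1 : π₁.1 c = -c) (n2 : π₂.1 c = -c) :
    π₃.1 c = -c := by
  obtain ⟨a, b, e, ha, hb, he, ab, ae, be, rfl, rfl⟩ :=
    line hQ h2 π₁ π₂ h12.1 h12.2.1 h12.2.2.1 h12.2.2.2
  have hb0 : Q b ≠ 0 := hb ▸ ha
  have he0 : Q e ≠ 0 := he ▸ ha
  obtain ⟨t, rfl⟩ := neg2 h2 ha hb0 he0 ab ae be n1 n2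
  refine neg_smul_of t ?_
  rcases lemE h2 ha hb0 he0 ab ae be h13.2.2.1.symm h23.2.2.1.symm with fa | fa
  · refine (hne ?_).elim
    rw [rr_rr ab]
    exact eq_rr hQ h2 (pl_sq _ h13.2.1) (wt_pl hQ h2 _ h13.2.1) hb0 he0 be
      (other (hQ := hQ) h2 ha hb ab h13 fa) (other (hQ := hQ) h2 ha he ae h23 fa)
  · exact fa

variable [Finite F]

theorem Ctx.cen (C : Ctx hQ) {m : O Q} (hm : m ∈ kerDS hQ)
    (h : ∀ k ∈ kerDS hQ, m * k = k * m) : m = 1 := by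
  rcases cO hQ (by have := C.ten; omega) m h with e | e
  · exact e
  · exact (C.hn (e ▸ hm)).elim

theorem GAut.one (h : GAut hQ s s') (C : Ctx hQ) : s 1 = 1 :=
  C.cen (h.mem 1 (one_mem _)) fun k hk => by
    rw [← h.right k hk, h.comm 1 (one_mem _) _ (h.mem' k hk), one_mul, mul_one]

theorem GAut.pl (h : GAut hQ s s') (C : Ctx hQ) {π : O Q} (hπ : Pl Q π) : Pl Q (s π) := by
  have kπ := pl_mem hQ π hπ
  have kt := h.mem π kπ
  have ne : s π ≠ 1 := fun e =>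
    pl_ne_one C.h3.two hπ (h.inj kπ (one_mem _) (e.trans (h.one C).symm))
  have ki := (kerDS hQ).inv_mem kt
  have sq : s π * s π = 1 := by
    rcases twin hQ C.h3 C.ten C.hn hπ (h.mem' _ ki) (fun k hk c => by
      rw [← h.comm _ (h.mem' _ ki) k hk, h.right _ ki]
      exact (Commute.inv_left (((h.comm k hk π kπ).2 c).symm : Commute (s π) (s k)))) with e | e
    · rw [← h.symm.one C] at e
      exact (ne (inv_eq_one.1 (h.symm.inj ki (one_mem _) e))).elim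
    · have := congrArg s e
      rw [h.right _ ki] at this
      nth_rewrite 1 [← this]
      exact inv_mul_cancel _
  obtain ⟨n, h5, hV⟩ := C.dim
  refine deg hQ C.h3 C.hF h5 hV C.hn hπ kt sq ne (Nat.card_congr
    { toFun := fun k => ⟨s' k.1, h.mem' _ k.2.1, by
        rw [← h.comm _ (h.mem' _ k.2.1) π kπ, h.right _ k.2.1]; exact k.2.2⟩
      invFun := fun k => ⟨s k.1, h.mem _ k.2.1, (h.comm _ k.2.1 π kπ).2 k.2.2⟩
      left_inv := fun k => Subtype.ext (h.right _ k.2.1)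
      right_inv := fun k => Subtype.ext (h.left _ k.2.1) })

theorem GAut.mul (h : GAut hQ s s') (C : Ctx hQ) {π π' : O Q} (c : Col Q π π') :
    s (π * π') = s π * s π' := by
  have h2 := C.h3.two
  have k1 := pl_mem hQ π c.1
  have k2 := pl_mem hQ π' c.2.1
  have k3 := mul_mem k1 k2
  rcases ccent hQ C.h3 C.ten C.hn C.ev (h.pl C c.1) (h.pl C c.2.1)
    ((h.comm π k1 π' k2).2 c.2.2.1) (fun e => c.ne h2 (h.inj k1 k2 e)) (h.mem _ k3)
    (fun k hk c1 c2 => by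
      rw [← h.right k hk] at c1 c2 ⊢
      rw [h.comm _ (h.mem' k hk) _ k1] at c1
      rw [h.comm _ (h.mem' k hk) _ k2] at c2
      rw [h.comm _ k3 _ (h.mem' k hk), mul_assoc, ← c2, ← mul_assoc, ← c1, mul_assoc])
    with e | e | e | e
  · exact (pl_ne_one h2 (h.pl C c.2.2.2) e).elim
  · exact (pl_ne_one h2 c.2.1 (by simpa using h.inj k3 k1 e)).elim
  · exact (pl_ne_one h2 c.1 (by simpa using h.inj k3 k2 e)).elim
  · exact e

theorem GAut.col (h : GAut hQ s s') (C : Ctx hQ) {π π' : O Q} (c : Col Q π π') :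
    Col Q (s π) (s π') :=
  ⟨h.pl C c.1, h.pl C c.2.1, (h.comm π (pl_mem hQ π c.1) π' (pl_mem hQ π' c.2.1)).2 c.2.2.1,
    h.mul C c ▸ h.pl C c.2.2.2⟩

theorem GAut.tri (h : GAut hQ s s') (C : Ctx hQ) {c x y z c' : V} (hc : Q c ≠ 0) (hx : Q x = Q c)
    (hy : Q y = Q c) (hz : Q z = Q c) (cx : polar Q c x = 0) (cy : polar Q c y = 0)
    (cz : polar Q c z = 0) (xy : polar Q x y = 0) (xz : polar Q x z = 0) (yz : polar Q y z = 0)
    (n1 : (s (refl Q c * refl Q x)).1 c' = -c') (n2 : (s (refl Q c * refl Q y)).1 c' = -c') :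
    (s (refl Q c * refl Q z)).1 c' = -c' := by
  have h2 := C.h3.two
  have c12 := col_rr hc hx hy cx cy xy
  have c13 := col_rr hc hx hz cx cz xz
  have c23 := col_rr hc hy hz cy cz yz
  refine lemT (hQ := hQ) h2 (h.col C c12) (h.col C c13) (h.col C c23) (fun e => ?_) n1 n2
  rw [← h.mul C c12] at e
  have e' := h.inj (pl_mem hQ _ c13.2.1) (pl_mem hQ _ c12.2.2.2) e
  have := rr_left hc cz
  rw [e', rr_rr cx, rr_fix (psymm cx) (psymm cy)] at this
  exact ne_zero_of_Q_ne_zero hc (eq_zero_of_eq_neg h2 this)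

omit [Finite F] in
theorem Ctx.sp1 (C : Ctx hQ) {c : V} (hc : Q c ≠ 0) : Sp Q (insert c ∅) 9 :=
  spi C.h3.two (sp0 C.ten) hc or_empty

theorem GAut.into (h : GAut hQ s s') (C : Ctx hQ) {c : V} (hc : Q c ≠ 0) :
    ∃ c', Q c' ≠ 0 ∧ ∀ π, Pl Q π → π.1 c = -c → (s π).1 c' = -c' := by
  have h2 := C.h3.two
  obtain ⟨x, y, hx, hy, ox, oy, xy⟩ := cnn hQ h2 ((C.sp1 hc).mono (by omega)) hc
  have cx := (or_insert.1 ox).1
  have cy := (or_insert.1 oy).1
  have c12 := h.col C (col_rr hc hx hy cx cy xy)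
  obtain ⟨c', hc', m1, m2⟩ := common hQ h2 c12.1 c12.2.1 c12.2.2.1 c12.2.2.2
  have n1 := (inv_mov h2 _ (pl_sq _ c12.1) c').1 m1
  have n2 := (inv_mov h2 _ (pl_sq _ c12.2.1) c').1 m2
  refine ⟨c', hc', fun π hπ n => ?_⟩
  obtain ⟨f, hf, cf, rfl⟩ := pl_vec hQ h2 π c hπ hc n
  obtain ⟨T, hT, H⟩ := spk hQ h2 (spi h2 (spi h2 (C.sp1 hc) (hx ▸ hc) ox) (hy ▸ hc)
    (or_insert.2 ⟨xy, oy⟩)) f
  obtain ⟨p, q, hp, hq, op, oq, pq⟩ := cnn hQ h2 (hT.mono (by omega)) hc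
  obtain ⟨op, fp⟩ := H p op
  obtain ⟨oq, fq⟩ := H q oq
  rw [or_insert, or_insert, or_insert] at op oq
  exact h.tri C hc hp hq hf op.2.2.1 oq.2.2.1 cf pq (psymm fp) (psymm fq)
    (h.tri C hc hx hy hp cx cy op.2.2.1 xy op.2.1 op.1 n1 n2)
    (h.tri C hc hx hy hq cx cy oq.2.2.1 xy oq.2.1 oq.1 n1 n2)

theorem Ctx.star (C : Ctx hQ) {c x : V} (hc : Q c ≠ 0) (hx : Q x ≠ 0)
    (h : ∀ π, Pl Q π → π.1 c = -c → π.1 x = -x) : x = c ∨ x = -c := by
  have h2 := C.h3.two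
  obtain ⟨p, q, hp, hq, op, oq, pq⟩ := cnn hQ h2 ((C.sp1 hc).mono (by omega)) hc
  have cp := (or_insert.1 op).1
  have cq := (or_insert.1 oq).1
  obtain ⟨t, ht⟩ := neg2 h2 hc (hp ▸ hc) (hq ▸ hc) cp cq pq
    (h _ ⟨c, p, hc, hp, cp, rfl⟩ (rr_left hc cp)) (h _ ⟨c, q, hc, hq, cq, rfl⟩ (rr_left hc cq))
  exact pm_of_smul C.h3 hx ht

/-- the correspondence of points induced by a graph automorphism -/
def Tt (s : O Q → O Q) (c c' : V) : Prop :=
  Q c ≠ 0 ∧ Q c' ≠ 0 ∧ ∀ π, Pl Q π → (π.1 c = -c ↔ (s π).1 c' = -c')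

omit [FiniteDimensional F V] [Finite F] in
theorem neg_iff {g : O Q} {x y : V} (e : y = x ∨ y = -x) : g.1 y = -y ↔ g.1 x = -x := by
  rcases e with rfl | rfl
  · rfl
  · rw [map_neg, neg_inj]

omit [FiniteDimensional F V] [Finite F] in
theorem Q_pm {x y : V} (e : y = x ∨ y = -x) : Q y = Q x := by
  rcases e with rfl | rfl
  · rfl
  · exact QuadraticMap.map_neg Q x

omit [FiniteDimensional F V] [Finite F] in
theorem Tt.pm {c c' d d' : V} (h : Tt s c c') (e : d = c ∨ d = -c) (e' : d' = c' ∨ d' = -c') :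
    Tt s d d' :=
  ⟨Q_pm (Q := Q) e ▸ h.1, Q_pm (Q := Q) e' ▸ h.2.1, fun π hπ => by
    rw [neg_iff e, neg_iff e', h.2.2 π hπ]⟩

theorem GAut.tsymm (h : GAut hQ s s') (C : Ctx hQ) {c c' : V} (t : Tt s c c') : Tt s' c' c :=
  ⟨t.2.1, t.1, fun π hπ => by rw [t.2.2 _ (h.symm.pl C hπ), h.right π (pl_mem hQ π hπ)]⟩

theorem GAut.tot (h : GAut hQ s s') (C : Ctx hQ) {c : V} (hc : Q c ≠ 0) : ∃ c', Tt s c c' := by
  obtain ⟨c', hc', H⟩ := h.into C hc
  obtain ⟨c'', hc'', H'⟩ := h.symm.into C hc'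
  have e := C.star hc hc'' fun π hπ n => by
    have := H' _ (h.pl C hπ) (H π hπ n)
    rwa [h.left π (pl_mem hQ π hπ)] at this
  refine ⟨c', hc, hc', fun π hπ => ⟨H π hπ, fun n => ?_⟩⟩
  have := H' _ (h.pl C hπ) n
  rwa [h.left π (pl_mem hQ π hπ), neg_iff e] at this

theorem Ctx.uniq (C : Ctx hQ) {c d c' : V} (t : Tt s c c') (t' : Tt s d c') :
    d = c ∨ d = -c :=
  C.star t.1 t'.1 fun π hπ n => (t'.2.2 π hπ).2 ((t.2.2 π hπ).1 n)

theorem GAut.pair (h : GAut hQ s s') (C : Ctx hQ) {c d c' d' : V} (t : Tt s c c')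
    (t' : Tt s d d') (hd : Q d = Q c) (o : polar Q c d = 0) :
    Q d' = Q c' ∧ polar Q c' d' = 0 := by
  have h2 := C.h3.two
  have hc := t.1
  obtain ⟨e, he, oe⟩ := cn0 hQ ((spi h2 (C.sp1 hc) t'.1 (or_insert.2 ⟨o, or_empty⟩)).mono
    (by omega)) (Q c)
  rw [or_insert, or_insert] at oe
  have c12 := col_rr hc hd he o oe.2.1 oe.1
  have m := h.mul C c12
  have c12' := h.col C c12
  obtain ⟨a, b, g, ha, hb, hg, ab, ag, bg, e1, e2⟩ :=
    line hQ h2 _ _ c12'.1 c12'.2.1 c12'.2.2.1 c12'.2.2.2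
  have hb0 : Q b ≠ 0 := hb ▸ ha
  have hg0 : Q g ≠ 0 := hg ▸ ha
  have n1 := (t.2.2 _ c12.1).1 (rr_left hc o)
  have n2 := (t.2.2 _ c12.2.1).1 (rr_left hc oe.2.1)
  have n3 := (t'.2.2 _ c12.1).1 (rr_right t'.1 o)
  have n4 := (t'.2.2 _ c12.2.2.2).1 (by rw [rr_rr o]; exact rr_left t'.1 oe.1)
  rw [m, e1, e2, rr_rr ab] at n4
  rw [e1] at n1 n3
  rw [e2] at n2
  rw [rr_comm a b ab] at n3
  obtain ⟨u, hu⟩ := neg2 h2 ha hb0 hg0 ab ag bg n1 n2
  obtain ⟨v, hv⟩ := neg2 h2 hb0 ha hg0 (psymm ab) bg ag n3 n4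
  refine ⟨by rw [Q_pm (pm_of_smul C.h3 t.2.1 hu), Q_pm (pm_of_smul C.h3 t'.2.1 hv), hb], ?_⟩
  rw [← hu, ← hv, polar_smul_left', polar_smul_right', ab, mul_zero, mul_zero]

theorem GAut.nrm (h : GAut hQ s s') (C : Ctx hQ) {c d c' d' : V} (t : Tt s c c')
    (t' : Tt s d d') (hd : Q d = Q c) : Q d' = Q c' := by
  obtain ⟨p, hp, o, dp⟩ := cn1 hQ C.h3.two ((C.sp1 t.1).mono (by omega)) (Q c) d
  obtain ⟨p', tp⟩ := h.tot C (hp ▸ t.1 : Q p ≠ 0)
  rw [← (h.pair C t tp hp (or_insert.1 o).1).1, (h.pair C t' tp (hp.trans hd.symm) dp).1]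

theorem GAut.srr (h : GAut hQ s s') (C : Ctx hQ) {c d c' d' : V} (t : Tt s c c')
    (t' : Tt s d d') (hd : Q d = Q c) (o : polar Q c d = 0) :
    s (refl Q c * refl Q d) = refl Q c' * refl Q d' := by
  have p : Pl Q (refl Q c * refl Q d) := ⟨c, d, t.1, hd, o, rfl⟩
  have p' := h.pl C p
  exact eq_rr hQ C.h3.two (pl_sq _ p') (wt_pl hQ C.h3.two _ p') t.2.1 t'.2.1
    (h.pair C t t' hd o).2 ((t.2.2 _ p).1 (rr_left t.1 o)) ((t'.2.2 _ p).1 (rr_right t'.1 o))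

theorem Ctx.dperp (C : Ctx hQ) {c a b : V} (hc : Q c ≠ 0)
    (H : ∀ p, Q p = Q c → polar Q c p = 0 → polar Q a p = 0 → polar Q b p = 0) :
    b ∈ Submodule.span F {a, c} := by
  have h2 := C.h3.two
  have A : ∀ x, Q x = 0 → polar Q c x = 0 → polar Q a x = 0 → polar Q b x = 0 := by
    intro x hx cx ax
    obtain ⟨p, hp, o, ap, xp⟩ := cn2 hQ h2 ((C.sp1 hc).mono (by omega)) (Q c) a x
    have cp := (or_insert.1 o).1
    have := H (x + p) (by rw [Q_add, hx, xp, hp, zero_add, add_zero])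
      (by rw [polar_add_right, cx, cp, add_zero]) (by rw [polar_add_right, ax, ap, add_zero])
    rwa [polar_add_right, H p hp cp ap, add_zero] at this
  rw [← perp_perp hQ (Submodule.span F {a, c}), mem_perp']
  intro x hx
  rw [mem_perp_span] at hx
  have ax := hx a (by simp)
  have cx := hx c (by simp)
  by_cases h0 : Q x = 0
  · exact A x h0 cx ax
  rcases C.h3.norm hc h0 with e | e
  · exact H x e cx ax
  · obtain ⟨p, hp, o, ap, xp⟩ := cn2 hQ h2 ((C.sp1 hc).mono (by omega)) (Q c) a x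
    have cp := (or_insert.1 o).1
    have := A (x + p) (by rw [Q_add, e, xp, hp]; ring)
      (by rw [polar_add_right, cx, cp, add_zero]) (by rw [polar_add_right, ax, ap, add_zero])
    rwa [polar_add_right, H p hp cp ap, add_zero] at this

omit [FiniteDimensional F V] [Finite F] in
theorem third (h3 : F3 F) {a c b : V} (hc : Q c ≠ 0) (ha : Q a = Q c) (hb : Q b = Q c)
    (m : b ∈ Submodule.span F {a, c}) (n1 : ¬ (b = a ∨ b = -a)) (n2 : ¬ (b = c ∨ b = -c)) :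
    b = (refl Q c).1 a ∨ b = -(refl Q c).1 a := by
  obtain ⟨x, y, e⟩ := Submodule.mem_span_pair.1 m
  have hb0 : Q b ≠ 0 := hb ▸ hc
  have hx : x ≠ 0 := by
    rintro rfl
    rw [zero_smul, zero_add] at e
    exact n2 (pm_of_smul h3 hb0 e)
  have hy : y ≠ 0 := by
    rintro rfl
    rw [zero_smul, add_zero] at e
    exact n1 (pm_of_smul h3 hb0 e)
  refine pm_of_smul h3 (t := x) hb0 ?_
  rw [← e, Q_add, Q_smul, Q_smul, polar_smul_left', polar_smul_right', ha, h3.sq x hx,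
    h3.sq y hy] at hb
  rw [refl_apply, smul_sub, smul_smul, sub_eq_add_neg, ← neg_smul, ← e, h3.inv hc]
  congr 2
  have q1 := h3.sq x hx
  have q2 := h3.sq y hy
  have q3 := h3.sq _ hc
  linear_combination (-(y * Q c)) * hb + (y * Q c * 0 + x * Q c * polar Q a c) * q2 + y * q3

theorem GAut.trefl (h : GAut hQ s s') (C : Ctx hQ) {c a c' a' : V} (t : Tt s c c')
    (t' : Tt s a a') (ha : Q a = Q c) : Tt s ((refl Q c).1 a) ((refl Q c').1 a') := by
  have h2 := C.h3.two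
  have hc := t.1
  by_cases o : polar Q c a = 0
  · rw [refl_apply_of_orth (psymm o), refl_apply_of_orth (psymm (h.pair C t t' ha o).2)]
    exact t'
  have neg : ∀ {c a : V}, Q c ≠ 0 → a = c ∨ a = -c → (refl Q c).1 a = a ∨ (refl Q c).1 a = -a := by
    rintro c a hc (rfl | rfl)
    · exact .inr (refl_apply_self hc)
    · exact .inr (by rw [map_neg, refl_apply_self hc])
  by_cases e : a = c ∨ a = -c
  · exact t'.pm (neg hc e) (neg t.2.1 (C.uniq (h.tsymm C t) (h.tsymm C (t'.pm (d := c)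
      (e.imp Eq.symm fun e => by rw [e, neg_neg]) (.inl rfl)))))
  have hb : Q ((refl Q c).1 a) = Q c := by rw [O_map, ha]
  obtain ⟨b', tb⟩ := h.tot C (hb ▸ hc : Q ((refl Q c).1 a) ≠ 0)
  refine tb.pm (.inl rfl) ((third C.h3 t.2.1 (h.nrm C t t' ha) (h.nrm C t tb hb)
    (C.dperp t.2.1 fun p' hp' cp ap => ?_) (fun e' => ?_) (fun e' => ?_)).imp Eq.symm
    fun e => by rw [e, neg_neg])
  · obtain ⟨p, tp⟩ := h.symm.tot C (hp' ▸ t.2.1 : Q p' ≠ 0)
    obtain ⟨q1, o1⟩ := h.symm.pair C (h.tsymm C t) tp hp' cp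
    obtain ⟨-, o2⟩ := h.symm.pair C (h.tsymm C t') tp (hp'.trans (h.nrm C t t' ha).symm) ap
    refine (h.pair C tb (h.symm.tsymm C tp) (q1.trans hb.symm) ?_).2
    rw [refl_apply, polar_sub_left, polar_smul_left', o1, o2, mul_zero, sub_zero]
  · rcases C.uniq t' (tb.pm (.inl rfl) (e'.imp Eq.symm fun e => by rw [e, neg_neg])) with k | k
    · rw [refl_apply, sub_eq_self, smul_eq_zero, mul_eq_zero, inv_eq_zero] at k
      rcases k with (k | k) | k
      exacts [hc k, o (psymm k), ne_zero_of_Q_ne_zero hc k]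
    · rw [refl_apply, sub_eq_iff_eq_add, eq_comm, neg_add_eq_iff_eq_add, ← two_smul F a] at k
      refine e (pm_of_smul C.h3 (t := (2 : F)⁻¹ * ((Q c)⁻¹ * polar Q a c)) t'.1 ?_)
      rw [mul_smul, k, smul_smul, inv_mul_cancel₀ h2, one_smul]
  · have k := C.uniq t (tb.pm (.inl rfl) (e'.imp Eq.symm fun e => by rw [e, neg_neg]))
    refine e ?_
    rcases k with k | k
    · right; rw [← refl_refl Q c a, k, refl_apply_self hc]
    · left; rw [← refl_refl Q c a, k, map_neg, refl_apply_self hc, neg_neg]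

theorem GAut.crefl (h : GAut hQ s s') (C : Ctx hQ) {c c' : V} (t : Tt s c c') {ρ : O Q}
    (hρ : Pl Q ρ) : s (refl Q c * ρ * refl Q c) = refl Q c' * s ρ * refl Q c' := by
  obtain ⟨a, b, ha, hb, o, rfl⟩ := pl_class hQ C.h3.two ρ hρ (Q c) t.1
  obtain ⟨a', ta⟩ := h.tot C (ha ▸ t.1 : Q a ≠ 0)
  obtain ⟨b', tb⟩ := h.tot C (hb ▸ t.1 : Q b ≠ 0)
  have key : ∀ c a b : V, refl Q c * (refl Q a * refl Q b) * refl Q c =
      refl Q ((refl Q c).1 a) * refl Q ((refl Q c).1 b) := fun c a b => by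
    rw [← refl_conj, ← refl_conj, refl_inv]
    simp only [mul_assoc]
    rw [← mul_assoc (refl Q c) (refl Q c), refl_mul_self, one_mul]
  rw [h.srr C ta tb (hb.trans ha.symm) o, key, key]
  exact h.srr C (h.trefl C t ta ha) (h.trefl C t tb hb) (by rw [O_map, O_map, ha, hb])
    (by rw [O_polar, o])

theorem GAut.conj (h : GAut hQ s s') (C : Ctx hQ) {π ρ : O Q} (hπ : Pl Q π) (hρ : Pl Q ρ) :
    s (π * ρ * π⁻¹) = s π * s ρ * (s π)⁻¹ := by
  obtain ⟨c, d, hc, hd, o, rfl⟩ := hπ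
  obtain ⟨c', tc⟩ := h.tot C hc
  obtain ⟨d', td⟩ := h.tot C (hd ▸ hc : Q d ≠ 0)
  have key : ∀ (c d : V) (ρ : O Q), refl Q c * refl Q d * ρ * (refl Q c * refl Q d)⁻¹ =
      refl Q c * (refl Q d * ρ * refl Q d) * refl Q c := fun c d ρ => by
    rw [mul_inv_rev, refl_inv, refl_inv]
    simp only [mul_assoc]
  have p : Pl Q (refl Q d * ρ * refl Q d) := by
    have := pl_conj (refl Q d) ρ hρ
    rwa [refl_inv] at this
  rw [h.srr C tc td hd o, key, key, h.crefl C tc p, h.crefl C td hρ]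

end Cfsg.Agent.H2.Nc
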