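import Mathlib
import Cfsg.Prelude.Def_KGroupFacts

/-!
A group whose commuting graph is that of a simple group with small outer automorphism group.
-/

set_option autoImplicit false

namespace Cfsg.Agent.H2.Nc

open Subgroup

theorem top_of_index {K : Type*} [Group K] [Finite K] [IsSimpleGroup K] (h24 : 24 < Nat.card K)
    (J : Subgroup K) (h : J.index ≤ 4) : J = ⊤ := by
  rcases (J.normalCore_normal).eq_bot_or_eq_top with e | e
  · have h1 : J.normalCore.index ∣ J.index.factorial := by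
      rw [normalCore_eq_ker, index_ker, index_eq_card, ← Nat.card_perm]
      exact card_subgroup_dvd_card (MulAction.toPermHom K (K ⧸ J)).range
    rw [e, index_bot] at h1
    have h2 := Nat.le_of_dvd (Nat.factorial_pos _) h1
    have h3 : J.index.factorial ≤ Nat.factorial 4 := Nat.factorial_le h
    have : Nat.factorial 4 = 24 := rfl
    omega
  · exact top_le_iff.1 (e ▸ J.normalCore_le)

theorem iso_of_aut {G K : Type*} [Group G] [Group K] [Finite K] [IsSimpleGroup K]
    (h24 : 24 < Nat.card K) (hZ : ∀ m : K, (∀ k, m * k = k * m) → m = 1)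
    (hOut : Nat.card (Cfsg.Out K) = 4) (hc : Nat.card G = Nat.card K) (ψ : G →* MulAut K)
    (hψ : Function.Injective ψ) : Nonempty (G ≃* K) := by
  have ci : Function.Injective (MulAut.conj : K →* MulAut K) := by
    rw [injective_iff_map_eq_one]
    intro m hm
    refine hZ m fun k => ?_
    have := congrArg (fun f : MulAut K => f k) hm
    simp only [MulAut.conj_apply, MulAut.one_apply] at this
    exact mul_inv_eq_iff_eq_mul.1 this
  have cI : Nat.card (Cfsg.Inn K) = Nat.card K :=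
    (Nat.card_congr (MonoidHom.ofInjective ci).toEquiv).symm
  have cH : Nat.card ψ.range = Nat.card K :=
    (Nat.card_congr (MonoidHom.ofInjective hψ).toEquiv).symm.trans hc
  have r1 := relIndex_mul_relIndex ⊥ (ψ.range ⊓ Cfsg.Inn K) (Cfsg.Inn K) bot_le inf_le_right
  have r2 := relIndex_mul_relIndex ⊥ (ψ.range ⊓ Cfsg.Inn K) ψ.range bot_le inf_le_left
  rw [relIndex_bot_left, relIndex_bot_left, inf_relIndex_right, cI] at r1
  rw [relIndex_bot_left, relIndex_bot_left, inf_relIndex_left, cH, ← r1] at r2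
  have r3 := Nat.eq_of_mul_eq_mul_left Nat.card_pos r2
  have r4 := relIndex_dvd_index_of_normal (Cfsg.Inn K) ψ.range
  rw [index_eq_card, hOut, r3] at r4
  have top := top_of_index h24 (ψ.range.comap MulAut.conj)
    (by rw [index_comap]; exact Nat.le_of_dvd (by norm_num) r4)
  have le : Cfsg.Inn K ≤ ψ.range := by
    rintro _ ⟨k, rfl⟩
    exact (top ▸ mem_top k : k ∈ ψ.range.comap MulAut.conj)
  have eq : Cfsg.Inn K = ψ.range := eq_of_le_of_card_ge le (by rw [cI, cH])
  exact ⟨((MonoidHom.ofInjective hψ).trans (MulEquiv.subgroupCongr eq.symm)).trans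
    (MonoidHom.ofInjective ci).symm⟩

theorem exists_aut {G K : Type*} [Group G] [Group K]
    (hZ : ∀ m : K, (∀ k, m * k = k * m) → m = 1) (X : Set K) (hX : closure X = ⊤)
    (hXc : ∀ k : K, ∀ π ∈ X, k * π * k⁻¹ ∈ X) (e : G ≃ K)
    (he : ∀ a b, e a * e b = e b * e a ↔ a * b = b * a)
    (h1 : ∀ g, ∀ π ∈ X, e (g * e.symm π * g⁻¹) ∈ X)
    (h2 : ∀ g, ∀ π ∈ X, ∀ ρ ∈ X, e (g * e.symm (π * ρ * π⁻¹) * g⁻¹) =
      e (g * e.symm π * g⁻¹) * e (g * e.symm ρ * g⁻¹) * (e (g * e.symm π * g⁻¹))⁻¹) :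
    ∃ ψ : G →* MulAut K, Function.Injective ψ := by
  have cen : ∀ m : K, (∀ π ∈ X, m * π = π * m) → m = 1 := fun m hm => hZ m fun k => by
    have : k ∈ centralizer ({m} : Set K) := by
      refine (?_ : closure X ≤ _) (hX ▸ mem_top k)
      rw [closure_le]
      intro π hπ
      exact mem_centralizer_singleton_iff.2 (hm π hπ).symm
    exact (mem_centralizer_singleton_iff.1 this).symm
  let l : K →* Equiv.Perm X := MonoidHom.toHomPerm
    { toFun := fun k π => ⟨k * π * k⁻¹, hXc k π π.2⟩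
      map_one' := funext fun π => Subtype.ext (show 1 * π.1 * 1⁻¹ = π.1 by simp)
      map_mul' := fun a b => funext fun π => Subtype.ext
        (show a * b * π.1 * (a * b)⁻¹ = a * (b * π.1 * b⁻¹) * a⁻¹ by simp [mul_assoc]) }
  let σ : G →* Equiv.Perm X := MonoidHom.toHomPerm
    { toFun := fun g π => ⟨e (g * e.symm π * g⁻¹), h1 g π π.2⟩
      map_one' := funext fun π => Subtype.ext (show e (1 * e.symm π.1 * 1⁻¹) = π.1 by simp)
      map_mul' := fun a b => funext fun π => Subtype.ext
        (show e (a * b * e.symm π.1 * (a * b)⁻¹) =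
          e (a * e.symm (e (b * e.symm π.1 * b⁻¹)) * a⁻¹) by simp [mul_assoc]) }
  have la : ∀ k (π : X), (l k π : K) = k * π * k⁻¹ := fun _ _ => rfl
  have σa : ∀ g (π : X), (σ g π : K) = e (g * e.symm π * g⁻¹) := fun _ _ => rfl
  have li : Function.Injective l := by
    rw [injective_iff_map_eq_one]
    intro m hm
    refine cen m fun π hπ => ?_
    have := la m ⟨π, hπ⟩
    rw [hm] at this
    exact (mul_inv_eq_iff_eq_mul.1 this.symm)
  have cj : ∀ g (π : X), σ g * l π * (σ g)⁻¹ = l (σ g π) := fun g π => by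
    rw [mul_inv_eq_iff_eq_mul]
    ext ρ
    rw [Equiv.Perm.mul_apply, Equiv.Perm.mul_apply, σa, la, la, σa, σa, h2 g π π.2 ρ ρ.2]
  have nm0 : ∀ g k, σ g * l k * (σ g)⁻¹ ∈ l.range := fun g k => by
    have hk : k ∈ closure X := hX ▸ mem_top k
    induction hk using closure_induction with
    | mem π hπ => exact ⟨_, (cj g ⟨π, hπ⟩).symm⟩
    | one => simp
    | mul a b _ _ ha hb => simpa [mul_assoc] using mul_mem ha hb
    | inv a _ ha => simpa [mul_assoc] using inv_mem ha
  have nm : ∀ g, σ g ∈ normalizer (l.range : Set (Equiv.Perm X)) := fun g => by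
    rw [mem_normalizer_iff]
    intro h
    refine ⟨?_, fun hh => ?_⟩
    · rintro ⟨k, rfl⟩
      exact nm0 g k
    · obtain ⟨k, hk⟩ := hh
      have := nm0 g⁻¹ k
      rw [hk] at this
      simpa [mul_assoc] using this
  refine ⟨(MulAut.congr (MonoidHom.ofInjective li).symm).toMonoidHom.comp
    (l.range.normalizerMonoidHom.comp (σ.codRestrict _ nm)), ?_⟩
  rw [injective_iff_map_eq_one]
  intro g hg
  have hg' : σ.codRestrict _ nm g ∈ l.range.normalizerMonoidHom.ker :=
    (MulAut.congr (MonoidHom.ofInjective li).symm).injective (hg.trans (map_one _).symm)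
  rw [normalizerMonoidHom_ker, mem_subgroupOf, mem_centralizer_iff] at hg'
  have e1 : e 1 = 1 := hZ _ fun k => by
    rw [← e.apply_symm_apply k, he, one_mul, mul_one]
  refine e.injective ((cen _ fun π hπ => ?_).trans e1.symm)
  have c := hg' (l π) ⟨π, rfl⟩
  have c' : σ g * l π * (σ g)⁻¹ = l π := mul_inv_eq_iff_eq_mul.2 c.symm
  have := li ((cj g ⟨π, hπ⟩).symm.trans c')
  rw [σa, ← e.eq_symm_apply, mul_inv_eq_iff_eq_mul] at this
  rw [← e.apply_symm_apply π, he]
  exact this

theorem exists_equiv {G K : Type*} [Group G] [Group K]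
    (hZ : ∀ m : K, (∀ k, m * k = k * m) → m = 1) {π : K} (hπ : π ≠ 1)
    (tw : ∀ m : K, (∀ k, k * π = π * k → m * k = k * m) → m = 1 ∨ m = π)
    (φ : {g : G // g ∉ center G} ≃ {m : K // m ∉ center K})
    (hφ : ∀ x y : {g : G // g ∉ center G}, Commute x.1 y.1 ↔ Commute (φ x).1 (φ y).1) :
    ∃ e : G ≃ K, ∀ a b, e a * e b = e b * e a ↔ a * b = b * a := by
  classical
  have nc : ∀ m : K, m ∉ center K ↔ m ≠ 1 := fun m =>
    not_congr ⟨fun h => hZ m fun k => (mem_center_iff.1 h k).symm, fun h => h ▸ one_mem _⟩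
  have ZG : ∀ z ∈ center G, z = 1 := by
    intro z hz
    set x := φ.symm ⟨π, (nc π).2 hπ⟩ with hx
    have px : (φ x).1 = π := by rw [hx, φ.apply_symm_apply]
    have xz : x.1 * z ∉ center G := fun h => x.2 (by simpa using mul_mem h (inv_mem hz))
    rcases tw (φ ⟨_, xz⟩).1 (fun k hk => by
      by_cases k1 : k = 1
      · rw [k1, one_mul, mul_one]
      · obtain ⟨y, hy⟩ := φ.surjective ⟨k, (nc k).2 k1⟩
        have hy' : (φ y).1 = k := by rw [hy]
        rw [← hy'] at hk ⊢
        rw [← px] at hk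
        have c : Commute y.1 x.1 := (hφ y x).2 hk
        exact (hφ ⟨_, xz⟩ y).1 (c.symm.mul_left (mem_center_iff.1 hz y.1).symm)) with h | h
    · exact absurd h ((nc _).1 (φ _).2)
    · have := congrArg Subtype.val (φ.injective (Subtype.ext (h.trans px.symm)))
      simpa using this
  have ncG : ∀ g : G, g ∉ center G ↔ g ≠ 1 := fun g =>
    not_congr ⟨ZG g, fun h => h ▸ one_mem _⟩
  let f : G → K := fun g => if h : g = 1 then 1 else (φ ⟨g, (ncG g).2 h⟩).1
  let f' : K → G := fun k => if h : k = 1 then 1 else (φ.symm ⟨k, (nc k).2 h⟩).1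
  refine ⟨⟨f, f', fun g => ?_, fun k => ?_⟩, fun a b => ?_⟩
  · by_cases h : g = 1
    · simp [f, f', h]
    · have := (nc _).1 (φ ⟨g, (ncG g).2 h⟩).2
      simp [f, f', h, this]
  · by_cases h : k = 1
    · simp [f, f', h]
    · have := (ncG _).1 (φ.symm ⟨k, (nc k).2 h⟩).2
      simp [f, f', h, this]
  · change f a * f b = f b * f a ↔ _
    by_cases ha : a = 1
    · simp [f, ha]
    by_cases hb : b = 1
    · simp [f, hb]
    simp only [f, dif_neg ha, dif_neg hb]
    exact (hφ ⟨a, (ncG a).2 ha⟩ ⟨b, (ncG b).2 hb⟩).symm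

end Cfsg.Agent.H2.Nc
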