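import Cfsg.Agent.H2.NcC
import Cfsg.Agent.H2.NcD
import Cfsg.Agent.H30.OrthBridge
import Cfsg.Agent.H30.OrthIndex

/-!
A group with the commuting graph of the orthogonal group over three elements acts faithfully on it.
-/

set_option autoImplicit false

namespace Cfsg.Agent.H2.Nc

open Cfsg.Agent.H30 Cfsg.Agent.H17.Wo Cfsg.Agent.H55.WoG Module QuadraticMap Subgroup

theorem transport {G M K : Type*} [Group G] [Group M] [Group K] (j : M ≃* K)
    (φ : {g : G // g ∉ center G} ≃ {m : M // m ∉ center M})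
    (hφ : ∀ x y : {g : G // g ∉ center G}, Commute x.1 y.1 ↔ Commute (φ x).1 (φ y).1) :
    ∃ φ' : {g : G // g ∉ center G} ≃ {m : K // m ∉ center K},
      ∀ x y : {g : G // g ∉ center G}, Commute x.1 y.1 ↔ Commute (φ' x).1 (φ' y).1 := by
  refine ⟨φ.trans (j.toEquiv.subtypeEquiv fun m => not_congr ?_), fun x y => ?_⟩
  · rw [mem_center_iff, mem_center_iff, j.surjective.forall]
    refine forall_congr' fun g => ?_
    change _ ↔ j g * j m = j m * j g
    rw [← map_mul, ← map_mul, j.injective.eq_iff]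
  · rw [hφ]
    change _ ↔ j (φ x).1 * j (φ y).1 = j (φ y).1 * j (φ x).1
    rw [← map_mul, ← map_mul, j.injective.eq_iff]
    rfl

variable {F V : Type*} [Field F] [AddCommGroup V] [Module F V] {Q : QuadraticForm F V}
  [FiniteDimensional F V] [Finite F] {hQ : (polarBilin Q).Nondegenerate}

theorem Ctx.cen' (C : Ctx hQ) (m : kerDS hQ) (h : ∀ k, m * k = k * m) : m = 1 :=
  Subtype.ext (C.cen m.2 fun k hk => congrArg Subtype.val (h ⟨k, hk⟩))

theorem Ctx.big (C : Ctx hQ) : 24 < Nat.card (kerDS hQ) := by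
  obtain ⟨n, h5, hV⟩ := C.dim
  obtain ⟨c, -, d, e⟩ := cardO C.hF hQ (m := n) (by omega) hV
  have i := (kerDS hQ).card_mul_index
  rw [index_kerDS_odd hQ (by omega) C.h3.two, e] at i
  have n0 : 2 * c * PP n ≠ 0 := fun h => nd_mul (nd_mul (by decide) d) (nd_PP n) (h ▸ dvd_zero 3)
  have b1 : 3 ^ 20 ≤ 3 ^ (n * (n - 1)) :=
    Nat.pow_le_pow_right (by norm_num) (Nat.mul_le_mul h5 (by omega : 4 ≤ n - 1))
  have b2 := Nat.le_mul_of_pos_right (3 ^ (n * (n - 1))) (Nat.pos_of_ne_zero n0)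
  omega

theorem Ctx.aut (C : Ctx hQ) {G : Type*} [Group G]
    (φ : {g : G // g ∉ center G} ≃ {m : kerDS hQ // m ∉ center (kerDS hQ)})
    (hφ : ∀ x y : {g : G // g ∉ center G}, Commute x.1 y.1 ↔ Commute (φ x).1 (φ y).1) :
    Nat.card G = Nat.card (kerDS hQ) ∧ ∃ ψ : G →* MulAut (kerDS hQ), Function.Injective ψ := by
  classical
  have h2 := C.h3.two
  have h10 := C.ten
  obtain ⟨c, d, hc, hd, o, ne, -⟩ := H2.WoC.explane hQ h2 (by omega)
  have p : Pl Q (refl Q c * refl Q d) := ⟨c, d, by rw [hc]; exact one_ne_zero, hd.trans hc.symm,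
    o, rfl⟩
  obtain ⟨e, he⟩ := exists_equiv C.cen' (π := ⟨_, pl_mem hQ _ p⟩)
    (fun h => ne (congrArg Subtype.val h)) (fun m hm =>
      (twin hQ C.h3 h10 C.hn p m.2 fun k hk c =>
        congrArg Subtype.val (hm ⟨k, hk⟩ (Subtype.ext c))).imp Subtype.ext Subtype.ext) φ hφ
  refine ⟨Nat.card_congr e, ?_⟩
  let s : G → O Q → O Q := fun g m =>
    if h : m ∈ kerDS hQ then (e (g * e.symm ⟨m, h⟩ * g⁻¹)).1 else m
  have sa : ∀ g (m : kerDS hQ), s g m = e (g * e.symm m * g⁻¹) := fun g m => dif_pos m.2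
  have A : ∀ g, GAut hQ (s g) (s g⁻¹) := fun g =>
    { mem := fun m hm => by rw [sa g ⟨m, hm⟩]; exact Subtype.property _
      mem' := fun m hm => by rw [sa g⁻¹ ⟨m, hm⟩]; exact Subtype.property _
      left := fun m hm => by rw [sa g ⟨m, hm⟩, sa]; simp [mul_assoc]
      right := fun m hm => by rw [sa g⁻¹ ⟨m, hm⟩, sa]; simp [mul_assoc]
      comm := fun a ha b hb => by
        rw [sa g ⟨a, ha⟩, sa g ⟨b, hb⟩, ← coe_mul, ← coe_mul, Subtype.val_inj, he,
          conj_mul, conj_mul, mul_left_inj, mul_right_inj, ← he, e.apply_symm_apply,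
          e.apply_symm_apply, ← Subtype.val_inj]
        rfl }
  refine exists_aut C.cen' {π | Pl Q π.1} ?_ (fun k π hπ => pl_conj k.1 π.1 hπ) e he
    (fun g π hπ => ?_) (fun g π hπ ρ hρ => Subtype.ext ?_)
  · rw [eq_top_iff]
    rintro m -
    have := H2.WoC.gen hQ h2 ∅ (sp0 (Q := Q) h10).1
      (by rw [Submodule.span_empty, finrank_bot]; omega)
      ((closure {π : kerDS hQ | Pl Q π.1}).map (kerDS hQ).subtype)
      (fun π _ hπ => ⟨⟨π, pl_mem hQ π hπ⟩, subset_closure hπ, rfl⟩)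
      (x := m.1) ⟨m.2, fun _ h => h.elim⟩
    obtain ⟨k, hk, e⟩ := this
    exact (Subtype.ext e : k = m) ▸ hk
  · have := (A g).pl C hπ
    rwa [sa] at this
  · have := (A g).conj C hπ hρ
    rw [sa, sa] at this
    exact (sa g (π * ρ * π⁻¹)).symm.trans this

theorem ctx_qPlus {F : Type*} [Field F] [Fintype F] (hF : Fintype.card F = 3) {n : ℕ}
    (hn : 5 ≤ n) (hodd : Odd n) : Ctx (qPlus_nondegenerate (F := F) n) where
  h3 := ⟨(two_ne_zero_iff_odd_card).2 (by rw [hF]; decide), fun a ha => by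
    have := FiniteField.pow_card_sub_one_eq_one a ha
    rwa [hF, pow_two] at this⟩
  hF := by rw [Nat.card_eq_fintype_card, hF]
  dim := ⟨n, hn, by rw [finrank_pi', Fintype.card_sum, Fintype.card_fin]; omega⟩
  hn := by
    rw [negOne_mem_kerDS_qPlus_iff (by rw [hF]; decide), hF]
    obtain ⟨k, rfl⟩ := hodd
    rw [pow_succ, pow_mul, Nat.mul_mod, Nat.pow_mod]
    norm_num

theorem iso_ker {F : Type*} [Field F] [Finite F] {ι : Type} [Fintype ι] [DecidableEq ι]
    {Q : QuadraticForm F (ι → F)} {hQ : (polarBilin Q).Nondegenerate} (C : Ctx hQ) :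
    Nonempty (POmega F ⇑Q ≃* kerDS hQ) := by
  have h10 := C.ten
  have e := H2.WoC.eich_eq hQ C.h3.two (by omega)
  have z : center (eichGroup Q) = ⊥ := by
    rw [eq_bot_iff]
    intro m hm
    exact Subtype.ext (C.cen (e ▸ m.2) fun k hk =>
      (congrArg Subtype.val (mem_center_iff.1 hm ⟨k, e ▸ hk⟩)).symm)
  exact ⟨(((pomegaEquivEich hQ (not_isExc_of_two C.h3.two) (by rw [← finrank_pi' (F := F)]; omega)).trans
    (QuotientGroup.quotientMulEquivOfEq z)).trans QuotientGroup.quotientBot).trans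
    (MulEquiv.subgroupCongr e)⟩

end Cfsg.Agent.H2.Nc
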