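import Cfsg.Agent.H54.O84Defs

/-! Project O84, piece X5. -/

set_option autoImplicit false

namespace Cfsg.Agent.H2O84X5

open Cfsg.Agent.H54.O84 Multiplicative QuadraticAlgebra
open scoped Matrix

universe u

def sg (x : V) : V := fun i => if i = 0 then -x i else x i

theorem tab : ∀ k : Fin 12, ∃ k' : Fin 12, ∀ x : V, x ⬝ᵥ lam k' = 0 → sg x ⬝ᵥ lam k = 0 := by
  have : ∀ k : Fin 12, ∃ k' : Fin 12, lam k' = sg (lam k) ∨ lam k' = -sg (lam k) := by decide
  intro k
  obtain ⟨k', h⟩ := this k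
  have e : ∀ x : V, sg x ⬝ᵥ lam k = x ⬝ᵥ sg (lam k) := fun x => by
    simp [dotProduct, Fin.sum_univ_four, sg]
  refine ⟨k', fun x hx => ?_⟩
  rw [e]
  rcases h with h | h
  · rwa [h] at hx
  · rwa [h, dotProduct_neg, neg_eq_zero] at hx

theorem refl_e0 {F : Type u} [Field F] (o : F) (y : UV F o) (i : Fin 4) :
    (H30.refl (Qn F o) (Pi.single 0 1)).1 y i = if i = 0 then -star (y i) else y i := by
  have h1 : Qn F o (Pi.single 0 1) = 1 := by simp [Qn_apply, Fin.sum_univ_four]
  have h2 : QuadraticMap.polar (Qn F o) y (Pi.single 0 1) = 2 * (y 0).re + (y 0).im := by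
    rw [QuadraticMap.polar, h1]
    simp [Qn_apply, Fin.sum_univ_four, norm_def]
    ring
  rw [H30.refl_apply, h1, h2]
  split_ifs with h
  · subst h
    ext <;> simp
    ring
  · simp [Pi.single_eq_of_ne h]

theorem x5 : X5Stmt.{u} := by
  intro F _ _ o _ _ ζ b hb
  set r := H30.refl (Qn F o) (Pi.single 0 1) with hr
  have rr : r * r = 1 := H30.refl_mul_self _ _
  have ri : r⁻¹ = r := H30.refl_inv _ _
  have hs : star ζ * ζ = 1 := by
    rw [mul_comm, ← algebraMap_norm_eq_mul_star, hb.2.1, map_one]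
  have h5 : ζ ^ 5 = 1 := hb.1 ▸ pow_orderOf_eq_one ζ
  have hp : ∀ a : ZMod 5, star (ζ ^ a.val) = ζ ^ (-a).val := fun a => by
    have e1 : star (ζ ^ a.val) * ζ ^ a.val = 1 := by rw [star_pow, ← mul_pow, hs, one_pow]
    have e2 : ζ ^ a.val * ζ ^ (-a).val = 1 := by
      have : ∀ a : ZMod 5, ∃ c < 2, a.val + (-a).val = 5 * c := by decide
      obtain ⟨c, -, hc⟩ := this a
      rw [← pow_add, hc, pow_mul, h5, one_pow]
    rw [← mul_one (star _), ← e2, ← mul_assoc, e1, one_mul]
  have hc : ∀ x : V, r * b (ofAdd x) * r = b (ofAdd (sg x)) := fun x => H30.O_ext fun y => by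
    funext i
    rw [H30.O_mul_apply, H30.O_mul_apply, hr, refl_e0, hb.2.2, refl_e0, hb.2.2, sg]
    split_ifs with h
    · rw [star_mul, star_neg, star_star, hp, neg_mul, neg_neg, mul_comm]
    · rfl
  have key : ∀ g ∈ ⨆ k, Cz b k, r * g * r⁻¹ ∈ ⨆ k, Cz b k := fun g hg => by
    have : (⨆ k, Cz b k) ≤ (⨆ k, Cz b k).comap (MulAut.conj r).toMonoidHom := iSup_le fun k g hg => by
      obtain ⟨k', hk⟩ := tab k
      refine Subgroup.mem_iSup_of_mem k' ?_
      rintro _ ⟨x, hx, rfl⟩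
      have := hg _ ⟨_, hk x hx, rfl⟩
      rw [← hc] at this
      change _ * (r * g * r⁻¹) = r * g * r⁻¹ * _
      rw [ri]
      calc b (ofAdd x) * (r * g * r) = (r * r) * b (ofAdd x) * (r * g * r) := by rw [rr, one_mul]
        _ = r * (r * b (ofAdd x) * r * g) * r := by simp only [mul_assoc]
        _ = r * g * r * b (ofAdd x) * (r * r) := by rw [this]; simp only [mul_assoc]
        _ = _ := by rw [rr, mul_one]
    exact this hg
  refine Subgroup.mem_normalizer_iff.2 fun g => ⟨key g, fun h => ?_⟩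
  have := key _ h
  rwa [ri, show r * (r * g * r) * r = (r * r) * g * (r * r) by simp only [mul_assoc], rr, one_mul,
    mul_one] at this

end Cfsg.Agent.H2O84X5
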