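import Mathlib
import Cfsg.Agent.H71.P3Defs

/-!
Permutation characters: injective intertwiners, orbits on pairs, rank three decomposition.
-/

set_option autoImplicit false

namespace Cfsg.Agent.H2P3

open Cfsg Cfsg.Agent.H11 Cfsg.Agent.H71.P3

theorem mono : MonoStmt := by
  intro G A B _ _ _ _ _ _ N hN hinj
  let T : (A → ℂ) →ₗ[ℂ] (B → ℂ) :=
    { toFun := fun f b => ∑ a, N a b * f a
      map_add' := fun f g => by
        ext b
        simp [mul_add, Finset.sum_add_distrib]
      map_smul' := fun c f => by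
        ext b
        simp [Finset.mul_sum, mul_left_comm] }
  have hT : ∀ f b, T f b = ∑ a, N a b * f a := fun _ _ => rfl
  have inj : Function.Injective T := by
    rw [injective_iff_map_eq_zero]
    intro f hf
    exact hinj f fun b => by rw [← hT, hf]; rfl
  have eqv : ∀ (g : G) f, T (permRep G A g f) = permRep G B g (T f) := by
    intro g f
    ext b
    rw [permRep_apply, hT, hT]
    refine (Fintype.sum_equiv (MulAction.toPerm g) _ _ fun a => ?_).symm
    rw [permRep_apply, MulAction.toPerm_apply, inv_smul_smul, ← hN g a, smul_inv_smul]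
  let W : Subrepresentation (permRep G B) :=
    { toSubmodule := LinearMap.range T
      apply_mem_toSubmodule := by
        rintro g _ ⟨f, rfl⟩
        exact ⟨_, eqv g f⟩ }
  obtain ⟨U, hU⟩ := exists_isCompl_subrepresentation (permRep G B) W
  have h1 := character_eq_add_of_isCompl (permRep G B) W U hU
  have h2 : W.toRepresentation.character = permChar G A := by
    ext g
    let e : (A → ℂ) ≃ₗ[ℂ] W.toSubmodule := LinearEquiv.ofInjective T inj
    have he : W.toRepresentation g = e.conj (permRep G A g) := by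
      ext1 w
      obtain ⟨f, rfl⟩ := e.surjective w
      rw [LinearEquiv.conj_apply_apply, e.symm_apply_apply]
      exact Subtype.ext (eqv g f).symm
    rw [permChar_apply, ← permRep_character, Representation.character, he, LinearMap.trace_conj']
    rfl
  have h3 : (permRep G B).character = permChar G B := funext (permRep_character B)
  rw [h2, h3] at h1
  rw [h1, add_sub_cancel_left]
  exact isCharacter_character _

theorem card_orb {G : Type} [Group G] (K : Subgroup G) (Y : Type) [MulAction G Y] :
    Nat.card (MulAction.orbitRel.Quotient G ((G ⧸ K) × Y)) =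
      Nat.card (MulAction.orbitRel.Quotient K Y) := by
  let f : MulAction.orbitRel.Quotient K Y → MulAction.orbitRel.Quotient G ((G ⧸ K) × Y) :=
    Quotient.lift (fun y => Quotient.mk _ (((1 : G) : G ⧸ K), y)) (by
      rintro y y' ⟨k, rfl⟩
      refine Quotient.sound ⟨(k : G), Prod.ext ?_ rfl⟩
      show (k : G) • ((1 : G) : G ⧸ K) = ((1 : G) : G ⧸ K)
      rw [MulAction.Quotient.smul_coe, QuotientGroup.eq]
      simp)
  refine (Nat.card_eq_of_bijective f ⟨fun a b => ?_, fun c => ?_⟩).symm
  · induction a using Quotient.inductionOn with | _ y => ?_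
    induction b using Quotient.inductionOn with | _ y' => ?_
    intro h
    obtain ⟨g, hg⟩ := Quotient.exact h
    have h1 : g • ((1 : G) : G ⧸ K) = ((1 : G) : G ⧸ K) := congrArg Prod.fst hg
    have h2 : g • y' = y := congrArg Prod.snd hg
    rw [MulAction.Quotient.smul_coe, QuotientGroup.eq] at h1
    have hk : g ∈ K := by simpa using h1
    exact Quotient.sound ⟨⟨g, hk⟩, h2⟩
  · induction c using Quotient.inductionOn with | _ c => ?_
    obtain ⟨x, y⟩ := c
    induction x using QuotientGroup.induction_on with | _ g => ?_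
    refine ⟨Quotient.mk _ (g⁻¹ • y), Quotient.sound ⟨g⁻¹, Prod.ext ?_ rfl⟩⟩
    show g⁻¹ • (g : G ⧸ K) = ((1 : G) : G ⧸ K)
    rw [MulAction.Quotient.smul_coe]
    simp

theorem dc_of_eq {G : Type} [Group G] (K : Subgroup G) (g a : G)
    (h : (Quotient.mk _ (g : G ⧸ K) : MulAction.orbitRel.Quotient K (G ⧸ K)) =
      Quotient.mk _ (a : G ⧸ K)) : ∃ h ∈ K, ∃ h' ∈ K, g = h * a * h' := by
  obtain ⟨k, hk⟩ := Quotient.exact h
  have h1 : (k : G) • (a : G ⧸ K) = (g : G ⧸ K) := hk
  rw [MulAction.Quotient.smul_coe, QuotientGroup.eq] at h1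
  exact ⟨k, k.2, _, h1, by simp [mul_assoc]⟩

theorem two_irr {G : Type} [Group G] [Fintype G] {θ : G → ℂ} (hθ : IsCharacter G θ)
    (h2 : classInner θ θ = 2) (h1 : classInner θ (fun _ => 1) = 0) :
    ∃ χ ψ : G → ℂ, IsIrrCharacter G χ ∧ IsIrrCharacter G ψ ∧ (χ ≠ fun _ => 1) ∧
      (ψ ≠ fun _ => 1) ∧ θ = χ + ψ := by
  have hne : θ ≠ 0 := fun h => by
    rw [h, classInner_zero_left] at h2
    norm_num at h2
  obtain ⟨χ, hχ, hc⟩ := exists_irr_constituent hθ hne
  have hψ := isCharacter_sub_irr hθ hχ hc
  obtain ⟨m, hm⟩ := exists_nat_classInner hθ (isCharacter_of_irr hχ)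
  obtain ⟨n, hn⟩ := exists_nat_classInner hψ hψ
  have hm0 : m ≠ 0 := fun h => hc (by rw [hm, h, Nat.cast_zero])
  have e : (n : ℂ) + 2 * m = 3 := by
    rw [← hn, classInner_sub_left, classInner_sub_right, classInner_sub_right, h2,
      classInner_irr_self hχ, classInner_comm_of_isCharacter (isCharacter_of_irr hχ) hθ, hm]
    ring
  have e' : n + 2 * m = 3 := by exact_mod_cast e
  have hn1 : n = 1 := by omega
  have hχ1 : χ ≠ fun _ => 1 := fun h => hc (by rw [h, h1])
  refine ⟨χ, θ - χ, hχ, isIrrCharacter_of_classInner_self hψ (by rw [hn, hn1, Nat.cast_one]), hχ1,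
    fun h => ?_, by abel⟩
  have h3 : classInner (θ - χ) (fun _ => 1) = 0 := by
    rw [classInner_sub_left, h1, classInner_irr_of_ne hχ isIrrCharacter_one hχ1, sub_zero]
  rw [h, classInner_one_one] at h3
  exact one_ne_zero h3

theorem dec : DecStmt := by
  intro G _ _ K
  classical
  refine ⟨fun Y _ _ => by rw [classInner_permChar_permChar, card_orb], fun h3 => ⟨?_, ?_⟩⟩
  · obtain ⟨χ, ψ, a, b, c, d, e⟩ := two_irr (isCharacter_permChar_sub_one (G := G) (G ⧸ K))
      (by rw [classInner_permChar_sub_one, (card_orb K (G ⧸ K)).trans h3]; norm_num)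
      (by rw [classInner_sub_left, classInner_permChar_one_of_isPretransitive, classInner_one_one,
        sub_self])
    exact ⟨χ, ψ, a, b, c, d, by rw [add_assoc, ← e]; abel⟩
  · have := Fintype.ofFinite (MulAction.orbitRel.Quotient K (G ⧸ K))
    let x0 : MulAction.orbitRel.Quotient K (G ⧸ K) := Quotient.mk _ ((1 : G) : G ⧸ K)
    have hc : (Finset.univ.erase x0).card = 2 := by
      rw [Finset.card_erase_of_mem (Finset.mem_univ _), Finset.card_univ,
        ← Nat.card_eq_fintype_card, h3]
    obtain ⟨x, y, -, hxy⟩ := Finset.card_eq_two.1 hc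
    induction x using Quotient.inductionOn with | _ x => ?_
    induction y using Quotient.inductionOn with | _ y => ?_
    induction x using QuotientGroup.induction_on with | _ a => ?_
    induction y using QuotientGroup.induction_on with | _ b => ?_
    refine ⟨a, b, fun g => ?_⟩
    by_cases h : (Quotient.mk _ (g : G ⧸ K) : MulAction.orbitRel.Quotient K (G ⧸ K)) = x0
    · obtain ⟨h, hh, h', hh', rfl⟩ := dc_of_eq K g 1 h
      exact Or.inl (mul_mem (mul_mem hh (one_mem _)) hh')
    · have hm := Finset.mem_erase.2 ⟨h, Finset.mem_univ _⟩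
      rw [hxy, Finset.mem_insert, Finset.mem_singleton] at hm
      exact Or.inr (hm.imp (dc_of_eq K g a) (dc_of_eq K g b))

end Cfsg.Agent.H2P3
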