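import Mathlib
import Cfsg.Agent.H87.PWDefs
import Cfsg.Agent.S4220

/-! Project PW: Miller's bound for degrees `5 ^ k`, `6 ^ k`; automorphisms of Hamming graphs. -/

set_option autoImplicit false
open Equiv

namespace Cfsg.Agent.H2.PWM
open Cfsg.Agent.H87.PW

theorem key {β : Type} [Fintype β] [DecidableEq β] (G : Subgroup (Perm β)) {t : ℕ}
    (hG : MulAction.IsMultiplyPretransitive G β t) (q p r : ℕ) (hp : p.Prime)
    (hn : Fintype.card β = q * p + r) (h1 : 1 ≤ q) (h2 : q < p) (h3 : q < r) (h4 : 3 ≤ r)
    (h5 : r + 1 ≤ t) (h6 : t ≤ Fintype.card β) : alternatingGroup β ≤ G :=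
  Cfsg.Agent.S4220.result G hp hn h1 h2 h3 (by omega)
    (MulAction.isMultiplyPretransitive_of_le (n := t) h5 (by rwa [Nat.card_eq_fintype_card]))

theorem mill : MillStmt := by
  intro β _ _ G m k hm hk hn hG
  by_cases h6 : k < 6
  · interval_cases k <;> rcases hm with rfl | rfl
    · exact key G hG 2 11 3 (by norm_num) hn (by decide) (by decide) (by decide) (by decide)
        (by decide) (by rw [hn]; decide)
    · exact key G hG 1 31 5 (by norm_num) hn (by decide) (by decide) (by decide) (by decide)
        (by decide) (by rw [hn]; decide)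
    · exact key G hG 2 61 3 (by norm_num) hn (by decide) (by decide) (by decide) (by decide)
        (by decide) (by rw [hn]; decide)
    · exact key G hG 1 211 5 (by norm_num) hn (by decide) (by decide) (by decide) (by decide)
        (by decide) (by rw [hn]; norm_num)
    · exact key G hG 1 619 6 (by norm_num) hn (by decide) (by norm_num) (by decide) (by decide)
        (by decide) (by rw [hn]; norm_num)
    · exact key G hG 1 1291 5 (by norm_num) hn (by decide) (by norm_num) (by decide) (by decide)
        (by decide) (by rw [hn]; norm_num)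
    · exact key G hG 1 3121 4 (by norm_num) hn (by decide) (by norm_num) (by decide) (by decide)
        (by norm_num) (by rw [hn]; norm_num)
    · exact key G hG 1 7759 17 (by norm_num) hn (by decide) (by norm_num) (by decide) (by decide)
        (by norm_num) (by rw [hn]; norm_num)
  have m5 : 5 ≤ m := by omega
  rw [if_neg (by omega)] at hG
  obtain ⟨p, hp, p1, p2⟩ := Nat.exists_prime_lt_and_le_two_mul (m ^ ((k + 1) / 2))
    (by positivity)
  have s1 : 4 * m ^ ((k + 1) / 2) ≤ m ^ (k - 2) :=
    calc 4 * m ^ ((k + 1) / 2) ≤ m * m ^ ((k + 1) / 2) := by gcongr; omega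
      _ = m ^ ((k + 1) / 2 + 1) := by ring
      _ ≤ m ^ (k - 2) := Nat.pow_le_pow_right (by omega) (by omega)
  have s2 : m ^ (k - 2) < m ^ k := Nat.pow_lt_pow_right (by omega) (by omega)
  have s3 : m ^ k ≤ m ^ ((k + 1) / 2) * m ^ ((k + 1) / 2) := by
    rw [← pow_add]; exact Nat.pow_le_pow_right (by omega) (by omega)
  have s4 : m ≤ m ^ ((k + 1) / 2) := Nat.le_self_pow (by omega) m
  have d1 : 2 ≤ m ^ k / p := (Nat.le_div_iff_mul_le hp.pos).2 (by omega)
  have d2 : m ^ k / p < p := (Nat.div_lt_iff_lt_mul hp.pos).2 (by nlinarith)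
  have d3 := Nat.mod_lt (m ^ k) hp.pos
  have d4 := Nat.div_add_mod (m ^ k) p
  refine key G hG (m ^ k / p - 1) p (m ^ k % p + p) hp ?_ (by omega) (by omega) (by omega)
    (by omega) (by omega) (by omega)
  obtain ⟨c, hc⟩ := Nat.exists_eq_add_of_le' (show 1 ≤ m ^ k / p by omega)
  rw [hn, hc, Nat.add_sub_cancel]
  rw [hc] at d4
  nlinarith

section aut
variable {ι α : Type} [DecidableEq ι] {g : Perm (ι → α)}

/-- `g` maps the line through `x` in direction `i` into a line of direction `j` -/
def L (g : Perm (ι → α)) (x : ι → α) (i j : ι) : Prop :=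
  ∀ v l, l ≠ j → g (Function.update x i v) l = g x l

theorem adj_up (x : ι → α) (i : ι) {v w : α} (h : v ≠ w) :
    Adj (Function.update x i v) (Function.update x i w) :=
  ⟨i, by simpa using h, fun j hj => by simp [Function.update_of_ne hj]⟩

theorem adj_up' (x : ι → α) (i : ι) {v : α} (h : v ≠ x i) : Adj x (Function.update x i v) := by
  simpa using adj_up x i h.symm

theorem L.ne {x : ι → α} {i j : ι} (h : L g x i j) {v : α} (hv : v ≠ x i) :
    g (Function.update x i v) j ≠ g x j := fun e => by
  have : g (Function.update x i v) = g x := funext fun l => by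
    by_cases hl : l = j
    · rw [hl, e]
    · exact h v l hl
  exact hv (by simpa using congrFun (g.injective this) i)

theorem L.self {x : ι → α} {i j : ι} (h : L g x i j) (w : α) :
    L g (Function.update x i w) i j := fun v l hl => by
  rw [Function.update_idem, h v l hl, h w l hl]

variable [Nontrivial α] (hg : ∀ x y, Adj x y ↔ Adj (g x) (g y))
include hg

theorem exL (x : ι → α) (i : ι) : ∃ j, L g x i j := by
  obtain ⟨v0, h0⟩ := exists_ne (x i)
  obtain ⟨j, j1, j2⟩ := (hg _ _).1 (adj_up' x i h0)
  refine ⟨j, fun v l hl => ?_⟩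
  by_cases hv : v = x i
  · rw [hv, Function.update_eq_self]
  by_cases hw : v = v0
  · rw [hw, j2 l hl]
  obtain ⟨k, k1, k2⟩ := (hg _ _).1 (adj_up' x i hv)
  by_cases e : k = j
  · rw [← k2 l (e ▸ hl)]
  exact absurd ((hg _ _).1 (adj_up x i hw)) (not_adj e
    (by rw [← j2 k e]; exact k1.symm) (by rw [← k2 j (Ne.symm e)]; exact j1))

theorem L.inj {x : ι → α} {i i' j : ι} (h : L g x i j) (h' : L g x i' j) : i = i' := by
  by_contra e
  obtain ⟨v, hv⟩ := exists_ne (x i)
  obtain ⟨w, hw⟩ := exists_ne (x i')
  have n1 : Function.update x i v i ≠ Function.update x i' w i := by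
    simpa [Function.update_of_ne e] using hv
  refine not_adj e n1 (by simpa [Function.update_of_ne (Ne.symm e)] using hw.symm)
    ((hg _ _).2 ⟨j, fun e' => n1 (congrFun (g.injective (funext fun l => ?_)) i),
      fun l hl => by rw [h v l hl, h' w l hl]⟩)
  by_cases hl : l = j
  · rw [hl, e']
  · rw [h v l hl, h' w l hl]

theorem L.up {x : ι → α} {i j : ι} (h : L g x i j) (l : ι) (w : α) :
    L g (Function.update x l w) i j := by
  by_cases e : l = i
  · rw [e]; exact h.self w
  by_cases hw : w = x l
  · rwa [hw, Function.update_eq_self]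
  obtain ⟨j', h'⟩ := exL hg (Function.update x l w) i
  obtain ⟨k, hk⟩ := exL hg x l
  by_cases ej : j' = j
  · exact ej ▸ h'
  exfalso
  have n1 : k ≠ j := fun e' => e (L.inj hg hk (e' ▸ h))
  have n2 : k ≠ j' := fun e' => e (L.inj hg (hk.self w) (e' ▸ h'))
  obtain ⟨v, hv⟩ := exists_ne (x i)
  have a : Adj (Function.update x i v) (Function.update (Function.update x l w) i v) := by
    rw [Function.update_comm e]
    exact adj_up' _ l (by rwa [Function.update_of_ne e])
  refine not_adj n1 ?_ ?_ ((hg _ _).1 a)
  · rw [h v k n1, h' v k n2]; exact (hk.ne hw).symm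
  · rw [h' v j (Ne.symm ej), hk w j n1.symm]; exact h.ne hv

end aut

theorem aut : AutStmt := by
  intro ι α _ _ _ _ hm g hg
  have : Nontrivial α := Fintype.one_lt_card_iff_nontrivial.1 (by omega)
  obtain ⟨a0, -⟩ := exists_pair_ne α
  choose p hp using exL hg (fun _ => a0)
  have all : ∀ x i, L g x i (p i) := fun x i =>
    conn (fun z => L g z i (p i)) Set.univ (fun z hz l _ w => hz.up hg l w) (hp i)
      (fun l hl => absurd trivial hl)
  have pi : Function.Injective p := fun i i' e => L.inj hg (hp i) (e ▸ hp i')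
  let π : Perm ι := Equiv.ofBijective p pi.bijective_of_finite
  have dep : ∀ (x y : ι → α) i, x i = y i → g y (p i) = g x (p i) := fun x y i e =>
    conn (fun z => g z (p i) = g x (p i)) {l | l ≠ i}
      (fun z hz l hl w => (all z l w _ (fun e' => hl (pi e').symm)).trans hz) rfl
      (fun l hl => by rw [not_not.1 hl]; exact e)
  have ti : ∀ i, Function.Injective (fun a : α => g (fun _ => a) (p i)) := fun i a b e => by
    by_contra hab
    refine (all (fun _ => a) i).ne (v := b) (Ne.symm hab) ?_
    rw [dep (fun _ => b) _ i (by simp)]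
    exact e.symm
  refine ⟨π, fun j => Equiv.ofBijective _ (ti (π.symm j)).bijective_of_finite, ?_⟩
  ext x j
  obtain ⟨i, rfl⟩ := π.surjective j
  rw [wr_apply']
  simp only [Equiv.symm_apply_apply, Equiv.ofBijective_apply]
  exact dep (fun _ => x i) x i rfl

end Cfsg.Agent.H2.PWM
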