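import Cfsg.Agent.H38.R3Cov

/-!
# Project R3, piece CB2
-/

set_option autoImplicit false
set_option linter.unusedSectionVars false

namespace Cfsg.Agent.H2R3

open Cfsg.Agent.H79.R3 Cfsg.Agent.H38.R3Cov Module
open scoped Pointwise

universe u

variable {F V : Type u} [Field F] [Finite F] [AddCommGroup V] [Module F V] [Finite V]

/-- `V` is not the union of `q + 1` subspaces of codimension at least two -/
theorem cover {l : Submodule F V} (hl : dm l = 2) (f : Submodule F V → Submodule F V)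
    (hf : ∀ a, dm a = 1 → a ≤ l → dm (f a) + 2 ≤ finrank F V)
    (h : ∀ v : V, ∃ a, dm a = 1 ∧ a ≤ l ∧ v ∈ f a) : False := by
  classical
  have := finSub (F := F) (V := V)
  have := Fintype.ofFinite V
  have hq := two_le_card F
  obtain ⟨m, hm⟩ : ∃ m, finrank F V = m + 2 := by
    obtain ⟨a, h1, h2, -⟩ := h 0
    exact ⟨finrank F V - 2, by have := hf a h1 h2; omega⟩
  have cv : ∀ a, a ∈ Cov ⊥ l ↔ dm a = 1 ∧ a ≤ l := fun a => by
    simp only [Cov, Set.mem_ofPred_eq, bot_le, true_and, finrank_bot, zero_add, and_comm]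
  have h1 : (Finset.univ : Finset V) ⊆ (Cov ⊥ l).toFinite.toFinset.biUnion
      fun a => (f a : Set V).toFinite.toFinset := fun v _ => by
    obtain ⟨a, a1, a2, a3⟩ := h v
    exact Finset.mem_biUnion.2 ⟨a, by simpa using (cv a).2 ⟨a1, a2⟩, by simpa using a3⟩
  have h2 := (Finset.card_le_card h1).trans (Finset.card_biUnion_le_card_mul _ _ (Nat.card F ^ m)
    fun a ha => by
      rw [← Set.ncard_eq_toFinset_card, ncard_sub]
      have ha := (cv a).1 (by simpa using ha)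
      exact Nat.pow_le_pow_right (by omega) (by have := hf a ha.1 ha.2; omega))
  rw [← Set.ncard_eq_toFinset_card, ncard_line bot_le (by rw [hl, dm, finrank_bot]),
    Finset.card_univ, ← Nat.card_eq_fintype_card, Module.natCard_eq_pow_finrank (K := F), hm,
    pow_add, mul_comm] at h2
  have := Nat.le_of_mul_le_mul_right h2 (Nat.pow_pos (by omega))
  nlinarith

theorem plane_vec {l : Submodule F V} (hl : dm l = 2) (hn : 3 ≤ finrank F V) (v : V) :
    ∃ E, l ≤ E ∧ dm E = 3 ∧ v ∈ E := by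
  by_cases hv : v ∈ l
  · obtain ⟨E, h1, -, h3⟩ := exists_between (le_top : l ≤ ⊤) (k := 3) (by omega)
      (by rw [dm, finrank_top]; exact hn)
    exact ⟨E, h1, h3, h1 hv⟩
  · exact ⟨l ⊔ F ∙ v, le_sup_left, by rw [dm_sup_span hv, hl],
      Submodule.mem_sup_right (Submodule.mem_span_singleton_self v)⟩

theorem le_of_pts {A B : Submodule F V} (h : ∀ b, dm b = 1 → b ≤ A → b ≤ B) : A ≤ B := by
  intro v hv
  by_cases h0 : v = 0
  · rw [h0]; exact B.zero_mem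
  · exact h _ (finrank_span_singleton h0) ((Submodule.span_singleton_le_iff_mem _ _).2 hv)
      (Submodule.mem_span_singleton_self v)

theorem dm_pts {a b : Submodule F V} (ha : dm a = 1) (hb : dm b = 1) (h : a ≠ b) :
    dm (a ⊔ b) = 2 := by
  have := dm_sup_of_ne (A := ⊥) bot_le (by rw [ha, dm, finrank_bot]) bot_le
    (by rw [hb, dm, finrank_bot]) h
  rwa [dm, dm, finrank_bot] at this

theorem dm_pt_sup {a B : Submodule F V} (ha : dm a = 1) (h : ¬ a ≤ B) : dm (a ⊔ B) = dm B + 1 :=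
  dm_sup_of_not_le (A := ⊥) bot_le (by rw [ha, dm, finrank_bot]) bot_le h

variable {K : Subgroup (V ≃ₗ[F] V)} {t : Submodule F V → Prop}
  {W : Submodule F V → Submodule F V} {k : ℕ}

theorem W_symm (h : Bd K t W k) {a b : Submodule F V} (ha : dm a = 1) (hb : dm b = 1)
    (e : b ≤ W a) : a ≤ W b := by
  by_cases c : a = b
  · exact c ▸ h.le a ha
  · have hl := dm_pts ha hb c
    exact le_sup_left.trans ((h.mem b _ hb hl le_sup_right).1
      ((h.mem a _ ha hl le_sup_left).2 (sup_le (h.le a ha) e)))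

theorem W_smul (h : Bd K t W k) {g : V ≃ₗ[F] V} (hg : g ∈ K) {a : Submodule F V}
    (ha : dm a = 1) : g • W a = W (g • a) := by
  have ha' : dm (g • a) = 1 := by rw [dm_smul, ha]
  refine eq_of_dm ?_ (by rw [dm_smul, h.dim a ha, h.dim _ ha'])
  refine le_of_pts fun b hb e => ?_
  obtain ⟨b, rfl⟩ := MulAction.surjective g b
  beta_reduce at e ⊢
  rw [dm_smul] at hb
  rw [H79.R3.smul_le_smul] at e
  by_cases c : a = b
  · exact c ▸ h.le _ ha'
  · have hl := dm_pts ha hb c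
    exact (H79.R3.smul_le_smul.2 le_sup_right).trans ((h.mem _ _ ha' (by rw [dm_smul, hl])
      (H79.R3.smul_le_smul.2 le_sup_left)).1 ((h.inv g hg _ hl).2
        ((h.mem a _ ha hl le_sup_left).2 (sup_le (h.le a ha) e))))

/-- the plane `E` has a point of type `i` -/
def Ty (W : Submodule F V → Submodule F V) (i : ℕ) (E : Submodule F V) : Prop :=
  ∃ a, dm a = 1 ∧ a ≤ E ∧ dm (E ⊓ W a) = i

theorem Ty.smul (h : Bd K t W k) {g : V ≃ₗ[F] V} (hg : g ∈ K) {i : ℕ} {E : Submodule F V}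
    (e : Ty W i E) : Ty W i (g • E) := by
  obtain ⟨a, a1, a2, a3⟩ := e
  exact ⟨g • a, by rw [dm_smul, a1], H79.R3.smul_le_smul.2 a2, by
    rw [← W_smul h hg a1, ← smul_inf, dm_smul, a3]⟩

theorem exists_types (h : Bd K t W k) (h2 : 2 ≤ k) (hn : k + 3 ≤ finrank F V) :
    ∃ x, dm x = 1 ∧ ∀ i, 1 ≤ i → i ≤ 3 → ∃ E, x ≤ E ∧ dm E = 3 ∧ dm (E ⊓ W x) = i := by
  have dt : dm (⊤ : Submodule F V) = finrank F V := finrank_top F V
  obtain ⟨x, -, -, hx⟩ := exists_between (bot_le : (⊥ : Submodule F V) ≤ ⊤) (k := 1)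
    (by rw [dm, finrank_bot]; omega) (by omega)
  have hW := h.dim x hx
  refine ⟨x, hx, fun i i1 i3 => ?_⟩
  interval_cases i
  · obtain ⟨L, ⟨l1, -, l2⟩, l3⟩ := exists_cov_not (le_top : x ≤ ⊤) (h.le x hx) (by omega)
    have e1 := inf_eq_of_not_le l1 l2 (h.le x hx) l3
    have e2 := dm_sup_of_not_le l1 l2 (h.le x hx) l3
    obtain ⟨E, ⟨m1, -, m2⟩, m3⟩ := exists_cov_not (le_top : L ≤ ⊤)
      (le_sup_left : L ≤ L ⊔ W x) (by omega)
    have e3 := inf_eq_of_not_le m1 m2 le_sup_left m3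
    refine ⟨E, l1.trans m1, by omega, ?_⟩
    rw [← inf_eq_right.2 (le_sup_right : W x ≤ L ⊔ W x), ← inf_assoc, e3, e1, hx]
  · obtain ⟨L, l1, l2, l3⟩ := exists_between (h.le x hx) (k := 2) (by omega) (by omega)
    obtain ⟨E, ⟨m1, -, m2⟩, m3⟩ := exists_cov_not (le_top : L ≤ ⊤) l2 (by omega)
    exact ⟨E, l1.trans m1, by omega, by rw [inf_eq_of_not_le m1 m2 l2 m3, l3]⟩
  · obtain ⟨E, l1, l2, l3⟩ := exists_between (h.le x hx) (k := 3) (by omega) (by omega)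
    exact ⟨E, l1, l3, by rw [inf_eq_left.2 l2, l3]⟩

theorem transfer (h : Bd K t W k) (h2 : 2 ≤ k) (hn : k + 3 ≤ finrank F V) (ho : Orb2 K 1 3 3)
    {E E' : Submodule F V} (e : dm E = 3) (e' : dm E' = 3) {i j : ℕ} (hi : Ty W i E)
    (hi' : Ty W i E') (hj : Ty W j E) : Ty W j E' := by
  obtain ⟨c, -, hc⟩ := ho
  have inv : ∀ a E a' E', a ≤ E → dm a = 1 → dm E = 3 → a' ≤ E' → dm a' = 1 → dm E' = 3 →
      c a E = c a' E' → dm (E ⊓ W a) = dm (E' ⊓ W a') := fun a E a' E' l a1 e l' a1' e' q => by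
    obtain ⟨g, hg, rfl, rfl⟩ := (hc a E a' E' l a1 e l' a1' e').1 q
    rw [← W_smul h hg a1, ← smul_inf, dm_smul]
  obtain ⟨x, hx, hE⟩ := exists_types h h2 hn
  obtain ⟨E1, l1, d1, t1⟩ := hE 1 le_rfl (by omega)
  obtain ⟨E2, l2, d2, t2⟩ := hE 2 (by omega) (by omega)
  obtain ⟨E3, l3, d3, t3⟩ := hE 3 (by omega) le_rfl
  have n12 : c x E1 ≠ c x E2 := fun q => by have := inv _ _ _ _ l1 hx d1 l2 hx d2 q; omega
  have n13 : c x E1 ≠ c x E3 := fun q => by have := inv _ _ _ _ l1 hx d1 l3 hx d3 q; omega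
  have n23 : c x E2 ≠ c x E3 := fun q => by have := inv _ _ _ _ l2 hx d2 l3 hx d3 q; omega
  have all : ∀ a b c d : Fin 3, a ≠ b → a ≠ c → b ≠ c → d = a ∨ d = b ∨ d = c := by decide
  obtain ⟨a, a1, a2, a3⟩ := hi
  obtain ⟨b, b1, b2, b3⟩ := hi'
  have q : c a E = c b E' := by
    have i1 := inv _ _ _ _ a2 a1 e l1 hx d1
    have i2 := inv _ _ _ _ a2 a1 e l2 hx d2
    have i3 := inv _ _ _ _ a2 a1 e l3 hx d3
    have j1 := inv _ _ _ _ b2 b1 e' l1 hx d1
    have j2 := inv _ _ _ _ b2 b1 e' l2 hx d2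
    have j3 := inv _ _ _ _ b2 b1 e' l3 hx d3
    rcases all _ _ _ (c a E) n12 n13 n23 with p | p | p <;>
      rcases all _ _ _ (c b E') n12 n13 n23 with q | q | q <;>
      first
        | exact p.trans q.symm
        | (exfalso; simp only [p, q, forall_true_left] at i1 i2 i3 j1 j2 j3; omega)
  obtain ⟨g, hg, -, rfl⟩ := (hc a E b E' a2 a1 e b2 b1 e').1 q
  exact hj.smul h hg

theorem full {E B : Submodule F V} (e : dm E = 3) (h : dm (E ⊓ B) = 3) : E ≤ B :=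
  inf_eq_left.1 (eq_of_dm inf_le_left (by omega))

theorem tline (h : Bd K t W k) {E a : Submodule F V} (a1 : dm a = 1) (a2 : a ≤ E)
    (a3 : dm (E ⊓ W a) = 2) : t (E ⊓ W a) :=
  (h.mem a _ a1 a3 (le_inf a2 (h.le a a1))).2 inf_le_right

theorem caseP (h : Bd K t W k) (h2 : 2 ≤ k) (hn : k + 3 ≤ finrank F V) (ho : Orb2 K 1 3 3)
    {S : Submodule F V} (hS : dm S = 3) (s2 : Ty W 2 S) (s3 : Ty W 3 S) : False := by
  obtain ⟨y, y1, y2, y3⟩ := id s2
  have tl := tline h y1 y2 y3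
  have yl : y ≤ S ⊓ W y := le_inf y2 (h.le y y1)
  generalize S ⊓ W y = l at y3 tl yl
  refine cover y3 W (fun a a1 _ => by rw [h.dim a a1]; omega) fun v => ?_
  obtain ⟨E, l1, e, hv⟩ := plane_vec y3 (by omega) v
  have lW := (h.mem y l y1 y3 yl).1 tl
  have d1 := dm_mono (le_inf l1 lW)
  have d2 := dm_mono (inf_le_left : E ⊓ W y ≤ E)
  have both : Ty W 2 E ∧ Ty W 3 E := by
    by_cases c : dm (E ⊓ W y) = 2
    · exact ⟨⟨y, y1, yl.trans l1, c⟩, transfer h h2 hn ho hS e s2 ⟨y, y1, yl.trans l1, c⟩ s3⟩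
    · have c : dm (E ⊓ W y) = 3 := by omega
      exact ⟨transfer h h2 hn ho hS e s3 ⟨y, y1, yl.trans l1, c⟩ s2, y, y1, yl.trans l1, c⟩
  obtain ⟨⟨x, x1, x2, x3⟩, a, a1, a2, a3⟩ := both
  have fa := full e a3
  refine ⟨a, a1, ?_, fa hv⟩
  by_contra n
  have eE : a ⊔ l = E := eq_of_dm (sup_le a2 l1) (by rw [dm_pt_sup a1 n]; omega)
  have : E ≤ W x := by
    rw [← eE]
    refine sup_le (W_symm h a1 x1 (x2.trans fa)) (le_of_pts fun b b1 b2 => ?_)
    refine W_symm h b1 x1 (x2.trans (eE ▸ sup_le ?_ ((h.mem b l b1 y3 b2).1 tl)))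
    exact W_symm h a1 b1 ((b2.trans l1).trans fa)
  rw [inf_eq_left.2 this] at x3
  omega

theorem caseQ (h : Bd K t W k) (h2 : 2 ≤ k) (hn : k + 3 ≤ finrank F V) (ho : Orb2 K 1 3 3)
    {S : Submodule F V} (hS : dm S = 3) (s2 : Ty W 2 S) (s3 : ¬ Ty W 3 S) : False := by
  have dt : dm (⊤ : Submodule F V) = finrank F V := finrank_top F V
  have rng : ∀ a E : Submodule F V, dm a = 1 → a ≤ E → dm E = 3 →
      1 ≤ dm (E ⊓ W a) ∧ dm (E ⊓ W a) ≤ 3 := fun a E a1 a2 e =>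
    ⟨a1 ▸ dm_mono (le_inf a2 (h.le a a1)), e ▸ dm_mono inf_le_left⟩
  have s1 : Ty W 1 S := by
    obtain ⟨u, u1, u2, u3⟩ := s2
    obtain ⟨b, ⟨-, b2, b1⟩, b3⟩ := exists_cov_not (bot_le : ⊥ ≤ S) (bot_le : ⊥ ≤ S ⊓ W u)
      (by omega)
    rw [dm, dm, finrank_bot] at b1
    refine ⟨b, b1, b2, ?_⟩
    by_contra n
    have n3 : dm (S ⊓ W b) ≠ 3 := fun e => s3 ⟨b, b1, b2, e⟩
    have b4 : dm (S ⊓ W b) = 2 := by have := rng b S b1 b2 hS; omega
    have ne : S ⊓ W u ≠ S ⊓ W b := fun e => b3 (e ▸ le_inf b2 (h.le b b1))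
    have d := dm_inf_of_ne inf_le_left inf_le_left (by omega) (by omega) ne
    have d' := dm_sup_inf (S ⊓ W u) (S ⊓ W b)
    have a1 : dm (S ⊓ W u ⊓ (S ⊓ W b)) = 1 := by omega
    refine s3 ⟨_, a1, inf_le_left.trans inf_le_left, ?_⟩
    have := dm_mono (le_inf (sup_le inf_le_left inf_le_left) (sup_le
      ((h.mem _ _ a1 u3 inf_le_left).1 (tline h u1 u2 u3))
      ((h.mem _ _ a1 b4 inf_le_right).1 (tline h b1 b2 b4))))
    have := (rng _ S a1 (inf_le_left.trans inf_le_left) hS).2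
    omega
  obtain ⟨x, x1, -⟩ := id s2
  have hW := h.dim x x1
  obtain ⟨y, ⟨-, -, y1⟩, y2⟩ := exists_cov_not (bot_le : ⊥ ≤ ⊤) (bot_le : ⊥ ≤ W x) (by omega)
  rw [dm, dm, finrank_bot] at y1
  have hl := dm_pts x1 y1 fun e => y2 (e ▸ h.le x x1)
  have nl : ¬ x ⊔ y ≤ W x := fun e => y2 (le_sup_right.trans e)
  have n1 : finrank F V ≤ k + 3 := by
    by_contra n
    refine cover hl (fun a => (x ⊔ y) ⊔ W a) (fun a a1 a2 => ?_) fun v => ?_
    · have := dm_sup_inf (x ⊔ y) (W a)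
      have := dm_mono (le_inf a2 (h.le a a1))
      have := h.dim a a1
      omega
    obtain ⟨E, l1, e, hv⟩ := plane_vec hl (by omega) v
    have xE := le_sup_left.trans l1
    have : Ty W 2 E := by
      by_cases c : dm (E ⊓ W x) = 2
      · exact ⟨x, x1, xE, c⟩
      · have : dm (E ⊓ W x) ≠ 3 := fun c => nl (l1.trans (full e c))
        exact transfer h h2 hn ho hS e s1 ⟨x, x1, xE, by have := rng x E x1 xE e; omega⟩ s2
    obtain ⟨u, u1, u2, u3⟩ := this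
    have tm := tline h u1 u2 u3
    have ne : x ⊔ y ≠ E ⊓ W u := fun c => nl ((h.mem x _ x1 hl le_sup_left).1 (c ▸ tm))
    have d := dm_inf_of_ne l1 inf_le_left (by omega) (by omega) ne
    have d' := dm_sup_inf (x ⊔ y) (E ⊓ W u)
    have a1 : dm ((x ⊔ y) ⊓ (E ⊓ W u)) = 1 := by omega
    refine ⟨_, a1, inf_le_left, ?_⟩
    rw [← eq_of_dm (sup_le l1 (inf_le_left : E ⊓ W u ≤ E)) (by omega)] at hv
    exact sup_le_sup_left ((h.mem _ _ a1 u3 inf_le_right).1 tm) _ hv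
  have n2 : W x ⊓ W y ≤ ⊥ := by
    refine le_of_pts fun z z1 z2 => ?_
    exfalso
    have xz := W_symm h x1 z1 (z2.trans inf_le_left)
    have yz := W_symm h y1 z1 (z2.trans inf_le_right)
    have zx : x ≠ z := fun c => y2 (c ▸ yz)
    have hl' := dm_pts x1 z1 zx
    have lx : x ⊔ z ≤ W x := sup_le (h.le x x1) (z2.trans inf_le_left)
    have nz : ¬ z ≤ x ⊔ y := fun c =>
      nl (eq_of_dm (sup_le le_sup_left c) (by omega) ▸ lx)
    have e : dm (z ⊔ (x ⊔ y)) = 3 := by rw [dm_pt_sup z1 nz, hl]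
    have xE : x ≤ z ⊔ (x ⊔ y) := le_sup_left.trans le_sup_right
    have d := dm_mono (le_inf (sup_le xE le_sup_left) lx)
    have := rng x _ x1 xE e
    have : dm ((z ⊔ (x ⊔ y)) ⊓ W x) ≠ 3 := fun c => nl (le_sup_right.trans (full e c))
    exact s3 (transfer h h2 hn ho e hS ⟨x, x1, xE, by omega⟩ s2
      ⟨z, z1, le_sup_left, by rw [inf_eq_left.2 (sup_le (h.le z z1) (sup_le xz yz)), e]⟩)
  have := dm_sup_inf (W x) (W y)
  have := dm_mono (le_top : W x ⊔ W y ≤ ⊤)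
  have := h.dim y y1
  have := dm_mono n2
  have : dm (⊥ : Submodule F V) = 0 := finrank_bot F V
  omega

theorem cb2 : Cb2Stmt.{u} := by
  intro F V _ _ _ _ _ K t W k h h2 hn ho
  obtain ⟨x, hx, hE⟩ := exists_types h h2 hn
  obtain ⟨S, l, d, e⟩ := hE 2 (by omega) (by omega)
  by_cases c : Ty W 3 S
  · exact caseP h h2 hn ho d ⟨x, hx, l, e⟩ c
  · exact caseQ h h2 hn ho d ⟨x, hx, l, e⟩ c

end Cfsg.Agent.H2R3
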