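import Cfsg.Agent.H79.R3Defs
import Cfsg.Agent.H26.SLBasic
import Cfsg.Agent.H8.SylowIn

/-!
# Project R3, piece SYL
-/

set_option autoImplicit false

namespace Cfsg.Agent.H2R3S

open Cfsg.Agent.H79.R3 Module Matrix
open scoped Pointwise

universe u w

section geo

variable {F V : Type u} [Field F] [AddCommGroup V] [Module F V] {K : Subgroup (V ≃ₗ[F] V)}

theorem tv_conj {g : V ≃ₗ[F] V} (hg : g ∈ K) {x : V} (h : ∀ φ, φ x = 0 → Tv K x φ) :
    ∀ φ, φ (g x) = 0 → Tv K (g x) φ := by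
  intro φ hφ
  obtain ⟨t, ht, e⟩ := h (φ.comp (g : V →ₗ[F] V)) hφ
  refine ⟨g * t * g⁻¹, mul_mem (mul_mem hg ht) (inv_mem hg), fun v => ?_⟩
  simp [e]

theorem tv_smul (c : F) {x : V} (h : ∀ φ, φ x = 0 → Tv K x φ) :
    ∀ φ, φ (c • x) = 0 → Tv K (c • x) φ := by
  intro φ hφ
  by_cases hc : c = 0
  · exact ⟨1, one_mem _, fun v => by simp [hc]⟩
  · rw [map_smul, smul_eq_mul, mul_eq_zero] at hφ
    obtain ⟨t, ht, e⟩ := h (c • φ) (by simp [hφ.resolve_left hc])
    exact ⟨t, ht, fun v => by simp [e, smul_smul, mul_comm]⟩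

/-- the centres of full groups of transvections -/
def ctr (K : Subgroup (V ≃ₗ[F] V)) : Submodule F V where
  carrier := {x | ∀ φ : V →ₗ[F] F, φ x = 0 → Tv K x φ}
  zero_mem' _ _ := ⟨1, one_mem _, fun v => by simp⟩
  smul_mem' c _ h := tv_smul c h
  add_mem' {x y} hx hy := by
    by_cases c : y ∈ F ∙ x
    · obtain ⟨a, rfl⟩ := Submodule.mem_span_singleton.1 c
      have := tv_smul (1 + a) hx
      rwa [add_smul, one_smul] at this
    · obtain ⟨f, h1, h2⟩ := Submodule.exists_le_ker_of_notMem c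
      have h3 : f x = 0 := h2 (Submodule.mem_span_singleton_self x)
      obtain ⟨g, hg, e⟩ := hx ((f y)⁻¹ • f) (by simp [h3])
      have := tv_conj hg hy
      rwa [e, LinearMap.smul_apply, smul_eq_mul, inv_mul_cancel₀ h1, one_smul, add_comm] at this

end geo

variable {n : ℕ} {F : Type u} [Field F]

theorem sl_ext' {g h : SpecialLinearGroup (Fin n) F} (e : ∀ v, g.1 *ᵥ v = h.1 *ᵥ v) : g = h :=
  Subtype.ext (Matrix.ext_iff_mulVec.2 e)

theorem full : FullStmt.{u} := by
  intro n F _ K h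
  refine H26.sl_eq_top_of_transvection_mem K fun i j hij c => ?_
  obtain ⟨_, ⟨k, hk, rfl⟩, e⟩ := h (Pi.single i 1) (c • LinearMap.proj j) (by simp [hij.symm])
  refine sl_ext' (g := k) (h := SpecialLinearGroup.transvection hij c) (fun v => ?_) ▸ hk
  rw [← slin_apply, e, SpecialLinearGroup.transvection_coe, add_mulVec, one_mulVec, single_mulVec]
  ext l
  by_cases hl : l = i <;> simp [hl]

theorem exists_sl {w : Fin n → F} {φ : (Fin n → F) →ₗ[F] F} (h : φ w = 0) :
    ∃ g : SpecialLinearGroup (Fin n) F, ∀ v, g.1 *ᵥ v = v + φ v • w :=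
  ⟨⟨LinearMap.toMatrix' (LinearMap.transvection φ w), by
    rw [LinearMap.det_toMatrix', LinearMap.transvection.det, h, add_zero]⟩, fun v => by
    rw [← toLin'_apply, toLin'_toMatrix', LinearMap.transvection.apply]⟩

/-- the transvections with centre `x` -/
def Tx (x : Fin n → F) : Subgroup (SpecialLinearGroup (Fin n) F) where
  carrier := {g | ∃ φ : (Fin n → F) →ₗ[F] F, φ x = 0 ∧ ∀ v, slin n F g v = v + φ v • x}
  one_mem' := ⟨0, rfl, fun v => by simp⟩
  mul_mem' := by
    rintro a b ⟨φ, h1, h2⟩ ⟨ψ, k1, k2⟩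
    refine ⟨φ + ψ, by simp [h1, k1], fun v => ?_⟩
    rw [map_mul, LinearEquiv.mul_apply, k2, h2]
    simp only [map_add, map_smul, h1, smul_zero, add_zero, LinearMap.add_apply, add_smul]
    abel
  inv_mem' := by
    rintro a ⟨φ, h1, h2⟩
    refine ⟨-φ, by simp [h1], fun v => ?_⟩
    apply (slin n F a).injective
    rw [← LinearEquiv.mul_apply, ← map_mul, mul_inv_cancel, map_one, h2]
    simp [h1]

theorem Tx_pow {x : Fin n → F} {g : SpecialLinearGroup (Fin n) F} {φ : (Fin n → F) →ₗ[F] F}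
    (h1 : φ x = 0) (h2 : ∀ v, slin n F g v = v + φ v • x) (m : ℕ) (v : Fin n → F) :
    slin n F (g ^ m) v = v + ((m : F) * φ v) • x := by
  induction m with
  | zero => simp
  | succ m ih =>
    rw [pow_succ', map_mul, LinearEquiv.mul_apply, ih, h2]
    simp only [map_add, map_smul, h1, smul_zero, add_zero, Nat.cast_succ, add_mul, one_mul,
      add_smul, add_assoc]

theorem syl : SylStmt.{u} := by
  intro n F _ _ K hn hK
  have hp : Fact (ringChar F).Prime := ⟨CharP.char_is_prime F _⟩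
  let x : Fin n → F := Pi.single ⟨0, hn⟩ 1
  have hx : x ≠ 0 := fun e => by simpa [x] using congrFun e ⟨0, hn⟩
  have hT : IsPGroup (ringChar F) (Tx x) := by
    rintro ⟨g, φ, h1, h2⟩
    refine ⟨1, Subtype.ext (sl_ext' fun v => ?_)⟩
    have := Tx_pow h1 h2 (ringChar F) v
    rw [ringChar.Nat.cast_ringChar, zero_mul, zero_smul, add_zero] at this
    rw [pow_one]
    exact this.trans (one_mulVec v).symm
  obtain ⟨S, hS⟩ := H8.exists_isSylowIn (ringChar F) K
  obtain ⟨h, -, hh⟩ := (hS.trans_of_not_dvd le_top (by simpa using hK)).exists_conj_le hT le_top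
  have hC : slin n F h x ∈ ctr (K.map (slin n F)) := by
    intro φ hφ
    obtain ⟨t, ht⟩ := exists_sl (φ := φ.comp (slin n F h).toLinearMap) (w := x) hφ
    refine ⟨_, ⟨h * t * h⁻¹, hS.le (hh (H8.conj_mem_conj_smul.2 ⟨_, hφ, ht⟩)), rfl⟩, fun v => ?_⟩
    rw [map_mul, map_mul, map_inv, LinearEquiv.mul_apply, LinearEquiv.mul_apply, slin_apply t, ht]
    simp
  by_cases c : ctr (K.map (slin n F)) = ⊤
  · exact Or.inr (full n F K fun w => c.ge (Submodule.mem_top (x := w)))
  · refine Or.inl ⟨_, fun e => hx ?_, c, fun g hg => ?_⟩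
    · rw [e, Submodule.mem_bot] at hC
      simpa using hC
    · refine Submodule.eq_of_le_of_finrank_eq ?_ (dm_smul g _)
      rintro _ ⟨v, hv, rfl⟩
      exact tv_conj hg hv

theorem isSc_iff {g : SpecialLinearGroup (Fin n) F} :
    IsSc (slin n F g) ↔ g ∈ Subgroup.center (SpecialLinearGroup (Fin n) F) := by
  constructor
  · rintro ⟨c, h⟩
    refine Subgroup.mem_center_iff.2 fun k => sl_ext' fun v => ?_
    have h : ∀ v, g.1 *ᵥ v = c • v := h
    rw [Matrix.SpecialLinearGroup.coe_mul, Matrix.SpecialLinearGroup.coe_mul, ← mulVec_mulVec, ← mulVec_mulVec, h,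
      h, mulVec_smul]
  · intro h
    obtain ⟨r, -, e⟩ := Matrix.SpecialLinearGroup.mem_center_iff.1 h
    exact ⟨r, fun v => by rw [slin_apply, ← e, scalar_apply, ← smul_one_eq_diagonal, smul_mulVec,
      one_mulVec]⟩

theorem exists_even {K X : Type*} [Group K] [MulAction K X] [Finite X]
    (h3 : Nat.card (MulAction.orbitRel.Quotient K X) = 3) (he : Even (Nat.card X)) :
    ∃ y : X, Even (MulAction.stabilizer K y).index := by
  classical
  by_contra k
  have := Fintype.ofFinite (MulAction.orbitRel.Quotient K X)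
  rw [Nat.card_congr (MulAction.selfEquivSigmaOrbits K X), Nat.card_sigma,
    ← Nat.not_odd_iff_even, Finset.odd_sum_iff_odd_card_odd, Finset.filter_true_of_mem,
    Finset.card_univ, ← Nat.card_eq_fintype_card, h3] at he
  · exact he (by decide)
  · intro o _
    rw [← Nat.not_even_iff_odd, Nat.card_coe_set_eq, ← MulAction.index_stabilizer]
    exact fun e => k ⟨_, e⟩

theorem ev2 : Ev2Stmt.{u, w} := by
  intro n F _ _ X _ _ x hZ h3 he
  obtain ⟨y, hy⟩ := exists_even h3 he
  set K := MulAction.stabilizer (SpecialLinearGroup (Fin n) F) x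
  have h2 : 2 ∣ Nat.card (K ⧸ (Subgroup.center _).subgroupOf K) :=
    (even_iff_two_dvd.1 hy).trans (Subgroup.index_dvd_of_le fun z hz => hZ _ hz y)
  obtain ⟨g, hg⟩ := exists_prime_orderOf_dvd_card' 2 h2
  obtain ⟨g, rfl⟩ := QuotientGroup.mk_surjective g
  refine ⟨_, ⟨g, g.2, rfl⟩, fun e => ?_, ?_⟩
  · rw [(QuotientGroup.eq_one_iff g).2 (isSc_iff.1 e), orderOf_one] at hg
    omega
  · have := pow_orderOf_eq_one (g : K ⧸ (Subgroup.center _).subgroupOf K)
    rw [hg, sq, ← QuotientGroup.mk_mul, QuotientGroup.eq_one_iff] at this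
    rw [← map_mul]
    exact isSc_iff.2 this

end Cfsg.Agent.H2R3S
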