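import Cfsg.Agent.H79.SqDefs
import Cfsg.Agent.H58.Conj

/-! Project SQ, piece MERS. -/

set_option autoImplicit false

namespace Cfsg.Agent.H2.SqM

open MulAction Subgroup Cfsg Cfsg.Agent.H58 Cfsg.Agent.H79.Sq

universe w

theorem mers : MersStmt.{w} := by
  intro G _ _ p hp P m D h hε hz h1 h2 h3
  classical
  have := D.simple
  have p5 := D.five_le
  have hpe : p = 2 * m + 1 := D.hpe
  have hG : Nat.card G = p * ((p + 1) * (p + 2)) := by
    rw [D.card_G h, hpe]; ring
  obtain ⟨χ, hχ⟩ := Finset.card_eq_one.1 h3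
  obtain ⟨c1, c2⟩ := D.mem_A2.1 (hχ ▸ Finset.mem_singleton_self χ)
  rw [one_mul] at c2
  obtain ⟨c3, -, c4⟩ := D.mem_A.1 c1
  have h4 : D.B1 = ∅ := Finset.card_eq_zero.1 (by
    have := D.count; rw [h1, h2, h3, Finset.card_empty] at this; omega)
  obtain ⟨θ, hθ⟩ : D.Y.Nonempty := Finset.card_pos.1 (D.cardY.symm ▸ D.t_pos)
  have cf := H11.isClassFunction_of_isCharacter (H11.irr_isCharacter χ)
  have v0 : χ.1 1 = (p + 1 : ℕ) := by rw [← H21.cast_deg, c2]
  have v1 : ∀ g : G, p ∣ orderOf g → χ.1 g = 1 := fun g hg =>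
    h.eq_of_dvd P cf (fun x hx x1 => by rw [D.valX' c3 hx x1, c4, Int.cast_one]) hg
  have v2 : ∀ (g : G) (r : ℕ), r.Prime → r ∣ orderOf g → r ∣ p + 1 → χ.1 g = 0 :=
    fun g r hr a b => vanish_of_not_dvd χ hr (c := p * (p + 2)) (by rw [hG, c2]; ring) (fun d => by
      rcases hr.dvd_mul.1 d with d | d
      · exact hr.not_dvd_one ((Nat.dvd_add_right d).1 b)
      · exact hr.not_dvd_one ((Nat.dvd_add_right b).1 d)) a
  have v3 : ∀ (g : G) (r : ℕ), r.Prime → r ∣ orderOf g → r ∣ p + 2 → χ.1 g = -1 :=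
    fun g r hr a b => by
      have np : ¬ r ∣ p := fun d => by
        have e := (Nat.prime_dvd_prime_iff_eq hr hp.out).1 d
        have := Nat.le_of_dvd two_pos ((Nat.dvd_add_right d).1 b)
        omega
      have e := D.rel4 hθ (g := g) fun d => np (h.orderOf_eq d ▸ a)
      rw [vanish_of_not_dvd θ hr (c := p * (p + 1)) (by rw [hG, D.degY θ hθ, hz]; ring) (fun d => by
        rcases hr.dvd_mul.1 d with d | d
        · exact np d
        · exact hr.not_dvd_one ((Nat.dvd_add_right d).1 b)) a, h1, h2, h4, hχ] at e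
      simp only [Finset.sum_empty, Finset.sum_singleton] at e
      linear_combination -e
  have tri : ∀ (g : G) (r : ℕ), r.Prime → r ∣ orderOf g → r = p ∨ r ∣ p + 1 ∨ r ∣ p + 2 :=
    fun g r hr a => by
      have := a.trans (orderOf_dvd_natCard g)
      rwa [hG, hr.dvd_mul, hr.dvd_mul, Nat.prime_dvd_prime_iff_eq hr hp.out] at this
  have ex : ∀ g : G, g ≠ 1 → ∃ r : ℕ, r.Prime ∧ r ∣ orderOf g := fun g hg =>
    Nat.exists_prime_and_dvd fun e => hg (orderOf_eq_one_iff.1 e)
  have n0 : χ.1 1 ≠ 0 := by rw [v0]; exact_mod_cast Nat.succ_ne_zero p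
  have hZ : {g : G | χ.1 g = 0}.ncard = p * (p + 2) := by
    have e := H12.sum_normSq_irr χ.2
    rw [Finset.sum_congr rfl (g := fun g => 1 + (if g = 1 then ((p : ℝ) + 1) ^ 2 - 1 else 0) -
      if χ.1 g = 0 then 1 else 0) (fun g _ => by
        by_cases g1 : g = 1
        · rw [g1, if_pos rfl, if_neg n0, v0, Complex.normSq_natCast]; push_cast; ring
        rw [if_neg g1]
        obtain ⟨r, hr, a⟩ := ex g g1
        rcases tri g r hr a with rfl | b | b
        · simp [v1 g a]
        · simp [v2 g r hr a b]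
        · simp [v3 g r hr a b]), Finset.sum_sub_distrib, Finset.sum_add_distrib, Finset.sum_boole,
      Finset.sum_ite_eq', if_pos (Finset.mem_univ _), Finset.sum_const, Finset.card_univ,
      ← Nat.card_eq_fintype_card, nsmul_one] at e
    rw [← Set.ncard_coe_finset, Finset.coe_filter] at e
    simp only [Finset.mem_univ, true_and] at e
    have : (({g : G | χ.1 g = 0}.ncard : ℕ) : ℝ) = (p * (p + 2) : ℕ) := by
      push_cast; linear_combination -e
    exact_mod_cast this
  have key : ∀ s : G, χ.1 s = 0 → Nat.card (centralizer ({s} : Set G)) = p + 1 ∧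
      ∀ y, χ.1 y = 0 → IsConj s y := fun s hs => by
    have s1 : s ≠ 1 := fun e => n0 (e ▸ hs)
    have cop : (Nat.card (centralizer ({s} : Set G))).Coprime (p * (p + 2)) :=
      Nat.coprime_of_dvd fun r hr a b => by
        have := Fact.mk hr
        obtain ⟨⟨y, hy⟩, oy⟩ := exists_prime_orderOf_dvd_card' r a
        rw [orderOf_mk] at oy
        have cm : Commute s y := (mem_centralizer_singleton_iff.1 hy).symm
        have nd : ¬ r ∣ orderOf s := fun d => by
          rcases hr.dvd_mul.1 b with b | b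
          · rw [v1 s ((Nat.prime_dvd_prime_iff_eq hr hp.out).1 b ▸ d)] at hs
            exact one_ne_zero hs
          · rw [v3 s r hr d b] at hs
            exact one_ne_zero (neg_eq_zero.1 hs)
        have o := cm.orderOf_mul_eq_mul_orderOf_of_coprime
          (by rw [oy]; exact (hr.coprime_iff_not_dvd.2 nd).symm)
        rw [oy] at o
        obtain ⟨r0, hr0, a0⟩ := ex s s1
        have z : χ.1 (s * y) = 0 := by
          refine v2 _ r0 hr0 (o ▸ a0.mul_right r) ?_
          rcases tri s r0 hr0 a0 with rfl | b | b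
          · rw [v1 s a0] at hs; exact absurd hs one_ne_zero
          · exact b
          · rw [v3 s r0 hr0 a0 b] at hs; exact absurd (neg_eq_zero.1 hs) one_ne_zero
        have d : r ∣ orderOf (s * y) := o ▸ dvd_mul_left r _
        rcases hr.dvd_mul.1 b with b | b
        · rw [v1 _ ((Nat.prime_dvd_prime_iff_eq hr hp.out).1 b ▸ d)] at z
          exact one_ne_zero z
        · rw [v3 _ r hr d b] at z
          exact one_ne_zero (neg_eq_zero.1 z)
    have d : Nat.card (centralizer ({s} : Set G)) ∣ p + 1 := cop.dvd_of_dvd_mul_right (by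
      rw [show (p + 1) * (p * (p + 2)) = Nat.card G by rw [hG]; ring]
      exact card_subgroup_dvd_card _)
    have e := card_centralizer_mul_ncard_conj s
    have sub : {y | IsConj s y} ⊆ {g : G | χ.1 g = 0} := fun y hy => by
      obtain ⟨c, rfl⟩ := isConj_iff.1 hy
      exact (cf s c).trans hs
    have l1 := Set.ncard_le_ncard sub
    have l2 := Nat.le_of_dvd (Nat.succ_pos p) d
    rw [hZ] at l1
    rw [hG] at e
    have l3 : p * (p + 2) ≤ {y | IsConj s y}.ncard := by nlinarith
    refine ⟨?_, fun y hy => (Set.eq_of_subset_of_ncard_le sub (hZ ▸ l3)).ge hy⟩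
    rw [le_antisymm l1 l3] at e
    exact Nat.eq_of_mul_eq_mul_right (m := p * (p + 2)) (by positivity) (by rw [e]; ring)
  have inv : ∀ s : G, s * s = 1 → s ≠ 1 → χ.1 s = 0 := fun s a b =>
    v2 s 2 Nat.prime_two (orderOf_invol a b).symm.dvd (by omega)
  obtain ⟨s0, a0, b0⟩ := exists_invol (H := G) (by
    rw [hG]; exact ((show 2 ∣ p + 1 by omega).mul_right _).mul_left _)
  have sq : ∀ s : G, s * s = 1 → s ≠ 1 → ∀ g ∈ centralizer ({s} : Set G), g * g = 1 :=
    fun s a b g hg => by
      by_cases g1 : g = 1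
      · rw [g1, mul_one]
      obtain ⟨r, hr, d⟩ := ex g g1
      obtain ⟨c, rfl⟩ := isConj_iff.1 ((key s0 (inv s0 a0 b0)).2 g (v2 g r hr d (d.trans (by
        rw [← (key s (inv s a b)).1]; exact Subgroup.orderOf_dvd_natCard _ hg))))
      rw [conj_mul, a0, mul_one, mul_inv_cancel]
  obtain ⟨k, hk⟩ := exists_pow_two_of_sq (H := centralizer ({s0} : Set G)) fun g =>
    Subtype.ext (sq s0 a0 b0 g g.2)
  rw [(key s0 (inv s0 a0 b0)).1] at hk
  obtain ⟨F, _, _, f1, -, f2⟩ := iso_PSL_even D.ncomm (m := k)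
    (Nat.pos_of_ne_zero (by rintro rfl; omega)) (by rw [hG, ← hk, Nat.add_sub_cancel]; ring)
    (fun s a b => ⟨hk ▸ (key s (inv s a b)).1, sq s a b⟩)
    fun s s' a b a' b' => (key s (inv s a b)).2 s' (inv s' a' b')
  exact ⟨⟨k, hk⟩, F, inferInstance, inferInstance, f1.trans hk.symm, f2⟩

end Cfsg.Agent.H2.SqM
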