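import Cfsg.Agent.H58.SWDefs

/-! Project SW, piece NORM. -/

set_option autoImplicit false
open Matrix Cfsg
open scoped commutatorElement

namespace Cfsg.Agent.H2SwNorm

open Cfsg.Agent.H58.SW

variable {F : Type} [Field F] [Fintype F] [DecidableEq F] {n : ℕ} {c : Cl F n}

theorem sup_dec (ka : KA c) {Y : Subgroup (Gl n F)} {s : Gl n F} (hs : s ∈ Y ⊔ c.Z) :
    ∃ y ∈ Y, ∃ z ∈ c.Z, s = y * z := by
  haveI : c.Z.Normal := ⟨fun z hz g => by
    rw [← (ka.zcomm z hz g).eq, mul_inv_cancel_right]; exact hz⟩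
  have h : s ∈ ((Y ⊔ c.Z : Subgroup (Gl n F)) : Set (Gl n F)) := hs
  rw [Subgroup.mul_normal] at h
  obtain ⟨y, hy, z, hz, e⟩ := h
  exact ⟨y, hy, z, hz, e.symm⟩

theorem mem_Z_of_scal {x : Gl n F} (hx : x ∈ c.St) (h : Scal (x : Mt n F)) : x ∈ c.Z := by
  obtain ⟨a, ha⟩ := h
  refine ⟨hx, Subgroup.mem_center_iff.2 fun g => Units.ext ?_⟩
  rw [Units.val_mul, Units.val_mul, ha, Matrix.mul_smul, Matrix.smul_mul, mul_one, one_mul]

theorem comm_mem_S {x s : Gl n F} (hx : x ∈ c.St) (hs : s ∈ c.S) : s * x * s⁻¹ * x⁻¹ ∈ c.S := by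
  refine ⟨c.St.mul_mem (c.St.mul_mem (c.St.mul_mem hs.1 hx) (c.St.inv_mem hs.1)) (c.St.inv_mem hx), ?_⟩
  change Matrix.GeneralLinearGroup.det _ = 1
  rw [map_mul, map_mul, map_mul, map_inv, map_inv, mul_inv_cancel_comm, mul_inv_cancel]

/-- an element centralising `S` modulo `Z` lies in `Z` -/
theorem mem_Z_of_comm (ka : KA c) (ki : KI c) {x : Gl n F} (hx : x ∈ c.St)
    (h : ∀ s ∈ c.S, s * x * s⁻¹ * x⁻¹ ∈ c.Z) : x ∈ c.Z := by
  have h1 : ⁅c.S, c.S⁆ ≤ Subgroup.centralizer {x} := by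
    refine Subgroup.commutator_le.2 fun a ha b hb => Subgroup.mem_centralizer_singleton_iff.2 ?_
    have e : ∀ s ∈ c.S, ∃ z ∈ c.Z, x * s * x⁻¹ = z * s := fun s hs =>
      ⟨_, inv_mem (h s hs), by group⟩
    obtain ⟨u, hu, eu⟩ := e a ha
    obtain ⟨v, hv, ev⟩ := e b hb
    have e1 : x * ⁅a, b⁆ * x⁻¹ = ⁅u * a, v * b⁆ := by
      rw [← eu, ← ev, commutatorElement_def, commutatorElement_def]; group
    have cu := ka.zcomm u hu
    have cv := ka.zcomm v hv
    have e2 : ⁅u * a, v * b⁆ = ⁅a, b⁆ := by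
      rw [commutatorElement_def, commutatorElement_def, _root_.mul_inv_rev, _root_.mul_inv_rev]
      calc u * a * (v * b) * (a⁻¹ * u⁻¹) * (b⁻¹ * v⁻¹)
          = u * (a * (v * b) * a⁻¹) * u⁻¹ * b⁻¹ * v⁻¹ := by group
        _ = a * (v * b) * a⁻¹ * b⁻¹ * v⁻¹ := by rw [(cu _).eq, mul_inv_cancel_right]
        _ = v * (a * b * a⁻¹ * b⁻¹) * v⁻¹ := by
          rw [← mul_assoc a v b, ← (cv a).eq]; group
        _ = a * b * a⁻¹ * b⁻¹ := by rw [(cv _).eq, mul_inv_cancel_right]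
    rw [e2] at e1
    exact (mul_inv_eq_iff_eq_mul.1 e1).symm
  refine mem_Z_of_scal hx (ki.cs _ fun s hs => ?_)
  exact congrArg Units.val (Subgroup.mem_centralizer_singleton_iff.1 (h1 (ki.perf hs))).symm

theorem norm (hKA : KAStmt) (hKT : KTStmt) (hI : IrrStmt) : NormStmt := by
  intro F _ _ _ n c r H Q L X hX inv hZ hS s hs hn
  have ka := hKA F n c
  have kt := hKT F n c
  have ki := hI F n c
  let Y : Subgroup (Gl n F) := c.S ⊓ Subgroup.normalizer (X : Set (Gl n F))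
  have hY : ∀ y ∈ Y, ∀ x ∈ X, y * x * y⁻¹ ∈ X := fun y hy x hx =>
    (Subgroup.mem_normalizer_iff.1 hy.2 x).1 hx
  refine L.maxP Y inf_le_left (fun ψ hψ y hy => ⟨(kt.pres ψ (L.std ψ hψ) y).2.1.2 hy.1,
    Subgroup.mem_normalizer_fintype fun x hx => ?_⟩) (fun h => hZ fun x hx => ?_)
    ⟨hs, Subgroup.mem_normalizer_fintype hn⟩
  · have := inv ψ hψ _ (hY y hy _ (inv ψ⁻¹ (inv_mem hψ) x hx))
    rwa [map_mul, map_mul, map_inv, MulAut.apply_inv_self] at this
  · have hN : ∀ s ∈ c.S, ∀ x ∈ X, s * x * s⁻¹ ∈ X := fun s hs x hx => by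
      obtain ⟨y, hy, z, hz, rfl⟩ := sup_dec ka (h hs)
      rw [_root_.mul_inv_rev, mul_assoc y, (ka.zcomm z hz x).eq, ← mul_assoc, ← mul_assoc,
        mul_inv_cancel_right]
      exact hY y hy x hx
    rcases ki.simp (X ⊓ c.S) inf_le_right (fun s hs x hx =>
      ⟨hN s hs x hx.1, c.S.mul_mem (c.S.mul_mem hs hx.2) (c.S.inv_mem hs)⟩) with h1 | h1
    · exact mem_Z_of_comm ka ki (hX hx) fun s hs =>
        h1 ⟨X.mul_mem (hN s hs x hx) (X.inv_mem hx), comm_mem_S (hX hx) hs⟩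
    · exact absurd (h1.trans (sup_le_sup_right inf_le_left _)) hS

theorem cent (hKA : KAStmt) (hKT : KTStmt) (hI : IrrStmt) : CentStmt := by
  intro F _ _ _ n c r H Q L T inv ⟨x₀, hx₀, ns⟩
  have ka := hKA F n c
  have kt := hKT F n c
  have ki := hI F n c
  let Y : Subgroup (Gl n F) :=
    { carrier := {s | s ∈ c.S ∧ ∀ x ∈ T, Commute (s : Mt n F) x}
      one_mem' := ⟨one_mem _, fun x _ => Commute.one_left x⟩
      mul_mem' := fun ha hb => ⟨mul_mem ha.1 hb.1, fun x hx => (ha.2 x hx).mul_left (hb.2 x hx)⟩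
      inv_mem' := fun ha => ⟨inv_mem ha.1, fun x hx => (ha.2 x hx).units_inv_left⟩ }
  have hinv : InvG H Y := by
    intro ψ hψ s hs
    refine ⟨(kt.pres ψ (L.std ψ hψ) s).2.1.2 hs.1, fun x hx => ?_⟩
    obtain ⟨t, ht⟩ := L.std ψ hψ
    obtain ⟨y, hy, rfl⟩ := kt.surj H T inv ψ hψ t ht x hx
    rw [ht.2.2 s]
    cases hn : t.neg
    · change _ * _ = _ * _
      rw [if_neg (by simp), ← kt.mul t hn, ← kt.mul t hn, (hs.2 y hy).eq]
    · change _ * _ = _ * _
      rw [if_pos rfl, ← kt.mul' t hn, ← kt.mul' t hn, (hs.2 y hy).units_inv_left.eq]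
  have hle : Y ≤ c.hat H := L.maxP Y (fun s hs => hs.1) hinv fun h => ns (ki.cs _ fun s hs => by
    obtain ⟨y, hy, z, hz, rfl⟩ := sup_dec ka (h hs)
    obtain ⟨a, -, ha⟩ := (ka.mem_Z z).1 hz
    rw [Units.val_mul, ha]
    exact (hy.2 x₀ hx₀).symm.mul_right ((Commute.one_right _).smul_right a))
  exact ⟨fun s hs h => hle ⟨hs, h⟩, Y, hle, hinv, fun s => Iff.rfl⟩

omit [Fintype F] [DecidableEq F] in
theorem span_mul {A : Subgroup (Gl n F)} {x y : Mt n F} (hx : x ∈ spanG A) (hy : y ∈ spanG A) :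
    x * y ∈ spanG A := by
  induction hx, hy using Submodule.span_induction₂ with
  | mem_mem x y hx hy =>
    obtain ⟨a, ha, rfl⟩ := hx
    obtain ⟨b, hb, rfl⟩ := hy
    exact Submodule.subset_span ⟨a * b, mul_mem ha hb, rfl⟩
  | zero_left y _ => rw [zero_mul]; exact zero_mem _
  | zero_right x _ => rw [mul_zero]; exact zero_mem _
  | add_left x y z _ _ _ h1 h2 => rw [add_mul]; exact add_mem h1 h2
  | add_right x y z _ _ _ h1 h2 => rw [mul_add]; exact add_mem h1 h2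
  | smul_left a x y _ _ h => rw [smul_mul_assoc]; exact Submodule.smul_mem _ a h
  | smul_right a x y _ _ h => rw [mul_smul_comm]; exact Submodule.smul_mem _ a h

omit [Fintype F] [DecidableEq F] in
theorem span_comm {A : Subgroup (Gl n F)} (ab : Ab A) {x y : Mt n F} (hx : x ∈ spanG A)
    (hy : y ∈ spanG A) : Commute x y := by
  induction hx, hy using Submodule.span_induction₂ with
  | mem_mem x y hx hy =>
    obtain ⟨a, ha, rfl⟩ := hx
    obtain ⟨b, hb, rfl⟩ := hy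
    exact congrArg Units.val (ab a ha b hb).eq
  | zero_left y _ => exact Commute.zero_left _
  | zero_right x _ => exact Commute.zero_right _
  | add_left x y z _ _ _ h1 h2 => exact h1.add_left h2
  | add_right x y z _ _ _ h1 h2 => exact h1.add_right h2
  | smul_left a x y _ _ h => exact h.smul_left a
  | smul_right a x y _ _ h => exact h.smul_right a

theorem spanNe (hKA : KAStmt) (hKT : KTStmt) (hI : IrrStmt) : SpanNeStmt := by
  intro F _ _ _ n c r H Q L s A hs hsH hZ hA inv ab h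
  have ka := hKA F n c
  have kt := hKT F n c
  have ki := hI F n c
  have one : ((1 : Gl n F) : Mt n F) ∈ spanG A := Submodule.subset_span ⟨1, one_mem _, rfl⟩
  have pw : ∀ x : Gl n F, (x : Mt n F) ∈ spanG A → ∀ k : ℕ, ((x ^ k : Gl n F) : Mt n F) ∈ spanG A :=
    fun x hx k => by
      induction k with
      | zero => rw [pow_zero]; exact one
      | succ k ih => rw [pow_succ, Units.val_mul]; exact span_mul ih hx
  let X : Subgroup (Gl n F) :=
    { carrier := {x | x ∈ c.St ∧ (x : Mt n F) ∈ spanG A}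
      one_mem' := ⟨one_mem _, one⟩
      mul_mem' := fun ha hb => ⟨mul_mem ha.1 hb.1, span_mul ha.2 hb.2⟩
      inv_mem' := fun {x} hx => ⟨inv_mem hx.1, by
        obtain ⟨k, hk⟩ := mem_powers_iff_mem_zpowers.2 (inv_mem (Subgroup.mem_zpowers x))
        rw [← hk]
        exact pw x hx.2 k⟩ }
  have hAX : A ≤ X := fun a ha => ⟨hA ha, Submodule.subset_span ⟨a, ha, rfl⟩⟩
  refine hsH (norm hKA hKT hI F n c r H Q L X (fun x hx => hx.1) (fun ψ hψ x hx => ?_)
    (fun h1 => hZ.not_ge (hAX.trans h1)) (fun h1 => ?_) s hs fun x hx => ?_)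
  · refine ⟨(kt.pres ψ (L.std ψ hψ) x).1.2 hx.1, ?_⟩
    obtain ⟨t, ht⟩ := L.std ψ hψ
    rw [ht.2.2 x]
    refine kt.span H A inv ψ hψ t ht _ ?_
    split_ifs
    · exact (inv_mem hx : x⁻¹ ∈ X).2
    · exact hx.2
  · obtain ⟨t, ht, t1, -⟩ := ki.tv
    have : ⁅c.S, c.S⁆ ≤ ⊥ := Subgroup.commutator_le.2 fun a ha b hb => by
      obtain ⟨y, hy, z, hz, rfl⟩ := sup_dec ka (h1 ha)
      obtain ⟨y', hy', z', hz', rfl⟩ := sup_dec ka (h1 hb)
      have cy : Commute y y' := Units.ext (span_comm ab hy.2 hy'.2).eq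
      exact Subgroup.mem_bot.2 (commutatorElement_eq_one_iff_commute.2
        ((cy.mul_right (ka.zcomm z' hz' y).symm).mul_left (ka.zcomm z hz _)))
    exact t1 (Subgroup.mem_bot.1 (this (ki.perf ht)))
  · refine ⟨mul_mem (mul_mem hs.1 hx.1) (inv_mem hs.1), ?_⟩
    have key : ∀ m ∈ spanG A, (s : Mt n F) * m * ((s⁻¹ : Gl n F) : Mt n F) ∈ spanG A := by
      intro m hm
      induction hm using Submodule.span_induction with
      | mem m hm =>
        obtain ⟨a, ha, rfl⟩ := hm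
        exact h a ha
      | zero => rw [mul_zero, zero_mul]; exact zero_mem _
      | add a b _ _ h1 h2 => rw [mul_add, add_mul]; exact add_mem h1 h2
      | smul a m _ h1 => rw [mul_smul_comm, smul_mul_assoc]; exact Submodule.smul_mem _ a h1
    exact key _ hx.2

end Cfsg.Agent.H2SwNorm
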