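import Cfsg.Agent.H6.TIDefs

/-! Project TI, piece NM: edges that are not large. -/

set_option autoImplicit false

namespace Cfsg.Agent.H2.TIN

open Cfsg Subgroup Cfsg.Agent.H6.TI
open Cfsg.Agent.H83 (cj)
open scoped Cfsg.Agent.H63 commutatorElement

universe u
variable {G : Type u} [Group G] {Ω : Set (Subgroup G)} {A B C : Subgroup G}

theorem notA (h : C0 Ω) (e : Ed Ω A B) {b : G} (hb : b ∈ B) (h1 : b ≠ 1) : b ∉ A :=
  fun ha => e.ne (h.ba.eq A e.l B e.r b ha hb h1)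

theorem conj_ax {g j : G} (hA : g ∈ N[A]) (hB : g ∈ N[B]) (hj : j ∈ ax B A) :
    g * j * g⁻¹ ∈ ax B A := by
  have := H83.conj_mem_cj (g := g) hj
  rwa [← ax_cj, H83.cj_eq_self hA, H83.cj_eq_self hB] at this

theorem core [Finite G] (h : C0 Ω) (h7 : L7 Ω) (hl : LN Ω) (m : Mn Ω A B) (e : Ed Ω A C)
    (n : ¬ Mn Ω A C) (le : ax A C ≤ ax A B) : qq A B = 2 ∧ qq A C = 4 := by
  have ba := h.ba
  have ne : ¬ ax A B ≤ ax A C := fun l => n (ba.mn_of_le m e.r e.ne.symm (l.trans ax_le_norm)).1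
  have jv : ∀ {A B : Subgroup G} {j : G}, j ∈ ax B A → j ∈ vv A B := fun hj => mem_sup_right hj
  have k1 : ∀ c ∈ ax C A, ∀ a ∈ A, ⁅a, c⁆ ∈ ax A C := fun c hc a ha => ba.brk e a ha c (jv hc)
  have k2 : ∀ c ∈ ax C A, ∃ a ∈ A, cj c B = cj a B := fun c hc => by
    refine hl.line m (m.cjN h.toTI hc.2) ?_
    rw [(ax_cjN hc.2 B).1, H83.cj_eq_self]
    refine mem_normalizer_fintype fun i hi => ?_
    have := mul_mem hi (le (k1 c hc _ (inv_mem hi.1)))
    rwa [commutatorElement_def, show i * (i⁻¹ * c * i⁻¹⁻¹ * c⁻¹) = c * i * c⁻¹ by group] at this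
  have mul : (ax A C).relIndex (ax A B) * qq A B = qq A C := relIndex_mul_relIndex _ _ _ le ax_le
  obtain ⟨-, q2, -⟩ := ba.hq m.toEd
  -- `q ≤ |I : K|`
  have k3 : qq A B ≤ (ax A C).relIndex (ax A B) := by
    obtain ⟨⟨c, hc⟩, c1⟩ := ne_bot_iff_exists_ne_one.1 (ba.symm e).nb
    have c1' : c ≠ 1 := fun e => c1 (Subtype.ext e)
    obtain ⟨a, ha, e1⟩ := k2 c hc
    have ai : a⁻¹ = a := inv_eq_of_mul_eq_one_right (h.sq A m.l a ha)
    have ci : c⁻¹ = c := inv_eq_of_mul_eq_one_right (h.sq C e.r c hc.1)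
    have cm : ∀ x ∈ A, ⁅x, a * c⁆ = ⁅x, c⁆ := fun x hx => by
      have e2 : ⁅x, a * c⁆ = a * ⁅x, c⁆ * a⁻¹ := by
        simp only [commutatorElement_def]
        rw [← mul_assoc x, ba.mul_comm A m.l x hx a ha]; group
      rw [e2, ba.mul_comm A m.l a ha _ (k1 c hc x hx).1, mul_inv_cancel_right]
    have cc : ∀ x ∈ A, (x * (a * c) = a * c * x ↔ x ∈ ax A C) := fun x hx => by
      rw [← ba.cA e x hx c (jv hc) (notA h e hc.1 c1'), ← commutatorElement_eq_one_iff_mul_comm,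
        ← commutatorElement_eq_one_iff_mul_comm, cm x hx]
    rcases h.bb.wg m.toEd (a * c) (mul_mem (le_normalizer ha) hc.2)
      (H83.cj_eq_self_iff.1 (by rw [H83.cj_mul, e1, ← H83.cj_mul, h.sq A m.l a ha, H83.cj_one]))
      ⟨2, by
        have := h.sq A m.l _ (k1 c hc a ha).1
        rw [commutatorElement_def, ai, ci] at this
        rw [← this]; simp only [pow_succ, pow_zero, one_mul, mul_assoc, Nat.reduceMul]⟩
      (fun x hx => by rw [cm x hx]; exact le (k1 c hc x hx)) with w | w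
    · exact absurd (fun i hi => (cc i hi.1).1 (w i (mem_sup_left hi))) ne
    · refine w.trans_eq ?_
      rw [← inf_relIndex_right, ← inf_relIndex_right (ax A C)]
      congr 1
      ext x
      exact and_congr_left fun hx => mem_centralizer_singleton_iff.trans (cc x hx.1)
  -- some `c ≠ 1` normalizes `B`
  obtain ⟨c, hc, c1, cB⟩ : ∃ c ∈ ax C A, c ≠ 1 ∧ c ∈ N[B] := by
    by_contra hn
    choose! f f1 f2 using k2
    have := Nat.card_le_card_of_injective
      (fun c : ax C A => (QuotientGroup.mk ⟨f c, f1 c c.2⟩ : A ⧸ (ax A B).subgroupOf A))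
      fun c d e => by
        by_contra hcd
        have e1 : (f c)⁻¹ * f d ∈ ax A B :=
          mem_subgroupOf.1 ((QuotientGroup.eq (s := (ax A B).subgroupOf A)).1 e)
        refine hn ⟨(c : G)⁻¹ * d, mul_mem (inv_mem c.2) d.2,
          fun e => hcd (Subtype.ext (inv_mul_eq_one.1 e)), H83.cj_eq_self_iff.1 ?_⟩
        rw [H83.cj_mul, f2 _ d.2, ← mul_inv_cancel_left (f c) (f d), H83.cj_mul,
          H83.cj_eq_self e1.2, ← f2 _ c.2, H83.cj_inv_cj]
    change hh C A ≤ qq A B at this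
    obtain ⟨-, -, q3, -⟩ := ba.hq e
    rw [← (ba.card e).1] at this
    nlinarith
  obtain ⟨a, ha, aI⟩ : ∃ a ∈ A, a ∉ ax A B := by
    by_contra hn
    have : qq A B = 1 := relIndex_eq_one.2 fun a ha => by_contra fun h => hn ⟨a, ha, h⟩
    omega
  obtain ⟨⟨k, hk⟩, hk1⟩ := ne_bot_iff_exists_ne_one.1 e.nb
  have hk1' : k ≠ 1 := fun e => hk1 (Subtype.ext e)
  obtain ⟨b, ⟨hb, b1⟩, bu⟩ := ba.phi m.toEd a ha aI k (le hk)
  have ev := (h.bb.eqv m.toEd c hc.2 cB fun x hx => le (k1 c hc x hx)).1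
  have cb : c * b * c⁻¹ = b := bu _ ⟨conj_ax hc.2 cB hb, by
    rw [ev a ha b hb, b1, ← ba.comm A e.l C e.r e.ne k hk c hc, mul_inv_cancel_right]⟩
  have bC : b ∈ N[C] := ba.cent C e.r c hc.1 c1 b (mul_inv_eq_iff_eq_mul.1 cb).symm
  have b2 : ∀ x ∈ A, ⁅x, b⁆ ∈ ax A C := fun x hx => by
    have := ev x hx b hb
    rw [cb, eq_mul_inv_iff_mul_eq] at this
    exact (ba.cA e _ (ba.brk m.toEd x hx b (jv hb)).1 c (jv hc) (notA h e hc.1 c1)).1 this
  have b3 : ∀ x ∈ ax A C, x * b = b * x := fun x hx => ba.comm A m.l B m.r m.ne x (le hx) b hb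
  have b0 : b ≠ 1 := fun e => hk1' (by rw [← b1, e, commutatorElement_one_right])
  have := h7 e b hb.2 bC (by
    rw [vv, H83.centralizer_sup]
    refine ⟨b3, fun y hy => ?_⟩
    obtain ⟨j, -, ju⟩ := ba.phi e a ha (fun h => aI (le h)) _ (k1 y hy a ha)
    have := (ju _ ⟨conj_ax hb.2 bC hy, by
      rw [(h.bb.eqv e b hb.2 bC b2).1 a ha y hy, ← b3 _ (k1 y hy a ha), mul_inv_cancel_right]⟩).trans
      (ju y ⟨hy, rfl⟩).symm
    exact (mul_inv_eq_iff_eq_mul.1 this).symm)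
    (fun w => hk1' (b1.symm.trans (commutatorElement_eq_one_iff_mul_comm.2 (w a ha))))
  have e2 : A ⊓ C1[b] = ax A B := by
    ext x
    exact and_congr_right fun hx => mem_centralizer_singleton_iff.trans
      ((ba.cA m.toEd x hx b (jv hb) (notA h m.toEd hb.1 b0)).trans (and_iff_right hx))
  rw [e2] at this
  have q : qq A B = 2 := by omega
  exact ⟨q, by rw [← mul, q]; omega⟩

theorem nm : NMStmt.{u} := by
  intro G _ _ Ω h h7 hl A B C m e n
  obtain ⟨g, hg, le, -⟩ := h.ba.conjAx m e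
  have := core h h7 hl m (e.cjN h.toTI hg) (fun m' => n (by
    have := m'.cjN h.toTI (inv_mem hg)
    rwa [H83.cj_inv_cj] at this)) le
  rwa [← qq_cj g A C, H83.cj_eq_self hg]

end Cfsg.Agent.H2.TIN
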